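import Mathlib
import Cfsg.Agent.H12.Ae0
import Cfsg.Agent.S3335

/-! The amalgam generates a copy of `A₈`. -/

set_option autoImplicit false

namespace Cfsg.Agent.H12.Ae

open Subgroup Equiv

/-- the relations of the presentation of `A₈` -/
def pC_rels : Set (FreeGroup (Fin 6)) :=
  {g : FreeGroup (Fin 6) | ∃ i : Fin 6, i.val = 0 ∧ g = FreeGroup.of i ^ 3} ∪
    {g | ∃ i : Fin 6, 1 ≤ i.val ∧ g = FreeGroup.of i ^ 2} ∪
    {g | ∃ i j : Fin 6, j.val = i.val + 1 ∧ g = (FreeGroup.of i * FreeGroup.of j) ^ 3} ∪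
    {g | ∃ i j : Fin 6, i.val + 1 < j.val ∧ g = (FreeGroup.of i * FreeGroup.of j) ^ 2}

theorem pC_lift {H : Type*} [Group H] (y : Fin 6 → H) (h0 : y 0 ^ 3 = 1)
    (h1 : ∀ i : Fin 6, 1 ≤ i.val → y i ^ 2 = 1)
    (h2 : ∀ i j : Fin 6, j.val = i.val + 1 → (y i * y j) ^ 3 = 1)
    (h3 : ∀ i j : Fin 6, i.val + 1 < j.val → (y i * y j) ^ 2 = 1) :
    ∃ φ : PresentedGroup pC_rels →* H, ∀ i, φ (PresentedGroup.of i) = y i := by
  refine ⟨PresentedGroup.toGroup (f := y) ?_, fun i => PresentedGroup.toGroup.of _⟩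
  rintro r (((⟨i, hi, rfl⟩ | ⟨i, hi, rfl⟩) | ⟨i, j, hi, rfl⟩) | ⟨i, j, hi, rfl⟩)
  · obtain rfl : i = 0 := Fin.ext hi
    simpa using h0
  · simpa using h1 i hi
  · simpa using h2 i j hi
  · simpa using h3 i j hi

/-- generators of `A₈` -/
def pC_x : Fin 6 → alternatingGroup (Fin 8) :=
  ![z0, w1, a8 (swap 0 1 * swap 7 6), a8 (swap 0 1 * swap 6 3), a8 (swap 0 1 * swap 3 4),
    a8 (swap 0 1 * swap 4 5)]

theorem pC_ext {H : Type*} [Group H] (y : Fin 6 → H) (h0 : y 0 ^ 3 = 1)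
    (h1 : ∀ i : Fin 6, 1 ≤ i.val → y i ^ 2 = 1)
    (h2 : ∀ i j : Fin 6, j.val = i.val + 1 → (y i * y j) ^ 3 = 1)
    (h3 : ∀ i j : Fin 6, i.val + 1 < j.val → (y i * y j) ^ 2 = 1) (hy : y 0 ≠ 1) :
    ∃ f : alternatingGroup (Fin 8) →* H, Function.Injective f ∧ ∀ i, f (pC_x i) = y i := by
  obtain ⟨e⟩ : Nonempty (PresentedGroup pC_rels ≃* alternatingGroup (Fin 8)) :=
    Cfsg.Agent.S3335.result 8 (by norm_num)
  have hs : IsSimpleGroup (alternatingGroup (Fin 8)) :=
    alternatingGroup.isSimpleGroup (by simp)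
  have : IsSimpleGroup (PresentedGroup pC_rels) := e.isSimpleGroup
  have : Finite (PresentedGroup pC_rels) := Finite.of_equiv _ e.symm.toEquiv
  obtain ⟨φ, hφ⟩ := pC_lift pC_x (by decide +kernel) (by decide +kernel) (by decide +kernel)
    (by decide +kernel)
  obtain ⟨ψ, hψ⟩ := pC_lift y h0 h1 h2 h3
  have inj : ∀ {K : Type _} [Group K] (χ : PresentedGroup pC_rels →* K),
      χ (PresentedGroup.of 0) ≠ 1 → χ.ker = ⊥ := by
    intro K _ χ h
    rcases χ.normal_ker.eq_bot_or_eq_top with h1 | h1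
    · exact h1
    · exact absurd (h1 ▸ mem_top _ : PresentedGroup.of 0 ∈ χ.ker) h
  have hφi : Function.Injective φ := by
    rcases φ.normal_ker.eq_bot_or_eq_top with h1 | h1
    · exact (MonoidHom.ker_eq_bot_iff _).1 h1
    · have h : φ (PresentedGroup.of 0) = 1 := (h1 ▸ mem_top _ : PresentedGroup.of 0 ∈ φ.ker)
      rw [hφ] at h
      exact absurd h (by decide +kernel)
  have hb : Function.Bijective φ :=
    (Nat.bijective_iff_injective_and_card _).2 ⟨hφi, Nat.card_congr e.toEquiv⟩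
  let e' := MulEquiv.ofBijective φ hb
  refine ⟨ψ.comp e'.symm.toMonoidHom, ((MonoidHom.ker_eq_bot_iff _).1
    (inj ψ (by rw [hψ]; exact hy))).comp e'.symm.injective, fun i => ?_⟩
  have : e'.symm (pC_x i) = PresentedGroup.of i := e'.symm_apply_eq.2 (hφ i).symm
  change ψ (e'.symm _) = _
  rw [this, hψ]

variable {G : Type*} [Group G] [Finite G] {ε ε' : E35 →* G}

theorem pC (h : SB ε ε') : ∃ f : alternatingGroup (Fin 8) →* G, Function.Injective f ∧
    f z0 = ε zE ∧ f z0' = ε zE' ∧ f u1 = ε u1E ∧ f u2 = ε u2E ∧ f w1 = ε' u1E ∧ f w2 = ε' u2E := by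
  let y : Fin 6 → G := ![ε zE, ε' u1E, ε eE', ε (el (swap 0 1) (swap 0 3)), ε (eE * eE'),
    ε (el (swap 0 1) (swap 1 2))]
  let a : Fin 6 → E35 := ![zE, 1, eE', el (swap 0 1) (swap 0 3), eE * eE', el (swap 0 1) (swap 1 2)]
  let b : Fin 6 → E35 := ![zE', u1E, eE, 1, eE' * eE, eE' * eE * zE]
  have ha : ∀ i, i ≠ 1 → y i = ε (a i) := by
    intro i hi
    fin_cases i <;> first | rfl | exact absurd rfl hi
  have hb : ∀ i, i ≠ 3 → y i = ε' (b i) := by
    intro i hi
    fin_cases i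
    · exact h.c2.symm
    · rfl
    · exact h.c3.symm
    · exact absurd rfl hi
    · change ε (eE * eE') = ε' (eE' * eE)
      rw [map_mul, map_mul, h.c3, h.c4]
    · change ε (el (swap 0 1) (swap 1 2)) = ε' (eE' * eE * zE)
      rw [map_mul, map_mul, h.c3, h.c4, h.c1, ← map_mul, ← map_mul]
      congr 1
      decide +kernel
  have ra : ∀ i j n, i ≠ 1 → j ≠ 1 → (a i * a j) ^ n = 1 → (y i * y j) ^ n = 1 := by
    intro i j n hi hj e
    rw [ha i hi, ha j hj, ← map_mul, ← map_pow, e, map_one]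
  have rb : ∀ i j n, i ≠ 3 → j ≠ 3 → (b i * b j) ^ n = 1 → (y i * y j) ^ n = 1 := by
    intro i j n hi hj e
    rw [hb i hi, hb j hj, ← map_mul, ← map_pow, e, map_one]
  have h1 : ∀ i : Fin 6, 1 ≤ i.val → y i ^ 2 = 1 := by
    intro i hi
    by_cases h3 : i = 3
    · rw [ha i (by rintro rfl; simp at h3), ← map_pow, h3, ← map_one ε]
      congr 1
      decide +kernel
    · rw [hb i h3, ← map_pow, ← map_one ε']
      congr 1
      revert i; decide +kernel
  have h13 : (y 1 * y 3) ^ 2 = 1 := by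
    have c15 : Commute (y 1) (y 5) := by
      rw [hb 1 (by decide), hb 5 (by decide)]
      exact Commute.map (by change _ * _ = _ * _; decide +kernel) ε'
    have e3 : y 3 = y 5 * (ε u1E * ε u2E) := by
      rw [ha 3 (by decide), ha 5 (by decide), ← map_mul, ← map_mul]
      congr 1
      decide +kernel
    have c13 : Commute (y 1) (y 3) := by
      rw [e3]
      exact c15.mul_right (h.m11.symm.mul_right h.m21.symm)
    rw [c13.mul_pow, h1 1 (by decide), h1 3 (by decide), one_mul]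
  obtain ⟨f, hf, hx⟩ := pC_ext y
    (by rw [ha 0 (by decide), ← map_pow, ← map_one ε]; congr 1; decide +kernel) h1
    (fun i j hij => by
      by_cases hi : i = 1 ∨ j = 1
      · refine rb i j 3 ?_ ?_ ?_ <;> revert i j <;> decide +kernel
      · refine ra i j 3 ?_ ?_ ?_ <;> revert i j <;> decide +kernel)
    (fun i j hij => by
      by_cases h0 : i = 1 ∧ j = 3
      · rw [h0.1, h0.2]; exact h13
      by_cases hi : i = 1 ∨ j = 1
      · refine rb i j 2 ?_ ?_ ?_ <;> revert i j <;> decide +kernel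
      · refine ra i j 2 ?_ ?_ ?_ <;> revert i j <;> decide +kernel)
    (fun e => by
      have : zE = 1 := h.inj (e.trans (map_one ε).symm)
      exact absurd this (by decide +kernel))
  refine ⟨f, hf, hx 0, ?_, ?_, ?_, hx 1, ?_⟩
  · rw [show z0' = pC_x 4 * pC_x 5 by decide +kernel]
    simp only [map_mul, hx, ha 4 (by decide), ha 5 (by decide)]
    simp only [← map_mul]
    congr 1
    decide +kernel
  · rw [show u1 = pC_x 4 * (pC_x 3 * pC_x 4 * pC_x 5 * pC_x 4 * pC_x 3) by decide +kernel]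
    simp only [map_mul, hx, ha 3 (by decide), ha 4 (by decide), ha 5 (by decide)]
    simp only [← map_mul]
    congr 1
    decide +kernel
  · rw [show u2 = pC_x 4 * pC_x 5 * pC_x 4 * (pC_x 3 * pC_x 4 * pC_x 3) by decide +kernel]
    simp only [map_mul, hx, ha 3 (by decide), ha 4 (by decide), ha 5 (by decide)]
    simp only [← map_mul]
    congr 1
    decide +kernel
  · rw [show w2 = pC_x 0 * pC_x 0 * pC_x 1 * pC_x 0 by decide +kernel]
    simp only [map_mul, hx, hb 0 (by decide), hb 1 (by decide)]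
    simp only [← map_mul]
    congr 1
    decide +kernel

end Cfsg.Agent.H12.Ae
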