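import Mathlib

/-! The amalgam of two copies of `3² : GL₂(3)`: generators and relations. -/

set_option autoImplicit false

namespace Cfsg.Agent.H10.Am

variable {G : Type*} [Group G]

/-- relations of `3^{1+2} : 2²` -/
structure AC (a b z t s : G) : Prop where
  a3 : a * a * a = 1
  b3 : b * b * b = 1
  z3 : z * z * z = 1
  tt : t * t = 1
  ss : s * s = 1
  ts : t * s = s * t
  az : a * z = z * a
  bz : b * z = z * b
  ab : a * b * a⁻¹ * b⁻¹ = z
  ta : t * a * t⁻¹ = a⁻¹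
  tb : t * b = b * t
  tz : t * z * t⁻¹ = z⁻¹
  sa : s * a = a * s
  sb : s * b * s⁻¹ = b⁻¹
  sz : s * z * s⁻¹ = z⁻¹

/-- relations of the amalgam; `A = ⟨a,b,z,t,s,m⟩`, `B = ⟨a,b,z,t,s,n⟩` -/
structure AM (a b z t s m n : G) : Prop extends AC a b z t s where
  mm : m * m = t
  ms : m * s * m⁻¹ = t * s
  ma : m * a * m⁻¹ = z⁻¹
  mz : m * z * m⁻¹ = a
  mb : (m * b) ^ 3 = 1
  nn : n * n = s
  nt : n * t * n⁻¹ = t * s
  nb : n * b * n⁻¹ = z
  nz : n * z * n⁻¹ = b⁻¹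
  na : (n * a) ^ 3 = 1

end Cfsg.Agent.H10.Am
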