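import Cfsg.Agent.H10.AmSa

/-! The generators of the amalgam. -/

set_option autoImplicit false
set_option linter.unusedVariables false
set_option linter.unusedSectionVars false

namespace Cfsg.Agent.H10.Am

open Subgroup

variable {G : Type*} [Group G] [Finite G] {A B Q R : Subgroup G} {z : G}

theorem pS_c3 {x : G} (h : x ^ 3 = 1) : x * x * x = 1 := by rwa [pow_succ, pow_two] at h

theorem pS_ni {x z : G} (n : x ∉ zpowers z) : x⁻¹ ∉ zpowers z := fun e => n (by simpa using e)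

theorem pS_sw (h : PA A Q) {x : G} (hx : x ∈ Q) (hz : z ∈ Q) (z1 : z ≠ 1) (n : x ∉ zpowers z) :
    x ≠ 1 ∧ z ∉ zpowers x := by
  refine ⟨fun e => n (e ▸ one_mem _), fun e => ?_⟩
  rcases pS_zp (h.e3 x hx) e with r | r | r
  · exact z1 r
  · exact n (r ▸ mem_zpowers _)
  · exact n (by rw [r]; simp)

theorem pS_main (hA : PA A Q) (hB : PA B R) (zQ : z ∈ Q) (zR : z ∈ R) (z1 : z ≠ 1) (nQ : ¬ Q ≤ R)
    (nR : ¬ R ≤ Q) (QB : Q ≤ B) (RA : R ≤ A)
    (NZ : ∀ g, g * z * g⁻¹ = z ∨ g * z * g⁻¹ = z⁻¹ → g ∈ A ∧ g ∈ B) (top : A ⊔ B = ⊤) :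
    ∃ a b t s m n : G, AM a b z t s m n ∧ closure {a, b, z, t, s, m, n} = ⊤ ∧
      ∀ g, Commute g b → Commute g t → g ∈ zpowers b ⊔ zpowers t := by
  have zi1 : z⁻¹ ≠ 1 := inv_ne_one.2 z1
  obtain ⟨a, aQ, aR⟩ := SetLike.not_le_iff_exists.1 nQ
  have na : a ∉ zpowers z := fun e => aR (zpowers_le.2 zR e)
  have nai : a⁻¹ ∉ zpowers z⁻¹ := by rw [zpowers_inv]; exact pS_ni na
  have az : Commute a z := hA.cm a aQ z zQ
  obtain ⟨t, tA, tz, ta⟩ := hA.sur zQ aQ z1 na (inv_mem zQ) (inv_mem aQ) zi1 nai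
  have ht := hA.invs zQ aQ z1 na tz ta
  obtain ⟨s, sA, st, sz, sa⟩ := hA.sur' zQ aQ z1 na tA ht (inv_mem zQ) aQ zi1 (by rwa [zpowers_inv])
  obtain ⟨b, bA, bt, bz, ba⟩ := hA.sur' zQ aQ z1 na tA ht zQ (mul_mem aQ (inv_mem zQ)) z1
    (fun e => na (by simpa using mul_mem e (mem_zpowers z)))
  obtain ⟨a1, nz⟩ := pS_sw hA aQ zQ z1 na
  obtain ⟨m, mA, mt, mz, ma⟩ := hA.sur' zQ aQ z1 na tA ht aQ (inv_mem zQ) a1 (pS_ni nz)
  have cj : ∀ {g h x : G}, g * h * x * (g * h)⁻¹ = g * (h * x * h⁻¹) * g⁻¹ := by intros; group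
  have ci : ∀ {g x y : G}, g * x * g⁻¹ = y → g⁻¹ * y * g⁻¹⁻¹ = x := by rintro g x _ rfl; group
  have cv : ∀ {g x y : G}, g * x * g⁻¹ = y → g * x⁻¹ * g⁻¹ = y⁻¹ := by rintro g x _ rfl; group
  have cm : ∀ {g x y x' y' : G}, g * x * g⁻¹ = x' → g * y * g⁻¹ = y' → g * (x * y) * g⁻¹ = x' * y' := by
    rintro g x y _ _ rfl rfl; group
  have oneA : ∀ {g : G}, g ∈ A → g * z * g⁻¹ = z → g * a * g⁻¹ = a → Commute g t → g = 1 :=
    fun hg c1 c2 c => hA.one zQ aQ z1 na ht hg c1 c2 c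
  have eqA : ∀ {g h : G}, g ∈ A → h ∈ A → g * z * g⁻¹ = h * z * h⁻¹ → g * a * g⁻¹ = h * a * h⁻¹ →
      Commute g t → Commute h t → g = h := fun {g h} hg hh c1 c2 c c' =>
    (inv_mul_eq_one.1 (oneA (mul_mem (inv_mem hh) hg) (by rw [cj, c1]; group) (by rw [cj, c2]; group)
      (c'.inv_left.mul_left c))).symm
  have z3 := hA.e3 z zQ
  have a3 := hA.e3 a aQ
  have zz : z⁻¹ * z⁻¹ = z := by
    rw [← mul_inv_rev, inv_eq_iff_mul_eq_one]; exact pS_c3 z3
  have tt : t * t = 1 := oneA (mul_mem tA tA) (by rw [cj, tz, cv tz, inv_inv])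
    (by rw [cj, ta, cv ta, inv_inv]) ((Commute.refl t).mul_left (Commute.refl t))
  have ss : s * s = 1 := oneA (mul_mem sA sA) (by rw [cj, sz, cv sz, inv_inv]) (by rw [cj, sa, sa])
    (st.mul_left st)
  have b3 : b * b * b = 1 := oneA (mul_mem (mul_mem bA bA) bA) (by rw [cj, bz, cj, bz, bz])
    (by rw [cj, ba, cj, cm ba (cv bz), cm (cm ba (cv bz)) (cv bz), mul_assoc, mul_assoc, zz]; group)
    ((bt.mul_left bt).mul_left bt)
  have bia : b⁻¹ * a * b⁻¹⁻¹ = a * z := by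
    rw [← ci (cm ba bz)]; group
  have sb : s * b * s⁻¹ = b⁻¹ := eqA (mul_mem (mul_mem sA bA) (inv_mem sA)) (inv_mem bA)
    (by rw [cj, show s⁻¹ * z * s⁻¹⁻¹ = z⁻¹ from by simpa using ci (cv sz), cj, cv bz, cv sz, ci bz,
      inv_inv])
    (by rw [cj, ci sa, cj, ba, cm sa (cv sz), inv_inv z, bia])
    ((st.mul_left bt).mul_left st.inv_left) bt.inv_left
  have mm : m * m = t := eqA (mul_mem mA mA) tA (by rw [cj, mz, ma, tz]) (by rw [cj, ma, cv mz, ta])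
    (mt.mul_left mt) (Commute.refl t)
  have mia : m⁻¹ * a * m⁻¹⁻¹ = z := ci mz
  have miz : m⁻¹ * z * m⁻¹⁻¹ = a⁻¹ := by simpa using ci (cv ma)
  have ms : m * s * m⁻¹ = t * s := eqA (mul_mem (mul_mem mA sA) (inv_mem mA)) (mul_mem tA sA)
    (by rw [cj, miz, cj, cv sa, cv ma, cj, sz, cv tz])
    (by rw [cj, mia, cj, sz, cv mz, cj, sa, ta])
    ((mt.mul_left st).mul_left mt.inv_left) ((Commute.refl t).mul_left st)
  have mbz : m * b * z * (m * b)⁻¹ = a := by rw [cj, bz, mz]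
  have mba : m * b * a * (m * b)⁻¹ = z⁻¹ * a⁻¹ := by rw [cj, ba, cm ma (cv mz)]
  have mb : (m * b) ^ 3 = 1 := by
    rw [pow_succ, pow_two]
    refine oneA (mul_mem (mul_mem (mul_mem mA bA) (mul_mem mA bA)) (mul_mem mA bA)) ?_ ?_
      (((mt.mul_left bt).mul_left (mt.mul_left bt)).mul_left (mt.mul_left bt))
    · rw [cj, mbz, cj, mba, cm (cv mbz) (cv mba)]; group
    · rw [cj, mba, cj, cm (cv mbz) (cv mba), show a⁻¹ * (z⁻¹ * a⁻¹)⁻¹ = z by group, mbz]
  have QR : ∀ q ∈ Q, q ∈ R → q ∈ zpowers z := fun q hq hr => by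
    by_contra n
    exact nQ (hA.gen zQ hq z1 n zR hr)
  have tB := (NZ t (.inr tz)).2
  have sB := (NZ s (.inr sz)).2
  have bR : b ∈ R := by
    have k : ∀ g ∈ R, g * a * g⁻¹ = a * z⁻¹ → b ∈ R := fun g hg e => by
      have gz : g * z * g⁻¹ = z := by rw [hB.cm g hg z zR]; group
      have hq : b⁻¹ * g ∈ Q := hA.cen zQ aQ z1 na (mul_mem (inv_mem bA) (RA hg))
        (by rw [cj, gz, ci bz]) (by rw [cj, e, ci ba])
      obtain ⟨q, hq', rfl⟩ : ∃ q ∈ Q, g = b * q := ⟨_, hq, by group⟩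
      have h1 : b * q⁻¹ ∈ R := by
        have := hB.nm t tB _ hg
        rwa [cm (show t * b * t⁻¹ = b by rw [← bt.eq]; group) (ht q hq')] at this
      have h2 : b * b ∈ R := by
        have := mul_mem (hB.nm q (QB hq') _ hg) (mul_mem (inv_mem hg) (mul_mem hg h1))
        have h3 := hB.nm q⁻¹ (QB (inv_mem hq')) _ h1
        have h4 := mul_mem hg h3
        rwa [show b * q * (q⁻¹ * (b * q⁻¹) * q⁻¹⁻¹) = b * b by group] at h4
      have := mul_mem h2 h2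
      rwa [← mul_assoc, b3, one_mul] at this
    obtain ⟨g, gR, gQ⟩ := SetLike.not_le_iff_exists.1 nR
    have gz : g * z * g⁻¹ = z := by rw [hB.cm g gR z zR]; group
    have hu : a⁻¹ * (g * a * g⁻¹) ∈ zpowers z := QR _ (mul_mem (inv_mem aQ) (hA.nm g (RA gR) a aQ)) (by
      have := mul_mem (hB.nm _ (QB (inv_mem aQ)) g gR) (inv_mem gR)
      simpa [mul_assoc] using this)
    rcases pS_zp z3 hu with r | r | r
    · exact (gQ (hA.cen zQ aQ z1 na (RA gR) gz (inv_mul_eq_one.1 r).symm)).elim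
    · refine k g⁻¹ (inv_mem gR) ?_
      rw [← ci (cm (eq_mul_of_inv_mul_eq r) (cv gz))]; group
    · exact k g gR (eq_mul_of_inv_mul_eq r)
  have nb : b ∉ zpowers z := fun e => by
    have : b * a * b⁻¹ = a := by rw [hA.cm b (zpowers_le.2 zQ e) a aQ]; group
    rw [ba] at this
    exact z1 (by simpa using this)
  have hs := hB.invs zR bR z1 nb sz sb
  obtain ⟨b1, nz'⟩ := pS_sw hB bR zR z1 nb
  obtain ⟨n, nB, ns, nz2, nb2⟩ := hB.sur' zR bR z1 nb sB hs (inv_mem bR) zR (inv_ne_one.2 b1)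
    (by rwa [zpowers_inv])
  have oneB : ∀ {g : G}, g ∈ B → g * z * g⁻¹ = z → g * b * g⁻¹ = b → Commute g s → g = 1 :=
    fun hg c1 c2 c => hB.one zR bR z1 nb hs hg c1 c2 c
  have eqB : ∀ {g h : G}, g ∈ B → h ∈ B → g * z * g⁻¹ = h * z * h⁻¹ → g * b * g⁻¹ = h * b * h⁻¹ →
      Commute g s → Commute h s → g = h := fun {g h} hg hh c1 c2 c c' =>
    (inv_mul_eq_one.1 (oneB (mul_mem (inv_mem hh) hg) (by rw [cj, c1]; group) (by rw [cj, c2]; group)
      (c'.inv_left.mul_left c))).symm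
  have ab : a * b * a⁻¹ * b⁻¹ = z := by
    calc _ = a * (b * a * b⁻¹)⁻¹ := by group
      _ = _ := by rw [ba, mul_inv_rev, inv_inv, ← mul_assoc, az.eq]; group
  have ab' : a * b * a⁻¹ = b * z := by
    rw [← hB.cm z zR b bR, ← ab]; group
  have tb : t * b * t⁻¹ = b := by rw [← bt.eq]; group
  have az' : a * z * a⁻¹ = z := by rw [az.eq]; group
  have as : Commute a s := (mul_inv_eq_iff_eq_mul.1 sa).symm
  have nn : n * n = s := eqB (mul_mem nB nB) sB (by rw [cj, nz2, cv nb2, sz]) (by rw [cj, nb2, nz2, sb])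
    (ns.mul_left ns) (Commute.refl s)
  have niz : n⁻¹ * z * n⁻¹⁻¹ = b := ci nb2
  have nib : n⁻¹ * b * n⁻¹⁻¹ = z⁻¹ := by simpa using ci (cv nz2)
  have nt : n * t * n⁻¹ = t * s := eqB (mul_mem (mul_mem nB tB) (inv_mem nB)) (mul_mem tB sB)
    (by rw [cj, niz, cj, tb, nb2, cj, sz, cv tz, inv_inv])
    (by rw [cj, nib, cj, cv tz, inv_inv, nz2, cj, sb, cv tb])
    ((ns.mul_left st.symm).mul_left ns.inv_left) (st.symm.mul_left (Commute.refl s))
  have naz : n * a * z * (n * a)⁻¹ = b⁻¹ := by rw [cj, az', nz2]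
  have nab : n * a * b * (n * a)⁻¹ = z * b⁻¹ := by rw [cj, ab', cm nb2 nz2]
  have zb : Commute z b := hB.cm z zR b bR
  have na3 : (n * a) ^ 3 = 1 := by
    rw [pow_succ, pow_two]
    have aB := QB aQ
    refine oneB (mul_mem (mul_mem (mul_mem nB aB) (mul_mem nB aB)) (mul_mem nB aB)) ?_ ?_
      (((ns.mul_left as).mul_left (ns.mul_left as)).mul_left (ns.mul_left as))
    · rw [cj, naz, cj, cv nab, mul_inv_rev, inv_inv, cm nab (cv naz)]; group
    · rw [cj, nab, cj, cm naz (cv nab), show b⁻¹ * (z * b⁻¹)⁻¹ = z⁻¹ by group, cv naz, inv_inv]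
  refine ⟨a, b, t, s, m, n, ⟨⟨pS_c3 a3, b3, pS_c3 z3, tt, ss, st.symm.eq, az.eq, zb.symm.eq, ab, ta,
    bt.symm.eq, tz, as.symm.eq, sb, sz⟩, mm, ms, ma, mz, mb, nn, nt, nb2, nz2, na3⟩, ?_, ?_⟩
  · set H := closure ({a, b, z, t, s, m, n} : Set G)
    have k : ∀ x ∈ ({a, b, z, t, s, m, n} : Set G), x ∈ H := fun x hx => subset_closure hx
    have ka := k a (by simp)
    have kb := k b (by simp)
    have kz := k z (by simp)
    have kt := k t (by simp)
    have ks := k s (by simp)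
    have tsz : Commute (t * s) z := mul_inv_eq_iff_eq_mul.1 (by rw [cj, sz, cv tz, inv_inv])
    rw [eq_top_iff, ← top]
    refine sup_le (hA.top aQ (inv_mem zQ) zi1 (by rwa [zpowers_inv]) ka (inv_mem kz) ⟨kb, bA⟩ ⟨kt, tA⟩
      (ρ := t * s) ⟨mul_mem kt ks, mul_mem tA sA⟩ ⟨k m (by simp), mA⟩ ba zb.symm.inv_right ht
      (by rw [cj, sa, ta]) tsz.inv_right ma)
      (hB.top bR zR z1 nb kb kz ⟨ka, QB aQ⟩ ⟨ks, sB⟩ (ρ := t * s) ⟨mul_mem kt ks, mul_mem tB sB⟩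
        ⟨k n (by simp), nB⟩ ab' az hs (by rw [cj, sb, cv tb]) tsz nb2)
  · intro g gb gt
    have rz : t * s * z * (t * s)⁻¹ = z := by rw [cj, sz, cv tz, inv_inv]
    have ra : t * s * a * (t * s)⁻¹ = a⁻¹ := by rw [cj, sa, ta]
    have rj : ∀ j : ℤ, t * s * z ^ j * (t * s)⁻¹ = z ^ j := fun j => by rw [← conj_zpow, rz]
    have sq : ∀ q ∈ Q, q = q⁻¹ → q = 1 := fun q hq e => by
      have e3 := pS_c3 (hA.e3 q hq)
      nth_rewrite 1 [e] at e3
      simpa using e3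
    have k1 : ∀ g ∈ A, g * z * g⁻¹ = z → g * a * g⁻¹ = a → Commute g (t * s) → g ∈ zpowers z := by
      intro g hg e1 e2 c
      have hq := hA.cen zQ aQ z1 na hg e1 e2
      have c' : t * s * g * (t * s)⁻¹ = g := by rw [← c.eq]; group
      obtain ⟨j, e | e | e⟩ := hA.nf aQ zQ z1 na hq
      · exact ⟨j, e.symm⟩
      · rw [e, cm ra (rj j), mul_left_inj] at c'
        exact (a1 (sq a aQ c'.symm)).elim
      · rw [e, cm (cv ra) (rj j), mul_left_inj, inv_inv] at c'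
        exact (a1 (sq a aQ c')).elim
    have k2 : ∀ g, Commute g z → Commute g (t * s) → g ∈ zpowers z ⊔ zpowers (t * s) := by
      intro g c1 c2
      have e1 : g * z * g⁻¹ = z := by rw [c1.eq]; group
      have hg := (NZ g (.inl e1)).1
      have inv : t * s * (g * a * g⁻¹) * (t * s)⁻¹ = (g * a * g⁻¹)⁻¹ := by
        rw [← cj, ← c2.eq, cj, ra]; group
      have zj : ∀ (w : G) (j : ℤ), Commute w z → w⁻¹ * z ^ j = (w * z ^ j)⁻¹ → z ^ j = 1 := fun w j c e => by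
        rw [(c.zpow_right j).eq, mul_inv_rev, mul_right_inj] at e
        exact sq _ (zpow_mem zQ j) e
      obtain ⟨j, e | e | e⟩ := hA.nf aQ zQ z1 na (hA.nm g hg a aQ)
      · exact (pS_cj (g := g) na (by rw [e1, e]; exact ⟨j, rfl⟩)).elim
      · rw [e, cm ra (rj j)] at inv
        rw [zj a j az inv, mul_one] at e
        exact mem_sup_left (k1 g hg e1 e c2)
      · rw [e, cm (cv ra) (rj j)] at inv
        rw [zj a⁻¹ j az.inv_left inv, mul_one] at e
        have := k1 (t * s * g) (mul_mem (mul_mem tA sA) hg) (by rw [cj, e1, rz])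
          (by rw [cj, e, cv ra, inv_inv]) ((Commute.refl _).mul_left c2)
        have h2 := mul_mem (mem_sup_right (S := zpowers z) (inv_mem (mem_zpowers (t * s))))
          (mem_sup_left (T := zpowers (t * s)) this)
        rwa [inv_mul_cancel_left] at h2
    have := k2 (n * g * n⁻¹) (by rw [← nb2]; exact gb.map (MulAut.conj n))
      (by rw [← nt]; exact gt.map (MulAut.conj n))
    have le : zpowers z ⊔ zpowers (t * s) ≤ (zpowers b ⊔ zpowers t).map (MulAut.conj n).toMonoidHom :=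
      sup_le (zpowers_le.2 ⟨b, mem_sup_left (mem_zpowers b), nb2⟩)
        (zpowers_le.2 ⟨t, mem_sup_right (mem_zpowers t), nt⟩)
    obtain ⟨w, hw, e⟩ := le this
    have : w = g := (MulAut.conj n).injective e
    exact this ▸ hw

end Cfsg.Agent.H10.Am
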