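import Cfsg.Prelude.Def_Solvable
import Cfsg.Prelude.Def_CaseTheorems
import Cfsg.Agent.H10.AmSb

/-! From the hypotheses of S3348 to the generators of the amalgam. -/

set_option autoImplicit false
set_option linter.unusedVariables false
set_option linter.unusedSectionVars false

namespace Cfsg.Agent.H10.Am

open Subgroup

variable {G : Type*} [Group G] [Finite G]

theorem pS_pa (A : Subgroup G) (eA : A ⧸ Cfsg.pCore 3 A ≃* GL (Fin 2) (ZMod 3))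
    (hOA : IsMulCommutative (Cfsg.pCore 3 A) ∧ (∀ x ∈ Cfsg.pCore 3 A, x ^ 3 = 1) ∧ Nat.card (Cfsg.pCore 3 A) = 9 ∧
      Subgroup.centralizer ((Cfsg.pCore 3 A : Subgroup A) : Set A) = Cfsg.pCore 3 A) :
    PA A ((Cfsg.pCore 3 A).map A.subtype) := by
  obtain ⟨h1, h2, h3, h4⟩ := hOA
  refine ⟨map_subtype_le _, ?_, ?_, ?_, ?_, ?_, ?_⟩
  · rintro g hg _ ⟨q, hq, rfl⟩
    exact ⟨_, (Cfsg.pCore_normal 3 A).conj_mem q hq ⟨g, hg⟩, rfl⟩
  · rintro _ ⟨x, hx, rfl⟩ _ ⟨y, hy, rfl⟩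
    exact congrArg (fun w : Cfsg.pCore 3 A => ((w : A) : G)) (h1.is_comm.comm ⟨x, hx⟩ ⟨y, hy⟩)
  · rintro _ ⟨x, hx, rfl⟩
    exact congrArg Subtype.val (h2 x hx)
  · rw [card_subtype, h3]
  · intro g hg hc
    refine ⟨⟨g, hg⟩, ?_, rfl⟩
    rw [← h4]
    exact fun q hq => Subtype.ext (hc q ⟨q, hq, rfl⟩).symm
  · have : ((Cfsg.pCore 3 A).map A.subtype).subgroupOf A = Cfsg.pCore 3 A :=
      comap_map_eq_self_of_injective A.subtype_injective _
    rw [this, Nat.card_congr eA.toEquiv]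
    haveI : Fact (Nat.Prime 3) := ⟨by norm_num⟩
    rw [Matrix.card_GL_field]
    simp [Fin.prod_univ_two]

theorem pS_syl {A Q C : Subgroup G} (h : PA A Q) (hC : C ≤ A) (hi : ¬ 3 ∣ (C.subgroupOf A).index)
    (S : Sylow 3 C) : Q ≤ (S : Subgroup C).map C.subtype := by
  haveI : Fact (Nat.Prime 3) := ⟨by norm_num⟩
  set T := (S : Subgroup C).map C.subtype
  have TC : T ≤ C := map_subtype_le _
  have p1 : IsPGroup 3 (T.subgroupOf A) := (S.2.map _).comap_of_injective A.subtype A.subtype_injective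
  have i1 : ¬ 3 ∣ (T.subgroupOf A).index := by
    have e := relIndex_mul_relIndex T C A TC hC
    have e2 : T.relIndex C = (S : Subgroup C).index := by
      rw [relIndex, show T.subgroupOf C = S from comap_map_eq_self_of_injective C.subtype_injective _]
    intro hd
    change 3 ∣ T.relIndex A at hd
    rw [← e, e2] at hd
    rcases (Nat.Prime.dvd_mul (by norm_num)).1 hd with r | r
    exacts [S.not_dvd_index r, hi r]
  have p2 : IsPGroup 3 (Q.subgroupOf A) := fun g => ⟨1, Subtype.ext (Subtype.ext (by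
    simpa using h.e3 _ g.2))⟩
  haveI : (Q.subgroupOf A).Normal := ⟨fun q hq g => h.nm g g.2 q hq⟩
  intro q hq
  exact p2.le_sylow_of_normal (p1.toSylow i1) (show (⟨q, h.le hq⟩ : A) ∈ Q.subgroupOf A from hq)

theorem pS (A B : Subgroup G) (hgen : A ⊔ B = ⊤)
    (hSylA : ¬ 3 ∣ ((A ⊓ B).subgroupOf A).index) (hSylB : ¬ 3 ∣ ((A ⊓ B).subgroupOf B).index)
    (hcore : ∀ N : Subgroup G, N ≤ A ⊓ B → (∀ a ∈ A, N.map (MulAut.conj a).toMonoidHom = N) →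
      (∀ b ∈ B, N.map (MulAut.conj b).toMonoidHom = N) → N = ⊥)
    (eA : A ⧸ Cfsg.pCore 3 A ≃* GL (Fin 2) (ZMod 3)) (eB : B ⧸ Cfsg.pCore 3 B ≃* GL (Fin 2) (ZMod 3))
    (hOA : IsMulCommutative (Cfsg.pCore 3 A) ∧ (∀ x ∈ Cfsg.pCore 3 A, x ^ 3 = 1) ∧ Nat.card (Cfsg.pCore 3 A) = 9 ∧
      Subgroup.centralizer ((Cfsg.pCore 3 A : Subgroup A) : Set A) = Cfsg.pCore 3 A)
    (hOB : IsMulCommutative (Cfsg.pCore 3 B) ∧ (∀ x ∈ Cfsg.pCore 3 B, x ^ 3 = 1) ∧ Nat.card (Cfsg.pCore 3 B) = 9 ∧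
      Subgroup.centralizer ((Cfsg.pCore 3 B : Subgroup B) : Set B) = Cfsg.pCore 3 B)
    (S : Sylow 3 ↥(A ⊓ B)) (Z : Subgroup G)
    (hZ : Z = ((S : Subgroup ↥(A ⊓ B)) ⊓ Subgroup.centralizer ((S : Subgroup ↥(A ⊓ B)) : Set ↥(A ⊓ B))).map (A ⊓ B).subtype)
    (hNZ : Subgroup.normalizer (Z : Set G) ≤ A ⊓ B) :
    ∃ a b z t s m n : G, AM a b z t s m n ∧ z ≠ 1 ∧ closure {a, b, z, t, s, m, n} = ⊤ ∧
      ∀ g, Commute g b → Commute g t → g ∈ zpowers b ⊔ zpowers t := by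
  haveI : Fact (Nat.Prime 3) := ⟨by norm_num⟩
  have hA := pS_pa A eA hOA
  have hB := pS_pa B eB hOB
  generalize (Cfsg.pCore 3 A).map A.subtype = Q at hA
  generalize (Cfsg.pCore 3 B).map B.subtype = R at hB
  have QS := pS_syl hA inf_le_left hSylA S
  have RS := pS_syl hB inf_le_right hSylB S
  have TC : (S : Subgroup ↥(A ⊓ B)).map (A ⊓ B).subtype ≤ A ⊓ B := map_subtype_le _
  have mp : ∀ {A Q : Subgroup G}, PA A Q → ∀ a ∈ A, Q.map (MulAut.conj a).toMonoidHom = Q := by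
    intro A Q h a ha
    apply le_antisymm
    · rintro _ ⟨q, hq, rfl⟩; exact h.nm a ha q hq
    · intro q hq; exact ⟨_, h.nm _ (inv_mem ha) q hq, by simp [mul_assoc]⟩
  have ne : Q ≠ R := fun e => by
    have := hcore Q (QS.trans TC) (mp hA) (e ▸ mp hB)
    have c := hA.c9
    rw [this] at c; simp at c
  have nQ : ¬ Q ≤ R := fun e => ne (eq_of_le_of_card_ge e (by rw [hA.c9, hB.c9]))
  have nR : ¬ R ≤ Q := fun e => ne (eq_of_le_of_card_ge e (by rw [hA.c9, hB.c9])).symm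
  have ZQ : ∀ {X Y : Subgroup G}, PA X Y → A ⊓ B ≤ X → Y ≤ (S : Subgroup ↥(A ⊓ B)).map (A ⊓ B).subtype →
      Z ≤ Y := by
    intro X Y h l1 l2
    rw [hZ]
    rintro _ ⟨w, hw, rfl⟩
    refine h.cc _ (l1 w.2) fun q hq => ?_
    obtain ⟨u, hu, rfl⟩ := l2 hq
    exact congrArg Subtype.val (hw.2 u hu).symm
  have ZA := ZQ hA inf_le_left QS
  have ZB := ZQ hB inf_le_right RS
  obtain ⟨z, hz, z1⟩ : ∃ z ∈ Z, z ≠ 1 := by
    obtain ⟨q, hq, hq'⟩ := SetLike.not_le_iff_exists.1 nQ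
    obtain ⟨u, hu, rfl⟩ := QS hq
    haveI : Nontrivial (S : Subgroup ↥(A ⊓ B)) := ⟨⟨⟨u, hu⟩, 1, fun e => hq' (by
      rw [show u = 1 from congrArg Subtype.val e, map_one]; exact one_mem _)⟩⟩
    haveI := S.2.center_nontrivial
    obtain ⟨⟨w, hw⟩, w1⟩ := exists_ne (1 : center (S : Subgroup ↥(A ⊓ B)))
    refine ⟨w.1.1, hZ ▸ ⟨w.1, ⟨w.2, fun y hy => congrArg Subtype.val (mem_center_iff.1 hw ⟨y, hy⟩)⟩, rfl⟩,
      fun e => w1 (Subtype.ext (Subtype.ext (Subtype.ext e)))⟩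
  have Zz : Z = zpowers z := le_antisymm (fun y hy => by
    by_contra n
    exact nQ (hA.gen (ZA hz) (ZA hy) z1 n (ZB hz) (ZB hy))) (zpowers_le.2 hz)
  obtain ⟨a, b, t, s, m, n, h1, h2, h3⟩ := pS_main hA hB (ZA hz) (ZB hz) z1 nQ nR
    (QS.trans (TC.trans inf_le_right)) (RS.trans (TC.trans inf_le_left)) (fun g hg => by
      refine hNZ ?_
      rw [Zz]
      refine mem_normalizer_fintype ?_
      rintro _ ⟨k, rfl⟩
      dsimp only
      rw [← conj_zpow]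
      rcases hg with e | e <;> rw [e]
      exacts [zpow_mem (mem_zpowers z) k, zpow_mem (inv_mem (mem_zpowers z)) k]) hgen
  exact ⟨a, b, z, t, s, m, n, h1, z1, h2, h3⟩

end Cfsg.Agent.H10.Am
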