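import Cfsg.Agent.H10.Am0

/-! Groups of shape `3² : GL₂(3)`. -/

set_option autoImplicit false
set_option linter.unusedVariables false
set_option linter.unusedSectionVars false

namespace Cfsg.Agent.H10.Am

open Subgroup

variable {G : Type*} [Group G] [Finite G]

structure PA (A Q : Subgroup G) : Prop where
  le : Q ≤ A
  nm : ∀ g ∈ A, ∀ q ∈ Q, g * q * g⁻¹ ∈ Q
  cm : ∀ x ∈ Q, ∀ y ∈ Q, x * y = y * x
  e3 : ∀ x ∈ Q, x ^ 3 = 1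
  c9 : Nat.card Q = 9
  cc : ∀ g ∈ A, (∀ q ∈ Q, g * q = q * g) → g ∈ Q
  c48 : Nat.card (A ⧸ Q.subgroupOf A) = 48

theorem pS_zp {z y : G} (h : z ^ 3 = 1) (hy : y ∈ zpowers z) : y = 1 ∨ y = z ∨ y = z⁻¹ := by
  obtain ⟨k, rfl⟩ := hy
  have h3 : z ^ (3 : ℤ) = 1 := by exact_mod_cast h
  have e : z ^ k = z ^ (k % 3) := zpow_eq_zpow_emod k h3
  have : k % 3 = 0 ∨ k % 3 = 1 ∨ k % 3 = 2 := by omega
  dsimp only
  rcases this with r | r | r <;> rw [e, r]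
  · simp
  · simp
  · right; right
    rw [eq_inv_iff_mul_eq_one, ← zpow_add_one]; exact h3

variable {A Q : Subgroup G} {x y z t : G}

theorem PA.gen (h : PA A Q) (hx : x ∈ Q) (hy : y ∈ Q) (x1 : x ≠ 1) (n : y ∉ zpowers x) {H : Subgroup G}
    (xH : x ∈ H) (yH : y ∈ H) : Q ≤ H := by
  have : Fact (Nat.Prime 3) := ⟨by norm_num⟩
  have ox : Nat.card (zpowers x) = 3 := by rw [Nat.card_zpowers, orderOf_eq_prime (h.e3 x hx) x1]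
  have l1 : zpowers x ≤ H ⊓ Q := by rw [zpowers_le]; exact ⟨xH, hx⟩
  have d1 : Nat.card ↥(H ⊓ Q) ∣ 9 := h.c9 ▸ card_dvd_of_le inf_le_right
  have d2 : 3 ∣ Nat.card ↥(H ⊓ Q) := ox ▸ card_dvd_of_le l1
  have d3 : Nat.card ↥(H ⊓ Q) ≠ 3 := fun e => by
    have := eq_of_le_of_card_ge l1 (by omega)
    exact n (this ▸ (⟨yH, hy⟩ : y ∈ H ⊓ Q))
  have d4 : Nat.card ↥(H ⊓ Q) = 9 := by
    have := Nat.le_of_dvd (by norm_num) d1
    interval_cases Nat.card ↥(H ⊓ Q) <;> omega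
  have := eq_of_le_of_card_ge (inf_le_right : H ⊓ Q ≤ Q) (by rw [h.c9, d4])
  rw [← this]; exact inf_le_left

theorem PA.cen (h : PA A Q) (hx : x ∈ Q) (hy : y ∈ Q) (x1 : x ≠ 1) (n : y ∉ zpowers x) {g : G} (hg : g ∈ A)
    (c1 : g * x * g⁻¹ = x) (c2 : g * y * g⁻¹ = y) : g ∈ Q :=
  h.cc g hg fun q hq => (mem_centralizer_singleton_iff.1 (h.gen hx hy x1 n (H := centralizer {g})
    (mem_centralizer_singleton_iff.2 (mul_inv_eq_iff_eq_mul.1 c1).symm)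
    (mem_centralizer_singleton_iff.2 (mul_inv_eq_iff_eq_mul.1 c2).symm) hq)).symm

theorem pS_cj {g x y : G} (n : y ∉ zpowers x) : g * y * g⁻¹ ∉ zpowers (g * x * g⁻¹) := by
  rintro ⟨k, hk⟩
  exact n ⟨k, by simpa [conj_zpow] using hk⟩

theorem PA.sur (h : PA A Q) (hx : x ∈ Q) (hy : y ∈ Q) (x1 : x ≠ 1) (n : y ∉ zpowers x) {x' y' : G}
    (hx' : x' ∈ Q) (hy' : y' ∈ Q) (x1' : x' ≠ 1) (n' : y' ∉ zpowers x') :
    ∃ g ∈ A, g * x * g⁻¹ = x' ∧ g * y * g⁻¹ = y' := by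
  classical
  have : Fact (Nat.Prime 3) := ⟨by norm_num⟩
  let Ω := Σ u : {u : Q // ¬ u = 1}, {v : Q // ¬ v ∈ zpowers u.1}
  have cΩ : Nat.card Ω = 48 := by
    have := Fintype.ofFinite Q
    have c9 : Fintype.card Q = 9 := by rw [← Nat.card_eq_fintype_card, h.c9]
    have k : ∀ u : {u : Q // ¬ u = 1}, Nat.card {v : Q // ¬ v ∈ zpowers u.1} = 6 := fun u => by
      rw [Nat.card_eq_fintype_card, Fintype.card_subtype_compl, c9, ← Nat.card_eq_fintype_card]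
      have : orderOf u.1 = 3 := orderOf_eq_prime (Subtype.ext (h.e3 _ u.1.2)) u.2
      change 9 - Nat.card (zpowers u.1) = 6
      rw [Nat.card_zpowers, this]
    rw [Nat.card_sigma]
    simp only [k, Finset.sum_const, Finset.card_univ, Fintype.card_subtype_compl, c9]
    simp
  have mz : ∀ {u v : Q}, v ∈ zpowers u → (v : G) ∈ zpowers (u : G) := by
    rintro u _ ⟨k, rfl⟩; exact ⟨k, by simp⟩
  let F : A → Ω := fun g => ⟨⟨⟨g * x * (g : G)⁻¹, h.nm g g.2 x hx⟩, fun e => x1 (by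
      simpa using congrArg Subtype.val e)⟩, ⟨⟨g * y * (g : G)⁻¹, h.nm g g.2 y hy⟩, fun e => pS_cj n (mz e)⟩⟩
  let π : Ω → G × G := fun w => (w.1.1.1, w.2.1.1)
  have πi : Function.Injective π := by
    rintro ⟨⟨⟨u, hu⟩, u1⟩, ⟨⟨v, hv⟩, v1⟩⟩ ⟨⟨⟨u', hu'⟩, u1'⟩, ⟨⟨v', hv'⟩, v1'⟩⟩ e
    obtain ⟨rfl, rfl⟩ := Prod.ext_iff.1 e
    rfl
  let F' : A ⧸ Q.subgroupOf A → Ω := Quotient.lift F fun g g' e => πi (by
    have e1 : (g : G)⁻¹ * g' ∈ Q :=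
      mem_subgroupOf.1 ((QuotientGroup.leftRel_apply (s := Q.subgroupOf A)).1 e)
    have k : ∀ q ∈ Q, g * q * (g : G)⁻¹ = g' * q * (g' : G)⁻¹ := fun q hq => by
      calc g * q * (g : G)⁻¹ = g * (q * ((g : G)⁻¹ * g')) * (g' : G)⁻¹ := by group
        _ = _ := by rw [h.cm q hq _ e1]; group
    exact Prod.ext (k x hx) (k y hy))
  have Fi : Function.Injective F' := by
    rintro ⟨g⟩ ⟨g'⟩ e
    obtain ⟨e1, e2⟩ := Prod.ext_iff.1 (congrArg π e)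
    change (g : G) * x * (g : G)⁻¹ = g' * x * (g' : G)⁻¹ at e1
    change (g : G) * y * (g : G)⁻¹ = g' * y * (g' : G)⁻¹ at e2
    refine QuotientGroup.eq.2 (mem_subgroupOf.2 (h.cen hx hy x1 n (g := (g : G)⁻¹ * g')
      (mul_mem (inv_mem g.2) g'.2) ?_ ?_))
    · calc _ = (g : G)⁻¹ * (g' * x * (g' : G)⁻¹) * g := by group
        _ = _ := by rw [← e1]; group
    · calc _ = (g : G)⁻¹ * (g' * y * (g' : G)⁻¹) * g := by group
        _ = _ := by rw [← e2]; group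
  obtain ⟨⟨g⟩, hg⟩ := (Fi.bijective_of_nat_card_le (by rw [cΩ, h.c48])).2
    ⟨⟨⟨x', hx'⟩, fun e => x1' (congrArg Subtype.val e)⟩, ⟨⟨y', hy'⟩, fun e => n' (mz e)⟩⟩
  obtain ⟨e1, e2⟩ := Prod.ext_iff.1 (congrArg π hg)
  exact ⟨g, g.2, e1, e2⟩

theorem PA.invs (h : PA A Q) (hx : x ∈ Q) (hy : y ∈ Q) (x1 : x ≠ 1) (n : y ∉ zpowers x)
    (c1 : t * x * t⁻¹ = x⁻¹) (c2 : t * y * t⁻¹ = y⁻¹) : ∀ q ∈ Q, t * q * t⁻¹ = q⁻¹ := by
  let H : Subgroup G :=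
    { carrier := {q | q ∈ Q ∧ t * q * t⁻¹ = q⁻¹}
      one_mem' := ⟨one_mem _, by simp⟩
      mul_mem' := fun {a b} ha hb => ⟨mul_mem ha.1 hb.1, by
        rw [← conj_mul, ha.2, hb.2, h.cm a ha.1 b hb.1, mul_inv_rev]⟩
      inv_mem' := fun {a} ha => ⟨inv_mem ha.1, by rw [← conj_inv, ha.2]⟩ }
  exact fun q hq => (h.gen hx hy x1 n (H := H) ⟨hx, c1⟩ ⟨hy, c2⟩ hq).2

theorem PA.one (h : PA A Q) (hx : x ∈ Q) (hy : y ∈ Q) (x1 : x ≠ 1) (n : y ∉ zpowers x)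
    (ht : ∀ q ∈ Q, t * q * t⁻¹ = q⁻¹) {g : G} (hg : g ∈ A)
    (c1 : g * x * g⁻¹ = x) (c2 : g * y * g⁻¹ = y) (c : Commute g t) : g = 1 := by
  have hq := h.cen hx hy x1 n hg c1 c2
  have e := ht g hq
  rw [← c.eq, mul_inv_cancel_right] at e
  have e3 := h.e3 g hq
  rw [pow_succ, pow_two] at e3
  nth_rewrite 1 [e] at e3
  simpa using e3

theorem PA.sur' (h : PA A Q) (hx : x ∈ Q) (hy : y ∈ Q) (x1 : x ≠ 1) (n : y ∉ zpowers x) (tA : t ∈ A)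
    (ht : ∀ q ∈ Q, t * q * t⁻¹ = q⁻¹) {x' y' : G}
    (hx' : x' ∈ Q) (hy' : y' ∈ Q) (x1' : x' ≠ 1) (n' : y' ∉ zpowers x') :
    ∃ g ∈ A, Commute g t ∧ g * x * g⁻¹ = x' ∧ g * y * g⁻¹ = y' := by
  obtain ⟨g, hg, e1, e2⟩ := h.sur hx hy x1 n hx' hy' x1' n'
  have hu : g * t * g⁻¹ * t⁻¹ ∈ Q := by
    refine h.cc _ (mul_mem (mul_mem (mul_mem hg tA) (inv_mem hg)) (inv_mem tA)) fun q hq => ?_
    have a1 := ht _ (inv_mem hq)
    have a2 := ht _ (h.nm _ (inv_mem hg) _ (inv_mem hq))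
    calc g * t * g⁻¹ * t⁻¹ * q = g * t * g⁻¹ * t⁻¹ * (t * q⁻¹ * t⁻¹) := by rw [a1, inv_inv]
      _ = g * (t * (g⁻¹ * q⁻¹ * g⁻¹⁻¹) * t⁻¹) * (t * g⁻¹ * t⁻¹) := by group
      _ = _ := by rw [a2]; group
  set u := g * t * g⁻¹ * t⁻¹ with hu'
  refine ⟨u * g, mul_mem (h.le hu) hg, ?_, ?_, ?_⟩
  · have a1 := ht _ (inv_mem hu)
    have a3 := h.e3 _ hu
    have : u * g * t * (u * g)⁻¹ = t := by
      calc u * g * t * (u * g)⁻¹ = u * (g * t * g⁻¹ * t⁻¹) * (t * u⁻¹ * t⁻¹) * t := by group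
        _ = u ^ 3 * t := by rw [a1, ← hu', inv_inv, pow_succ, pow_two]
        _ = t := by rw [a3, one_mul]
    exact mul_inv_eq_iff_eq_mul.1 this
  · calc u * g * x * (u * g)⁻¹ = u * (g * x * g⁻¹) * u⁻¹ := by group
      _ = _ := by rw [e1, h.cm u hu x' hx']; group
  · calc u * g * y * (u * g)⁻¹ = u * (g * y * g⁻¹) * u⁻¹ := by group
      _ = _ := by rw [e2, h.cm u hu y' hy']; group

theorem PA.nf (h : PA A Q) (hx : x ∈ Q) (hz : z ∈ Q) (z1 : z ≠ 1) (n : x ∉ zpowers z) {q : G} (hq : q ∈ Q) :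
    ∃ j : ℤ, q = z ^ j ∨ q = x * z ^ j ∨ q = x⁻¹ * z ^ j := by
  have c : Commute x z := h.cm x hx z hz
  let H : Subgroup G :=
    { carrier := {q | ∃ w ∈ zpowers x, ∃ j : ℤ, q = w * z ^ j}
      one_mem' := ⟨1, one_mem _, 0, by simp⟩
      mul_mem' := by
        rintro _ _ ⟨_, ⟨i, rfl⟩, j, rfl⟩ ⟨_, ⟨k, rfl⟩, l, rfl⟩
        refine ⟨x ^ (i + k), ⟨_, rfl⟩, j + l, ?_⟩
        dsimp only
        rw [zpow_add, zpow_add, mul_assoc, ← mul_assoc (z ^ j), ← (c.zpow_zpow k j).eq]; group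
      inv_mem' := by
        rintro _ ⟨_, ⟨i, rfl⟩, j, rfl⟩
        refine ⟨x ^ (-i), ⟨_, rfl⟩, -j, ?_⟩
        dsimp only
        rw [(c.zpow_zpow (-i) (-j)).eq]; group }
  obtain ⟨w, hw, j, rfl⟩ := h.gen hz hx z1 n (H := H) ⟨1, one_mem _, 1, by simp⟩
    ⟨x, mem_zpowers _, 0, by simp⟩ hq
  rcases pS_zp (h.e3 x hx) hw with rfl | rfl | rfl
  exacts [⟨j, .inl (one_mul _)⟩, ⟨j, .inr (.inl rfl)⟩, ⟨j, .inr (.inr rfl)⟩]

theorem PA.top (h : PA A Q) (hx : x ∈ Q) (hz : z ∈ Q) (z1 : z ≠ 1) (n : x ∉ zpowers z) {β τ ρ μ : G}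
    {H : Subgroup G} (xH : x ∈ H) (zH : z ∈ H) (βH : β ∈ H ⊓ A) (τH : τ ∈ H ⊓ A) (ρH : ρ ∈ H ⊓ A)
    (μH : μ ∈ H ⊓ A) (βx : β * x * β⁻¹ = x * z) (βz : Commute β z) (ht : ∀ q ∈ Q, τ * q * τ⁻¹ = q⁻¹)
    (ρx : ρ * x * ρ⁻¹ = x⁻¹) (ρz : Commute ρ z) (μx : μ * x * μ⁻¹ = z) : A ≤ H := by
  have QH : Q ≤ H := h.gen hz hx z1 n zH xH
  have βj : ∀ j : ℤ, (β ^ j)⁻¹ * (x * z ^ j) * (β ^ j)⁻¹⁻¹ = x := fun j => by
    have e1 : x⁻¹ * β * x⁻¹⁻¹ = z * β := by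
      calc x⁻¹ * β * x⁻¹⁻¹ = x⁻¹ * (β * x * β⁻¹) * β := by group
        _ = _ := by rw [βx]; group
    have e2 : x⁻¹ * β ^ j * x⁻¹⁻¹ = z ^ j * β ^ j := by rw [← conj_zpow, e1, βz.symm.mul_zpow]
    calc _ = (β ^ j)⁻¹ * x * (z ^ j * β ^ j) := by group
      _ = _ := by rw [← e2]; group
  have k1 : ∀ g ∈ A, g * z * g⁻¹ = z → ∀ j : ℤ, g * x * g⁻¹ = x * z ^ j → g ∈ H := fun g hg e j e' => by
    have m : (β ^ j)⁻¹ ∈ H ⊓ A := inv_mem (zpow_mem βH j)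
    have := QH (h.cen hz hx z1 n (mul_mem m.2 hg) (by
      calc _ = (β ^ j)⁻¹ * (g * z * g⁻¹) * β ^ j := by group
        _ = _ := by rw [e, mul_assoc, ← (βz.zpow_left j).eq]; group) (by
      calc _ = (β ^ j)⁻¹ * (g * x * g⁻¹) * (β ^ j)⁻¹⁻¹ := by group
        _ = _ := by rw [e', βj]))
    exact (H.mul_mem_cancel_left m.1).1 this
  have k2 : ∀ g ∈ A, g * z * g⁻¹ = z → g ∈ H := fun g hg e => by
    obtain ⟨j, e' | e' | e'⟩ := h.nf hx hz z1 n (h.nm g hg x hx)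
    · exact (pS_cj (g := g) n (by rw [e, e']; exact ⟨j, rfl⟩)).elim
    · exact k1 g hg e j e'
    · refine (H.mul_mem_cancel_left ρH.1).1 (k1 _ (mul_mem ρH.2 hg) ?_ j ?_)
      · calc _ = ρ * (g * z * g⁻¹) * ρ⁻¹ := by group
          _ = _ := by rw [e, ρz.eq]; group
      · calc _ = ρ * (g * x * g⁻¹) * ρ⁻¹ := by group
          _ = (ρ * x * ρ⁻¹)⁻¹ * (ρ * z ^ j * ρ⁻¹) := by rw [e']; group
          _ = _ := by rw [ρx, (ρz.zpow_right j).eq]; group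
  let good : G → Prop := fun q => ∃ k ∈ H ⊓ A, k * q * k⁻¹ = z
  have g1 : ∀ k ∈ H ⊓ A, ∀ q, good (k * q * k⁻¹) → good q := by
    rintro k hk q ⟨l, hl, e⟩
    exact ⟨l * k, mul_mem hl hk, by rw [← e]; group⟩
  have g2 : ∀ q ∈ Q, good q⁻¹ → good q := fun q hq e => g1 τ τH q (by rwa [ht q hq])
  have g3 : good z := ⟨1, one_mem _, by simp⟩
  have g4 : ∀ j : ℤ, good (x * z ^ j) := fun j =>
    g1 _ (inv_mem (zpow_mem βH j)) _ (by rw [βj]; exact ⟨μ, μH, μx⟩)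
  intro g hg
  have hq := h.nm g hg z hz
  have : good (g * z * g⁻¹) := by
    obtain ⟨j, e | e | e⟩ := h.nf hx hz z1 n hq
    · rcases pS_zp (h.e3 z hz) (show g * z * g⁻¹ ∈ zpowers z from ⟨j, e.symm⟩) with r | r | r
      · exact (z1 (by simpa using r)).elim
      · rw [r]; exact g3
      · exact g2 _ hq (by rw [r, inv_inv]; exact g3)
    · rw [e]; exact g4 j
    · refine g2 _ hq ?_
      have c : Commute x z := h.cm x hx z hz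
      rw [e, mul_inv_rev, inv_inv, ← zpow_neg, ← (c.zpow_right (-j)).eq]; exact g4 _
  obtain ⟨k, hk, e⟩ := this
  exact (H.mul_mem_cancel_left hk.1).1 (k2 _ (mul_mem hk.2 hg) (by
    calc _ = k * (g * z * g⁻¹) * k⁻¹ := by group
      _ = _ := e))

end Cfsg.Agent.H10.Am
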