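import Mathlib
import Cfsg.Agent.H10.Real4
import Cfsg.Agent.H10.SubfieldGroups
import Cfsg.Agent.H11.OInn

/-! Forms over a field extension and their trace forms. -/

namespace Cfsg.Agent.H10
open Module Polynomial H11

variable {F K : Type*} [Field F] [Field K]

theorem exists_algebra_of_card [Finite F] [Finite K] {m : ℕ} (h : Nat.card F ^ m = Nat.card K) :
    ∃ _ : Algebra F K, finrank F K = m := by
  obtain ⟨j⟩ := nonempty_ringHom_of_card_pow h
  let := j.toAlgebra
  exact ⟨this, Nat.pow_right_injective (Finite.one_lt_card (α := F))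
    ((Module.natCard_eq_pow_finrank (K := F) (V := K)).symm.trans h.symm)⟩

variable [Algebra F K] [FiniteDimensional F K] [Algebra.IsSeparable F K]

theorem trace_ext {a b : K} (h : ∀ c, Algebra.trace F K (c * a) = Algebra.trace F K (c * b)) :
    a = b :=
  sub_eq_zero.mp ((traceForm_nondegenerate F K).2 _ fun c => by
    simp [Algebra.traceForm_apply, mul_sub, h])

variable {V : Type*} [AddCommGroup V] [Module F V] [Module K V] [IsScalarTower F K V]
  {σ : F →+* F} {θ : K →+* K}

theorem exists_lift_form (B : V →ₛₗ[σ] V →ₗ[F] F) (h : ∀ c x y, B (c • x) y = B x (θ c • y)) :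
    ∃ H : V →ₛₗ[θ] V →ₗ[K] K, ∀ x y c, Algebra.trace F K (c * H x y) = B x (c • y) := by
  have H : ∀ x y, ∃ a : K, ∀ c, Algebra.trace F K (c * a) = B x (c • y) := fun x y =>
    ⟨((Algebra.traceForm F K).toDual (traceForm_nondegenerate F K)).symm
      (B x ∘ₗ (LinearMap.toSpanSingleton K V y).restrictScalars F), fun c => by
        rw [mul_comm, ← Algebra.traceForm_apply, LinearMap.BilinForm.apply_toDual_symm_apply]
        rfl⟩
  choose H hH using H
  refine ⟨LinearMap.mk₂'ₛₗ θ (RingHom.id K) H (fun x y z => trace_ext (F := F) fun c => ?_)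
    (fun a x y => trace_ext (F := F) fun c => ?_) (fun x y z => trace_ext (F := F) fun c => ?_)
    fun a x y => trace_ext (F := F) fun c => ?_, hH⟩
  · simp [mul_add, hH]
  · rw [smul_eq_mul, ← mul_assoc, hH, hH, h, smul_smul, mul_comm]
  · simp [mul_add, hH]
  · rw [smul_eq_mul, ← mul_assoc, hH, hH, smul_smul]; rfl

variable (F) in
/-- The trace form of a bilinear form over the extension field. -/
noncomputable def trForm (H : V →ₗ[K] V →ₗ[K] K) : V →ₗ[F] V →ₗ[F] F :=
  (H.restrictScalars₁₂ F F).compr₂ (Algebra.trace F K)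

omit [FiniteDimensional F K] [Algebra.IsSeparable F K] in
theorem trForm_apply (H : V →ₗ[K] V →ₗ[K] K) (x y : V) :
    trForm F H x y = Algebra.trace F K (H x y) := rfl

theorem trForm_sep {H : V →ₗ[K] V →ₗ[K] K} (h : H.SeparatingLeft) : (trForm F H).SeparatingLeft :=
  fun x hx => h x fun y => trace_ext (F := F) fun c => by simpa [trForm_apply] using hx (c • y)

theorem trace_conj (h1 : ∀ a, θ (algebraMap F K a) = algebraMap F K a) (c : K) :
    Algebra.trace F K (θ c) = Algebra.trace F K c :=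
  Algebra.trace_eq_of_algEquiv (AlgEquiv.ofBijective ⟨θ, h1⟩
    (Algebra.IsAlgebraic.algHom_bijective (⟨θ, h1⟩ : K →ₐ[F] K))) c

/-- An alternating form for which the scalars of `K` have adjoints given by a non-trivial
involution comes from a hermitian form. -/
theorem exists_herm_of_alt {B : LinearMap.BilinForm F V} (hA : B.IsAlt) (hB : B.SeparatingLeft)
    (h0 : θ ≠ RingHom.id K) (h2 : ∀ a, θ (θ a) = a)
    (h1 : ∀ a, θ (algebraMap F K a) = algebraMap F K a)
    (h : ∀ c x y, B (c • x) y = B x (θ c • y)) : ∃ H : V →ₛₗ[θ] V →ₗ[K] K, IsHerm H ∧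
      H.SeparatingLeft ∧ ∀ g : V →ₗ[K] V, (∀ x y, H (g x) (g y) = H x y) ↔
        ∀ x y, B (g x) (g y) = B x y := by
  obtain ⟨H, hH⟩ := exists_lift_form B h
  obtain ⟨d, d0, hd⟩ := exists_trace_zero h0 h2
  have hs : ∀ x y, θ (H x y) = -H y x := fun x y => trace_ext (F := F) fun c => by
    rw [← trace_conj h1, map_mul, h2, hH, ← h, mul_neg, map_neg, hH, hA.neg_eq]
  refine ⟨d • H, ⟨h0, h2, fun x y => ?_⟩, fun x hx => hB x fun y => ?_,
    fun g => ⟨fun e x y => ?_, fun e x y => ?_⟩⟩
  · simp only [LinearMap.smul_apply, smul_eq_mul, map_mul, hs]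
    linear_combination -H y x * hd
  · simpa [d0, hH x y 1, show H x y = 0 by simpa [d0] using hx y] using (hH x y 1).symm
  · have := hH (g x) (g y) 1
    rw [show H (g x) (g y) = H x y by simpa [d0] using e x y, hH] at this
    simpa using this.symm
  · simp only [LinearMap.smul_apply]
    rw [trace_ext (F := F) (a := H (g x) (g y)) (b := H x y) fun c => by
      rw [hH, hH, ← map_smul, e]]

omit [FiniteDimensional F K] [Algebra.IsSeparable F K] in
theorem commute_aeval {A : Type*} [Ring A] [Algebra F A] {a y : A} (h : Commute a y) (f : F[X]) :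
    Commute (aeval a f) y := by
  induction f using Polynomial.induction_on' with
  | add f g hf hg => rw [map_add]; exact hf.add_left hg
  | monomial n c => rw [aeval_monomial]; exact (Algebra.commute_algebraMap_left c y).mul_left (h.pow_left n)

omit [Module K V] [IsScalarTower F K V] in
/-- The action of `F[X]/(u)` defined by an endomorphism killed by `u`. -/
theorem exists_algHom_root {T : End F V} {u : F[X]} (h : aeval T u = 0) :
    ∃ φ : AdjoinRoot u →ₐ[F] End F V, φ (AdjoinRoot.root u) = T :=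
  ⟨Ideal.Quotient.liftₐ _ (aeval T) fun a ha => by
    obtain ⟨b, rfl⟩ := Ideal.mem_span_singleton.mp ha
    rw [map_mul, h, zero_mul], aeval_X T⟩

omit [Module K V] [IsScalarTower F K V] in
/-- The centraliser of a symplectic element with irreducible self-dual minimal polynomial. -/
theorem card_cent_irr [Finite F] [FiniteDimensional F V] {B : LinearMap.BilinForm F V}
    (hA : B.IsAlt) (hB : B.SeparatingLeft) (g : Isom (σ := RingHom.id F) B fun _ => 0) {u : F[X]}
    [Fact (Irreducible u)] (hu : aeval g.1.toLinearMap u = 0) {θ : AdjoinRoot u →+* AdjoinRoot u}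
    {q : ℕ} (hq : QConj θ q) (h1 : ∀ a, θ (AdjoinRoot.of u a) = AdjoinRoot.of u a)
    (h2 : θ (AdjoinRoot.root u) * AdjoinRoot.root u = 1) {m : ℕ}
    (hm : finrank F V = u.natDegree * m) : Nat.card (Subgroup.centralizer {g}) = uOrd q m := by
  obtain ⟨φ, hφ⟩ := exists_algHom_root hu
  have h0 := (Fact.out : Irreducible u).ne_zero
  have := L0.finite_adjoinRoot h0
  let : Module (AdjoinRoot u) V := Module.compHom V φ.toRingHom
  have hs : ∀ (c : AdjoinRoot u) (v : V), c • v = φ c v := fun _ _ => rfl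
  have : IsScalarTower F (AdjoinRoot u) V := ⟨fun a c v => by simp [hs]⟩
  have := Module.Finite.right F (AdjoinRoot u) V
  obtain ⟨H, H1, H2, H3⟩ := exists_herm_of_alt hA hB hq.ne_id hq.invol h1
    (phi_adj φ h1 h2 (hφ ▸ g.2.1))
  rw [← H1.card_uisom hq H2 (Nat.eq_of_mul_eq_mul_left (Fact.out : Irreducible u).natDegree_pos (by
    rw [← hm, ← L0.finrank_adjoinRoot h0, finrank_mul_finrank]))]
  refine (Nat.card_eq_of_bijective (fun k : UIsom H => (⟨⟨k.1.restrictScalars F,
    (H3 k.1).mp k.2.1, fun _ => rfl⟩, Subgroup.mem_centralizer_singleton_iff.mpr (Subtype.ext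
      (LinearEquiv.ext fun v => ?_))⟩ : Subgroup.centralizer {g})) ⟨fun a b e => Subtype.ext
        (LinearEquiv.ext fun v => LinearEquiv.congr_fun (congrArg (·.1.1) e) v), fun k => ?_⟩).symm
  · simpa [hs, hφ] using k.1.map_smul (AdjoinRoot.root u) v
  · have hk : Commute g.1.toLinearMap k.1.1.toLinearMap := LinearMap.ext fun v =>
      LinearEquiv.congr_fun (congrArg Subtype.val
        (Subgroup.mem_centralizer_singleton_iff.mp k.2)).symm v
    let k' : V ≃ₗ[AdjoinRoot u] V := { k.1.1.toAddEquiv with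
      map_smul' := fun c v => by
        obtain ⟨f, rfl⟩ := AdjoinRoot.mk_surjective c
        simpa [hs, algHom_mk, hφ] using (LinearMap.congr_fun (commute_aeval hk f).eq v).symm }
    exact ⟨⟨k', mem_uisom.mpr ((H3 k').mpr k.1.2.1)⟩, rfl⟩

theorem uOrd_cast {q : ℕ} (hq : 1 ≤ q) (n : ℕ) : (uOrd q n : ℤ) =
    (q : ℤ) ^ (n * (n - 1) / 2) * ∏ i : Fin n, ((q : ℤ) ^ ((i : ℕ) + 1) - (-1) ^ ((i : ℕ) + 1)) := by
  rw [uOrd, Fin.prod_univ_eq_prod_range fun i => (q : ℤ) ^ (i + 1) - (-1) ^ (i + 1)]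
  push_cast
  refine congrArg _ (Finset.prod_congr rfl fun i _ => ?_)
  split_ifs with h
  · rw [h.add_one.neg_one_pow, sub_neg_eq_add]
  · rw [(Nat.not_even_iff_odd.mp h).add_one.neg_one_pow, Nat.cast_sub (Nat.one_le_pow _ _ hq)]
    simp

/-- Extension of scalars for isometry groups. -/
theorem exists_hom_rform {F₀ F : Type*} [Field F₀] [Field F] {j : F₀ →+* F} {σ : F →+* F}
    {σ₀ : F₀ →+* F₀} {V V₀ : Type*} [AddCommGroup V] [Module F V] [AddCommGroup V₀] [Module F₀ V₀]
    [FiniteDimensional F₀ V₀] {B₀ : V₀ →ₛₗ[σ₀] V₀ →ₗ[F₀] F₀} {Q₀ : V₀ → F₀}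
    {B : V →ₛₗ[σ] V →ₗ[F] F} {Q : V → F} {t : V₀ →ₛₗ[j] V} {μ : F} (H : RForm B₀ Q₀ B Q t μ)
    (hQ : SpanExt B Q B Q) : ∃ φ : Isom B₀ Q₀ →* Isom B Q, Function.Injective φ ∧
      ∀ g x, (φ g).1 (t x) = t (g.1 x) := by
  have h : ∀ g : Isom B₀ Q₀, ∃ e : Isom B Q, ∀ x, e.1 (t x) = t (g.1 x) := fun g => by
    obtain ⟨e, h1, h2, h3⟩ := H.exists_equiv H hQ g.1 (c := 1) (by simpa using g.2.1)
      (by simpa using g.2.2)
    exact ⟨⟨e, by simpa [H.ne] using h2, by simpa [H.ne] using h3⟩, h1⟩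
  choose φ hφ using h
  refine ⟨MonoidHom.mk' φ fun a b => Subtype.ext (LinearEquiv.toLinearMap_injective
    (LinearMap.ext_on_range H.span fun x => by simp [hφ])), fun a b e => Subtype.ext
      (LinearEquiv.ext fun x => H.injective ?_), hφ⟩
  rw [← hφ, ← hφ]
  exact congrArg (·.1 (t x)) e

end Cfsg.Agent.H10
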