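import Mathlib
import Cfsg.Agent.H10.Ext

/-! Orders of centralisers of unipotent elements in linear and unitary groups. -/

namespace Cfsg.Agent.H10
open Module Polynomial H11 L0

section comb

/-- The exponent of `q` in the order of the unipotent radical of a centraliser. -/
def cexp (M : ℕ) (c : ℕ → ℕ) : ℕ :=
  2 * (∑ i ∈ Finset.range M, ∑ j ∈ Finset.range M, if i < j then i * c i * c j else 0) +
    ∑ i ∈ Finset.range M, (i - 1) * c i ^ 2

theorem cexp_cons {M e : ℕ} {μ : Multiset ℕ} (he : 0 < e) (hM : e < M) (h : ∀ j ∈ μ, j ≤ e) :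
    cexp M (fun i => (e ::ₘ μ).count i) + (2 * μ.count e + 1) =
      cexp M (fun i => μ.count i) + (2 * μ.sum + e) := by
  have h0 : ∀ j, e < j → μ.count j = 0 := fun j hj =>
    Multiset.count_eq_zero.mpr fun h' => (h j h').not_gt hj
  have hm := Finset.mem_range.mpr hM
  have h1 : ∀ i ∈ Finset.range M, (∑ j ∈ Finset.range M,
      if i < j then i * (e ::ₘ μ).count i * (e ::ₘ μ).count j else 0) = (∑ j ∈ Finset.range M,
      if i < j then i * μ.count i * μ.count j else 0) + if i < e then μ.count i * i else 0 := by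
    intro i _
    rw [show (if i < e then μ.count i * i else 0) = ∑ j ∈ Finset.range M,
      if j = e then (if i < e then μ.count i * i else 0) else 0 by simp [hM], ← Finset.sum_add_distrib]
    refine Finset.sum_congr rfl fun j _ => ?_
    simp only [Multiset.count_cons]
    split_ifs <;> first | omega | ring1 | simp [h0 j (by omega)]
  have h2 : μ.sum = (∑ i ∈ Finset.range M, if i < e then μ.count i * i else 0) + μ.count e * e := by
    rw [Finset.sum_multiset_count_of_subset μ (Finset.range M) fun j hj => Finset.mem_range.mpr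
      ((h j (Multiset.mem_toFinset.mp hj)).trans_lt hM), show μ.count e * e = ∑ i ∈ Finset.range M,
      if i = e then μ.count i * i else 0 by simp [hM], ← Finset.sum_add_distrib]
    refine Finset.sum_congr rfl fun j _ => ?_
    split_ifs <;> first | omega | exact smul_eq_mul _ _ | simp [h0 j (by omega)] | simp
  have h3 : ∑ i ∈ Finset.range M, (i - 1) * (e ::ₘ μ).count i ^ 2 =
      ∑ i ∈ Finset.range M, (i - 1) * μ.count i ^ 2 + (e - 1) * (2 * μ.count e + 1) := by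
    rw [show (e - 1) * (2 * μ.count e + 1) = ∑ i ∈ Finset.range M,
      if i = e then (i - 1) * (2 * μ.count i + 1) else 0 by simp [hM], ← Finset.sum_add_distrib]
    refine Finset.sum_congr rfl fun j _ => ?_
    simp only [Multiset.count_cons]
    split_ifs <;> ring
  simp only [cexp]
  rw [Finset.sum_congr rfl h1, Finset.sum_add_distrib, h2, h3]
  obtain ⟨e, rfl⟩ := Nat.exists_eq_add_of_le' he
  simp only [Nat.add_sub_cancel]
  ring

theorem closed_form {q : ℤ} (hq : q ≠ 0) {g G : ℕ → ℤ} (G0 : G 0 = 1)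
    (hG : ∀ a, G (a + 1) = g a * G a) {M : ℕ} {P : Multiset ℕ → ℤ → Prop}
    (h0 : ∀ x, P 0 x → x = 1) (hs : ∀ μ k x, (∀ j ∈ μ, 0 < j ∧ j ≤ k + 1) → P ((k + 1) ::ₘ μ) x →
      ∃ y, P μ y ∧ x * q ^ (2 * μ.count (k + 1) + 1) =
        q ^ (2 * μ.sum + (k + 1)) * g (μ.count (k + 1)) * y)
    (μ : Multiset ℕ) (h : ∀ j ∈ μ, 0 < j ∧ j < M) {x : ℤ} (hx : P μ x) :
    x = q ^ cexp M (fun i => μ.count i) * ∏ i ∈ Finset.range M, G (μ.count i) := by
  induction hn : μ.card generalizing μ x with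
  | zero => obtain rfl := Multiset.card_eq_zero.mp hn; simp [h0 x hx, cexp, G0]
  | succ n ih =>
    obtain ⟨e, he, hm⟩ := Multiset.exists_max_image (s := μ) id (by rintro rfl; simp at hn)
    obtain ⟨μ, rfl⟩ := Multiset.exists_cons_of_mem he
    obtain ⟨k, rfl⟩ := Nat.exists_eq_add_of_le' (h e he).1
    obtain ⟨y, h1, h2⟩ := hs μ k x (fun j hj => ⟨(h j (by simp [hj])).1, hm j (by simp [hj])⟩) hx
    have hM := Finset.mem_range.mpr (h _ he).2
    refine mul_right_cancel₀ (pow_ne_zero _ hq) (h2.trans ?_)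
    rw [ih μ (fun j hj => h j (by simp [hj])) h1 (by simpa using hn), mul_right_comm (q ^ cexp _ _),
      ← pow_add, cexp_cons (e := k + 1) k.succ_pos (h _ he).2 fun j hj => hm j (by simp [hj]),
      ← Finset.mul_prod_erase _ _ hM, ← Finset.mul_prod_erase _ _ hM, Multiset.count_cons_self, hG,
      Finset.prod_congr rfl fun i hi => congrArg G
        (Multiset.count_cons_of_ne (Finset.ne_of_mem_erase hi) μ)]
    ring

end comb

variable {F : Type*} [Field F] {σ : F →+* F} {V : Type*} [AddCommGroup V] [Module F V]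

/-- Isometries commuting with `T`. -/
def CI (B : V →ₛₗ[σ] V →ₗ[F] F) (T : End F V) : Type _ :=
  {g : V ≃ₗ[F] V // (∀ x y, B (g x) (g y) = B x y) ∧ ∀ x, g (T x) = T (g x)}

section split
variable {R : Type*} [CommRing R] [Algebra F R] (φ : R →ₐ[F] End F V)

/-- The largest submodule in the kernel of a functional. -/
def cW (l : V →ₗ[F] F) : Submodule F V where
  carrier := {x | ∀ c, l (φ c x) = 0}
  add_mem' ha hb c := by rw [map_add, map_add, ha c, hb c, add_zero]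
  zero_mem' c := by simp
  smul_mem' a x hx c := by rw [map_smul, map_smul, hx c, smul_zero]

theorem cW_inv (l : V →ₗ[F] F) (c : R) : ∀ x ∈ cW φ l, φ c x ∈ cW φ l := fun x hx d => by
  rw [← End.mul_apply, ← map_mul, hx]

variable {φ} [FiniteDimensional F R] {b : R →ₗ[F] F}

theorem exists_mul_eq_dual (hb : ∀ c, (∀ d, b (d * c) = 0) → c = 0) (f : R →ₗ[F] F) :
    ∃ c, ∀ d, f d = b (d * c) := by
  obtain ⟨c, hc⟩ := (LinearMap.injective_iff_surjective_of_finrank_eq_finrank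
    (f := ((LinearMap.mul F R).compr₂ b).flip) Subspace.dual_finrank_eq.symm).mp
    ((injective_iff_map_eq_zero _).mpr fun c hc => hb c fun d => LinearMap.congr_fun hc d) f
  exact ⟨c, fun d => (LinearMap.congr_fun hc d).symm⟩

theorem exists_split (hb : ∀ c, (∀ d, b (d * c) = 0) → c = 0) {v : V} {l : V →ₗ[F] F}
    (h : ∀ c, l (φ c v) = b c) : ∃ E : (R × cW φ l) ≃ₗ[F] V, ∀ c w, E (c, w) = φ c v + w := by
  refine ⟨LinearEquiv.ofBijective ((LinearMap.applyₗ v ∘ₗ φ.toLinearMap).coprod (cW φ l).subtype)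
    ⟨(injective_iff_map_eq_zero _).mpr fun ⟨c, w⟩ hc => ?_, fun x => ?_⟩, fun c w => rfl⟩
  · have hc : φ c v + w = 0 := hc
    obtain rfl := hb c fun d => by
      simpa [w.2 d, ← End.mul_apply, ← map_mul, h] using congrArg (fun x => l (φ d x)) hc
    simpa using hc
  · obtain ⟨c, hc⟩ := exists_mul_eq_dual hb (l ∘ₗ LinearMap.applyₗ x ∘ₗ φ.toLinearMap)
    refine ⟨(c, ⟨x - φ c v, fun d => ?_⟩), by simp⟩
    rw [map_sub, map_sub, ← End.mul_apply, ← map_mul, h, ← hc, sub_eq_zero]; rfl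

theorem card_CI {B : V →ₛₗ[σ] V →ₗ[F] F} {r : R} (hr : ∀ c, ∃ f : F[X], aeval r f = c)
    (hb : ∀ c, (∀ d, b (d * c) = 0) → c = 0) {S : Type*} (v : S → V) (l : S → V →ₗ[F] F)
    (h0 : ∀ s t, v s = v t → l s = l t → s = t) (s₀ : S)
    (h1 : ∀ g : CI B (φ r), ∃ s, v s = g.1 (v s₀) ∧ ∀ x, l s (g.1 x) = l s₀ x)
    (h2 : ∀ s c, l s (φ c (v s)) = b c)
    (h3 : ∀ s c, ∀ w ∈ cW φ (l s), B (φ c (v s)) w = 0 ∧ B w (φ c (v s)) = 0)
    (h4 : ∀ s c d, B (φ c (v s)) (φ d (v s)) = B (φ c (v s₀)) (φ d (v s₀)))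
    (h5 : ∀ s, ∃ ψ : cW φ (l s₀) ≃ₗ[F] cW φ (l s), (∀ x y, B (ψ x) (ψ y) = B x y) ∧
      ∀ x : cW φ (l s₀), (ψ ⟨φ r x, cW_inv φ _ r _ x.2⟩ : V) = φ r (ψ x)) :
    Nat.card (CI B (φ r)) = Nat.card S *
      Nat.card (CI (pull B (cW φ (l s₀)).subtype) ((φ r).restrict (cW_inv φ (l s₀) r))) := by
  choose ψ ψ1 ψ2 using h5
  choose E hE using fun s => exists_split hb (h2 s)
  let G (s : S) (k : cW φ (l s₀) ≃ₗ[F] cW φ (l s₀)) : V ≃ₗ[F] V :=
    (E s₀).symm ≪≫ₗ (LinearEquiv.refl F R).prodCongr (k ≪≫ₗ ψ s) ≪≫ₗ E s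
  have hG : ∀ s k c (w : cW φ (l s₀)), G s k (φ c (v s₀) + w) = φ c (v s) + ψ s (k w) :=
    fun s k c w => by simp [G, ← hE]
  have hx : ∀ x, ∃ c, ∃ w : cW φ (l s₀), φ c (v s₀) + w = x := fun x =>
    ⟨_, _, (hE s₀ _ _).symm.trans ((E s₀).apply_symm_apply x)⟩
  have hl : ∀ s c (w : cW φ (l s)), l s (φ c (v s) + w) = b c := fun s c w => by
    simpa [h2] using w.2 1
  rw [← Nat.card_prod]
  symm
  refine Nat.card_eq_of_bijective (fun p => ⟨G p.1 p.2.1, fun x y => ?_, fun x => ?_⟩)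
    ⟨?_, fun g => ?_⟩
  · obtain ⟨c, w, rfl⟩ := hx x
    obtain ⟨d, w', rfl⟩ := hx y
    simp only [hG, map_add, LinearMap.add_apply, h4 p.1, h3 _ _ _ (Subtype.property _), ψ1]
    exact congrArg _ (congrArg _ (p.2.2.1 w w'))
  · obtain ⟨c, w, rfl⟩ := hx x
    have := hG p.1 p.2.1 (r * c) ⟨φ r w, cW_inv φ _ r _ w.2⟩
    rw [show p.2.1 ⟨φ r w, cW_inv φ _ r _ w.2⟩ = _ from p.2.2.2 w] at this
    rw [hG, map_add (φ r), map_add (φ r), ← End.mul_apply, ← End.mul_apply (φ r), ← map_mul, this,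
      ← ψ2]; rfl
  · rintro ⟨s, k⟩ ⟨t, k'⟩ e
    have e : G s k.1 = G t k'.1 := congrArg Subtype.val e
    obtain rfl : s = t := h0 s t (by
      have := hG s k.1 1 0
      rw [e, hG] at this
      simpa using this.symm)
      (LinearMap.ext fun x => by
        obtain ⟨x, rfl⟩ := (G s k.1).surjective x
        obtain ⟨c, w, rfl⟩ := hx x
        rw [hG, hl, ← hG, e, hG, hl])
    refine Prod.ext rfl (Subtype.ext (LinearEquiv.ext fun w => (ψ s).injective (Subtype.ext ?_)))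
    have := hG s k.1 0 w
    rw [e, hG] at this
    exact (add_left_cancel this).symm
  · obtain ⟨s, s1, s2⟩ := h1 g
    have hc : ∀ c x, g.1 (φ c x) = φ c (g.1 x) := fun c x => by
      obtain ⟨f, rfl⟩ := hr c
      rw [← aeval_algHom_apply]
      exact (LinearMap.congr_fun (commute_aeval (y := g.1.toLinearMap)
        (LinearMap.ext fun x => (g.2.2 x).symm) f).eq x).symm
    let k : cW φ (l s₀) ≃ₗ[F] cW φ (l s) := g.1.ofSubmodules _ _ (Submodule.ext fun x => by
      obtain ⟨x, rfl⟩ := g.1.surjective x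
      rw [Submodule.mem_map_equiv, LinearEquiv.symm_apply_apply]
      exact forall_congr' fun c => by rw [← hc, s2])
    have hk : ∀ w, (k w : V) = g.1 w := fun _ => rfl
    refine ⟨(s, ⟨k ≪≫ₗ (ψ s).symm, fun x y => ?_, fun x => (ψ s).injective (Subtype.ext ?_)⟩),
      Subtype.ext (LinearEquiv.ext fun x => ?_)⟩
    · simpa [hk, g.2.1] using (ψ1 s ((ψ s).symm (k x)) ((ψ s).symm (k y))).symm
    · refine Eq.trans ?_ (ψ2 s _).symm
      simp [hk, hc]
    · obtain ⟨c, w, rfl⟩ := hx x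
      simp [hG, hk, hc, s1]

end split

theorem card_fiber_mul {W : Type*} [AddCommGroup W] [Module F W] {f : V →ₗ[F] W}
    (hf : Function.Surjective f) (b : W) : Nat.card {a // f a = b} * Nat.card W = Nat.card V := by
  obtain ⟨a, rfl⟩ := hf b
  rw [Submodule.card_eq_card_quotient_mul_card (LinearMap.ker f),
    Nat.card_congr (f.quotKerEquivOfSurjective hf).toEquiv]
  exact congrArg (· * _) (Nat.card_congr ((Equiv.subRight a).subtypeEquiv fun x => by
    simp [sub_eq_zero]))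

theorem card_fixed_sq (hσ : σ ≠ RingHom.id F) (hσ2 : ∀ a, σ (σ a) = a) (θ : V →+ V)
    (h1 : ∀ a x, θ (a • x) = σ a • θ x) (h2 : ∀ x, θ (θ x) = x) (P : Submodule F V)
    (hP : ∀ x ∈ P, θ x ∈ P) : Nat.card {x // x ∈ P ∧ θ x = x} ^ 2 = Nat.card P := by
  obtain ⟨t, ht⟩ := exists_ne_conj hσ
  have h0 : t - σ t ≠ 0 := sub_ne_zero.mpr ht.symm
  rw [sq, ← Nat.card_prod]
  refine Nat.card_eq_of_bijective (fun p => ⟨p.1 + t • p.2, P.add_mem p.1.2.1 (P.smul_mem _ p.2.2.1)⟩)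
    ⟨fun ⟨a, b⟩ ⟨a', b'⟩ e => ?_, fun x => ?_⟩
  · have e : a.1 + t • b.1 = a' + t • b' := congrArg Subtype.val e
    have e' := congrArg θ e
    simp only [map_add, h1, a.2.2, b.2.2, a'.2.2, b'.2.2] at e'
    obtain rfl : b = b' := Subtype.ext (smul_right_injective _ h0 (by
      linear_combination (norm := module) e - e'))
    exact Prod.ext (Subtype.ext (add_right_cancel e)) rfl
  · have hb : θ ((t - σ t)⁻¹ • (x - θ x)) = (t - σ t)⁻¹ • (x - θ x) := by
      rw [h1, map_sub, h2, map_inv₀, map_sub, hσ2, ← neg_sub t, inv_neg, neg_smul, ← smul_neg,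
        neg_sub]
    have hm := P.smul_mem (t - σ t)⁻¹ (P.sub_mem x.2 (hP _ x.2))
    refine ⟨(⟨x - t • _, P.sub_mem x.2 (P.smul_mem t hm), ?_⟩, ⟨_, hm, hb⟩), by simp⟩
    rw [map_sub, h1, hb]
    match_scalars <;> field_simp <;> ring

variable [FiniteDimensional F V]

theorem tyE_split {u : F[X]} (hu : Prim u) {φ : AdjoinRoot u →ₐ[F] End F V}
    {b : AdjoinRoot u →ₗ[F] F} (hb : ∀ c, (∀ d, b (d * c) = 0) → c = 0) {v : V} {l : V →ₗ[F] F}
    (h : ∀ c, l (φ c v) = b c) : tyE (φ (AdjoinRoot.root u)) =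
      u ::ₘ tyE ((φ (AdjoinRoot.root u)).restrict (cW_inv φ l _)) := by
  have := finite_adjoinRoot hu.ne_zero
  obtain ⟨E, hE⟩ := exists_split hb h
  rw [← Multiset.singleton_add, ← tyE_mulLeft_root hu, ← tyE_prodMap]
  exact (tyE_congr E fun ⟨c, w⟩ => by simp [hE]).symm

theorem exists_unipData {T : End F V} {μ : Multiset ℕ} {k : ℕ} (hμ : ∀ j ∈ μ, 0 < j ∧ j ≤ k + 1)
    (h : tyE T = ((k + 1) ::ₘ μ).map fun j => (X - 1) ^ j) :
    ∃ φ : AdjoinRoot ((X - C 1 : F[X]) ^ (k + 1)) →ₐ[F] End F V, φ (AdjoinRoot.root _) = T ∧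
      finrank F V = μ.sum + (k + 1) ∧ finrank F (LinearMap.ker (φ (AdjoinRoot.mk _
        ((X - C 1) ^ k)))) + (μ.count (k + 1) + 1) = finrank F V ∧
      ∀ b : AdjoinRoot _ →ₗ[F] F, (∀ c, (∀ d, b (d * c) = 0) → c = 0) → ∀ v (l : V →ₗ[F] F),
        (∀ c, l (φ c v) = b c) → tyE ((φ (AdjoinRoot.root _)).restrict (cW_inv φ l _)) =
          μ.map fun j => (X - 1) ^ j := by
  obtain ⟨φ, hφ⟩ := exists_algHom_root (T := T) (u := (X - C 1) ^ (k + 1))
    ((aeval_eq_zero_iff_tyE _ _).mpr fun u hu => by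
      obtain ⟨j, hj, rfl⟩ := Multiset.mem_map.mp (h ▸ hu)
      exact pow_dvd_pow _ ((Multiset.mem_cons.mp hj).elim le_of_eq fun h => (hμ j h).2))
  have h1 : finrank F V = μ.sum + (k + 1) := by
    simp [finrank_eq_sum_tyE T, h, natDegree_X_sub_one, add_comm]
  refine ⟨φ, hφ, h1, ?_, fun b hb v l hl => ?_⟩
  · rw [algHom_mk, hφ, h1, C_1, show finrank F _ = kdE T _ from rfl, kdE_eq_sum, h,
      Multiset.map_map]
    simp only [Function.comp, gd_pow_pow irr_X_sub_one.ne_zero, natDegree_X_sub_one, mul_one,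
      Multiset.map_cons, Multiset.sum_cons, le_add_iff_nonneg_right, zero_le, inf_of_le_left]
    suffices (μ.map fun j => min k j).sum + μ.count (k + 1) = μ.sum by omega
    clear h h1
    induction μ using Multiset.induction_on with
    | empty => simp
    | cons a μ ih =>
      have := ih fun j hj => hμ j (by simp [hj])
      have := hμ a (by simp)
      simp only [Multiset.map_cons, Multiset.sum_cons, Multiset.count_cons]
      split_ifs <;> omega
  · have := tyE_split (by simpa using prim_X_sub_one_pow k.succ_pos) hb hl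
    subst hφ
    exact ((Multiset.cons_inj_right _).mp (this.symm.trans (h.trans (by simp))))

theorem nondeg_socle {k : ℕ} {b : AdjoinRoot ((X - C 1 : F[X]) ^ (k + 1)) →ₗ[F] F}
    (hb : b (AdjoinRoot.mk _ ((X - C 1) ^ k)) ≠ 0) (c) (h : ∀ d, b (d * c) = 0) : c = 0 :=
  by_contra fun hc => by
    obtain ⟨d, hd⟩ := exists_mul_eq_socle 1 k c hc
    exact hb (by rw [← hd, mul_comm, h])

theorem card_CI_zero {B : V →ₛₗ[σ] V →ₗ[F] F} {T : End F V} (h : tyE T = 0) :
    Nat.card (CI B T) = 1 := by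
  have : Subsingleton V := (finrank_zero_iff (R := F)).mp (by simp [finrank_eq_sum_tyE T, h])
  exact Nat.card_eq_one_iff_unique.mpr ⟨⟨fun a b => Subtype.ext (Subsingleton.elim _ _)⟩,
    ⟨⟨1, fun _ _ => rfl, fun _ => rfl⟩⟩⟩

variable [Finite F]

theorem card_CI_gl_step {T : End F V} {μ : Multiset ℕ} {k : ℕ}
    (hμ : ∀ j ∈ μ, 0 < j ∧ j ≤ k + 1) (h : tyE T = ((k + 1) ::ₘ μ).map fun j => (X - 1) ^ j) :
    ∃ (W : Submodule F V) (T' : End F W), (tyE T' = μ.map fun j => (X - 1) ^ j) ∧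
      (Nat.card (CI (σ := σ) 0 T) : ℤ) * Nat.card F ^ (2 * μ.count (k + 1) + 1) =
        Nat.card F ^ (2 * μ.sum + (k + 1)) * (Nat.card F ^ μ.count (k + 1) *
          (Nat.card F ^ (μ.count (k + 1) + 1) - 1)) * Nat.card (CI (σ := σ) 0 T') := by
  classical
  obtain ⟨φ, rfl, h1, h2, h3⟩ := exists_unipData hμ h
  have h0 : ((X - C 1 : F[X]) ^ (k + 1)) ≠ 0 := pow_ne_zero _ (X_sub_C_ne_zero 1)
  have := finite_adjoinRoot h0
  have : Finite V := Module.finite_of_finite F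
  obtain ⟨b, hb⟩ := exists_dual_eq (socle_ne_zero (1 : F) k) (1 : F)
  have hb' := nondeg_socle (hb ▸ one_ne_zero)
  set z := AdjoinRoot.mk ((X - C 1 : F[X]) ^ (k + 1)) ((X - C 1) ^ k)
  let S := {p : V × (V →ₗ[F] F) // ∀ c, p.2 (φ c p.1) = b c}
  have h4 : Nat.card S * Nat.card F ^ (k + 1) = Nat.card {v // φ z v ≠ 0} * Nat.card V := by
    rw [Nat.card_congr (β := Σ v : {v // φ z v ≠ 0}, {l : V →ₗ[F] F //
      (LinearMap.applyₗ v.1 ∘ₗ φ.toLinearMap).dualMap l = b})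
      ⟨fun p => ⟨⟨p.1.1, fun e => by simpa [e, hb] using p.2 z⟩, p.1.2, LinearMap.ext p.2⟩,
        fun p => ⟨(p.1, p.2), LinearMap.congr_fun p.2.2⟩, fun _ => rfl, fun _ => rfl⟩]
    have := Fintype.ofFinite {v // φ z v ≠ 0}
    have : Finite (V →ₗ[F] F) := Module.finite_of_finite F
    rw [Nat.card_sigma, Finset.sum_mul, Finset.sum_congr rfl (g := fun _ => Nat.card V) fun v _ => ?_]
    · simp
    have := card_fiber_mul (LinearMap.dualMap_surjective_of_injective
      (f := LinearMap.applyₗ v.1 ∘ₗ φ.toLinearMap) ((injective_iff_map_eq_zero _).mpr fun c hc =>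
        by_contra fun e => v.2 (by
          obtain ⟨d, hd⟩ := exists_mul_eq_socle 1 k c e
          refine (congrArg (φ · v.1) hd.symm).trans ?_
          simp only [mul_comm c, map_mul, End.mul_apply, show φ c v = 0 from hc, map_zero]))) b
    rwa [natCard_eq_pow_finrank (K := F) (V := Dual F _), natCard_eq_pow_finrank (K := F)
      (V := Dual F _), Subspace.dual_finrank_eq, Subspace.dual_finrank_eq, finrank_adjoinRoot h0,
      natDegree_pow, natDegree_X_sub_C, mul_one, ← natCard_eq_pow_finrank] at this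
  have h5 : Nat.card {v // φ z v ≠ 0} + Nat.card (LinearMap.ker (φ z)) = Nat.card V := by
    rw [add_comm, ← Nat.card_sum]; exact Nat.card_congr (Equiv.sumCompl fun v => φ z v = 0)
  rw [natCard_eq_pow_finrank (K := F) (V := V), natCard_eq_pow_finrank (K := F)
    (V := LinearMap.ker _)] at h5
  rw [natCard_eq_pow_finrank (K := F) (V := V)] at h4
  obtain ⟨s₀⟩ : Nonempty S := (Nat.card_ne_zero.mp fun e => by
    have := Nat.pow_lt_pow_right (Finite.one_lt_card (α := F))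
      (show finrank F (LinearMap.ker (φ z)) < finrank F V by omega)
    rw [e, zero_mul, eq_comm, mul_eq_zero] at h4
    omega).1
  refine ⟨_, _, h3 b hb' _ _ s₀.2, ?_⟩
  rw [card_CI (B := 0) (fun c => by simpa using AdjoinRoot.mk_surjective c) hb' (·.1.1) (·.1.2)
    (fun s t e e' => Subtype.ext (Prod.ext e e')) s₀ (fun g => ⟨⟨(g.1 s₀.1.1, s₀.1.2 ∘ₗ g.1.symm),
      fun c => ?_⟩, rfl, by simp⟩) (·.2) (fun _ _ _ _ => ⟨rfl, rfl⟩) (fun _ _ _ => rfl) fun s => ?_]
  · zify at h4 h5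
    rw [← h2] at h4 h5
    refine mul_right_cancel₀ (b := (Nat.card F : ℤ) ^ (k + 1)) (by simp [Nat.card_pos.ne']) ?_
    have h6 : (Nat.card F : ℤ) ^ (2 * μ.sum + (k + 1)) * Nat.card F ^ (k + 1) =
        (Nat.card F ^ (finrank F (LinearMap.ker (φ z)) + (μ.count (k + 1) + 1))) ^ 2 := by
      rw [h2, h1]; ring
    push_cast
    rw [show pull (σ := σ) 0 (cW φ s₀.1.2).subtype = 0 from rfl]
    linear_combination (exp := 1) (Nat.card (CI (σ := σ) 0 ((φ (AdjoinRoot.root _)).restrict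
      (cW_inv φ s₀.1.2 _))) : ℤ) * ((Nat.card F : ℤ) ^ (2 * μ.count (k + 1) + 1) * (h4 +
      (Nat.card F ^ (finrank F (LinearMap.ker (φ z)) + (μ.count (k + 1) + 1))) * h5) -
      (Nat.card F ^ μ.count (k + 1) * (Nat.card F ^ (μ.count (k + 1) + 1) - 1)) * h6)
  · obtain ⟨f, rfl⟩ := AdjoinRoot.mk_surjective c
    rw [← s₀.2, algHom_mk]
    simpa using congrArg (s₀.1.2 ∘ₗ g.1.symm) (LinearMap.congr_fun (commute_aeval
      (y := g.1.toLinearMap) (LinearMap.ext fun x => (g.2.2 x).symm) f).eq s₀.1.1)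
  · obtain ⟨e, he⟩ := (tyE_eq_iff _ _).mp ((h3 b hb' _ _ s₀.2).trans (h3 b hb' _ _ s.2).symm)
    exact ⟨e, fun _ _ => rfl, fun x => congrArg Subtype.val (he x)⟩

theorem exists_isom_herm {W : Type*} [AddCommGroup W] [Module F W] [FiniteDimensional F W]
    {B : V →ₛₗ[σ] V →ₗ[F] F} {B' : W →ₛₗ[σ] W →ₗ[F] F} (hH : IsHerm B) (hB : B.SeparatingLeft)
    (hH' : IsHerm B') (hB' : B'.SeparatingLeft) {T : End F V} {T' : End F W}
    (hT : ∀ x y, B (T x) (T y) = B x y) (hT' : ∀ x y, B' (T' x) (T' y) = B' x y)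
    (h : tyE T = tyE T') :
    ∃ ψ : V ≃ₗ[F] W, (∀ x y, B' (ψ x) (ψ y) = B x y) ∧ ∀ x, ψ (T x) = T' (ψ x) := by
  obtain ⟨e, he⟩ := (tyE_eq_iff _ _).mp h
  obtain ⟨y, h1, h2⟩ := exists_comm_isom (hH'.pull e.toLinearMap).form
    (separatingLeft_pull_equiv hB' e) hH.form hB T (fun u v => by simp [he, hT']) hT (.inl hH.ne)
  exact ⟨LinearEquiv.ofInjectiveEndo y ((injective_iff_map_eq_zero _).mpr fun x hx =>
    hB x fun v => by rw [← h1, hx]; simp) ≪≫ₗ e, h1, fun x => by simp [h2, he]⟩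

theorem card_nonisotropic {q : ℕ} (hq : QConj σ q) {H : V →ₛₗ[σ] V →ₗ[F] F} (hH : IsHerm H)
    {K : Submodule F V} (hK : ∀ x, x ∈ K ↔ ∀ y, H y x = 0) {a : ℕ}
    (ha : finrank F K + a = finrank F V) : (q : ℤ) * Nat.card {v // H v v ≠ 0} =
      (q - 1) * q ^ a * (q ^ a - (-1) ^ a) * q ^ (2 * finrank F K) := by
  classical
  obtain ⟨A, hA⟩ := K.exists_isCompl
  have h0 : ∀ (x : K) y, H x y = 0 ∧ H y x = 0 := fun x y =>
    ⟨hH.refl ((hK _).mp x.2 y), (hK _).mp x.2 y⟩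
  have h1 : finrank F A = a := by have := Submodule.finrank_add_eq_of_isCompl hA; omega
  have h2 := IsHerm.card_level_aux hq a (map_zero σ) (hH.pull A.subtype) (fun x hx => Subtype.ext
    (hA.disjoint.le_bot ⟨(hK _).mpr fun y => hH.refl ?_, x.2⟩)) h1
  · have : Finite V := Module.finite_of_finite F
    have h3 : Nat.card {v : A // H v v = 0} + Nat.card {v : A // H v v ≠ 0} = Nat.card A := by
      rw [← Nat.card_sum]; exact Nat.card_congr (Equiv.sumCompl _)
    rw [← Nat.card_congr ((Equiv.prodSubtypeFstEquivSubtypeProd (p := fun v : A => H v v ≠ 0)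
      (β := K)).symm.trans ((A.prodEquivOfIsCompl K hA.symm).toEquiv.subtypeEquiv
        (q := fun v => H v v ≠ 0) fun x => by simp [h0])), Nat.card_prod,
      natCard_eq_pow_finrank (K := F) (V := K), hq.card]
    rw [natCard_eq_pow_finrank (K := F) (V := A), hq.card, h1] at h3
    zify at h3
    rw [if_pos rfl, neg_pow] at h2
    simp only [pull_apply, Submodule.subtype_apply] at h2
    push_cast
    linear_combination (exp := 1) ((q : ℤ) ^ 2) ^ finrank F K * (q * h3 - h2)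
  · obtain ⟨⟨u, w⟩, rfl⟩ := (K.prodEquivOfIsCompl A hA).surjective y
    simpa [h0] using hx w

theorem card_CI_herm_step {q : ℕ} (hq : QConj σ q) {B : V →ₛₗ[σ] V →ₗ[F] F} (hH : IsHerm B)
    (hB : B.SeparatingLeft) {T : End F V} (hT : ∀ x y, B (T x) (T y) = B x y) {μ : Multiset ℕ}
    {k : ℕ} (hμ : ∀ j ∈ μ, 0 < j ∧ j ≤ k + 1)
    (h : tyE T = ((k + 1) ::ₘ μ).map fun j => (X - 1) ^ j) :
    ∃ (W : Submodule F V) (B' : W →ₛₗ[σ] W →ₗ[F] F) (T' : End F W), IsHerm B' ∧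
      B'.SeparatingLeft ∧ (∀ x y, B' (T' x) (T' y) = B' x y) ∧
      (tyE T' = μ.map fun j => (X - 1) ^ j) ∧
      (Nat.card (CI B T) : ℤ) * q ^ (2 * μ.count (k + 1) + 1) = q ^ (2 * μ.sum + (k + 1)) *
        (q ^ μ.count (k + 1) * (q ^ (μ.count (k + 1) + 1) - (-1) ^ (μ.count (k + 1) + 1))) *
          Nat.card (CI B' T') := by
  classical
  obtain ⟨φ, rfl, h1, h2, h3⟩ := exists_unipData hμ h
  have h0 : ((X - C 1 : F[X]) ^ (k + 1)) ≠ 0 := pow_ne_zero _ (X_sub_C_ne_zero 1)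
  have := finite_adjoinRoot h0
  have := finite_adjoinRoot' h0
  obtain ⟨θ, b1, b2, b3⟩ := exists_theta σ k
  have b4 := phi_adj φ b1 b2 hT
  have b5 : ∀ a, θ (θ a) = a := fun a => DFunLike.congr_fun (AdjoinRoot.ringHom_ext
    (f := θ.comp θ) (g := RingHom.id _) (RingHom.ext fun c => by simp [b1, hH.invol])
    (left_inv_eq_right_inv (by simpa using congrArg θ b2) b2)) a
  have b6 : ∀ (a : F) c, θ (a • c) = σ a • θ c := fun a c => by
    rw [Algebra.smul_def, Algebra.smul_def, map_mul]; exact congrArg (· * _) (b1 a)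
  let ev : AdjoinRoot ((X - C 1 : F[X]) ^ (k + 1)) →ₐ[F] F := AdjoinRoot.liftAlgHom _
    (AlgHom.id F F) 1 (by simp)
  have c1 : ∀ f, ev (AdjoinRoot.mk _ f) = f.eval 1 := fun f => AdjoinRoot.lift_mk (by simp) _
  set z := AdjoinRoot.mk ((X - C 1 : F[X]) ^ (k + 1)) ((X - C 1) ^ k) with hz
  have c2 : ∀ w, w * z = ev w • z := fun w => by
    obtain ⟨f, rfl⟩ := AdjoinRoot.mk_surjective w
    rw [c1, Algebra.smul_def, ← sub_eq_zero, ← sub_mul, hz, show algebraMap F _ _ =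
      AdjoinRoot.mk _ (C (f.eval 1)) from rfl, ← map_sub, ← map_mul, AdjoinRoot.mk_eq_zero, pow_succ']
    exact mul_dvd_mul_right (X_sub_C_dvd_sub_C_eval) _
  have c3 : ∀ w, ev w ≠ 0 → IsUnit w := fun w hw => by
    obtain ⟨f, rfl⟩ := AdjoinRoot.mk_surjective w
    exact (isUnit_mk_pow_iff (irreducible_X_sub_C 1) (Nat.succ_pos _) f).mpr fun h =>
      hw ((c1 f).trans (dvd_iff_isRoot.mp h))
  obtain ⟨d, d0, hd⟩ : ∃ d : F, d ≠ 0 ∧ σ d * (-1) ^ k = d := by
    obtain ⟨d, d0, hd⟩ := exists_trace_zero hH.ne hH.invol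
    rcases neg_one_pow_eq_or F k with e | e
    · exact ⟨1, one_ne_zero, by simp [e]⟩
    · exact ⟨d, d0, by rw [e]; linear_combination -hd⟩
  have d1 := card_nonisotropic hq (H := d • B.compl₂ (φ z)) ⟨hH.ne, hH.invol, fun x y => by
    simp [hH.symm, b4, b3, ← mul_assoc, hd]⟩ (K := LinearMap.ker (φ z)) (fun x =>
      ⟨fun hx y => by simp [show φ z x = 0 from hx], fun hx =>
        hH.form.separatingRight hB fun y => by simpa [d0] using hx y⟩) h2
  simp only [LinearMap.smul_apply, LinearMap.compl₂_apply, smul_eq_mul, ne_eq, mul_eq_zero, d0,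
    false_or] at d1
  have q2 : (2 : ℤ) ≤ q := by
    have := Finite.one_lt_card (α := F); rw [hq.card] at this
    exact_mod_cast (Nat.one_lt_pow_iff two_ne_zero).mp this
  obtain ⟨v₀, hv₀⟩ : Nonempty {v // ¬ B v (φ z v) = 0} := (Nat.card_ne_zero.mp fun e => by
    have : (2 : ℤ) ≤ q ^ (μ.count (k + 1) + 1) := q2.trans (le_self_pow₀ (by omega) (by omega))
    rw [e, Nat.cast_zero, mul_zero] at d1
    refine absurd d1 (ne_of_lt (mul_pos (mul_pos (mul_pos (by omega) (by omega)) ?_) (by positivity)))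
    rcases neg_one_pow_eq_or ℤ (μ.count (k + 1) + 1) with e | e <;> omega).1
  let β (v : V) := B v ∘ₗ LinearMap.applyₗ v ∘ₗ φ.toLinearMap
  have e1 : ∀ v y c, β (φ y v) c = β v (c * (θ y * y)) := fun v y c => by
    change B _ (φ c (φ y v)) = B v (φ _ v)
    rw [b4, ← End.mul_apply, ← End.mul_apply, ← map_mul, ← map_mul]; ring_nf
  have e2 : ∀ v c, β v (θ c) = σ (β v c) := fun v c => (b4 c v v).symm.trans (hH.symm _ _).symm
  have hb' := nondeg_socle (b := β v₀) hv₀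
  let S := {v // ∀ c, B v (φ c v) = β v₀ c}
  obtain ⟨t, ht⟩ := exists_ne_conj hH.ne
  have e3 : ∀ w : {w // θ w = w ∧ ¬ ev w = 0}, ∃ y, θ y * y = w := fun w =>
    exists_norm_ring θ b5 (θ := algebraMap F _ t) (c3 _ (by
      rw [show θ (algebraMap F _ t) = algebraMap F _ (σ t) from b1 t, map_sub, ev.commutes,
        ev.commutes]
      exact sub_ne_zero.mpr ht.symm))
      (c3 _ w.2.2) w.2.1
  choose y hy using e3
  have e4 : ∀ w, IsUnit (y w) := fun w => isUnit_of_mul_isUnit_right (hy w ▸ c3 _ w.2.2)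
  have d2 : Nat.card (S × {w // θ w = w ∧ ¬ ev w = 0}) = Nat.card {v // ¬ B v (φ z v) = 0} := by
    refine Nat.card_eq_of_bijective (fun p => ⟨φ (y p.2) p.1.1, fun e => ?_⟩) ⟨?_, fun v => ?_⟩
    · replace e := (e1 p.1.1 (y p.2) z).symm.trans e
      replace e := (p.1.2 _).symm.trans e
      rw [hy, mul_comm, c2, map_smul] at e
      exact (smul_ne_zero p.2.2.2 hv₀) e
    · rintro ⟨v, w⟩ ⟨v', w'⟩ e
      have e : φ (y w) v = φ (y w') v' := congrArg Subtype.val e
      obtain rfl : w = w' := Subtype.ext (sub_eq_zero.mp (hb' _ fun c => by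
        rw [mul_sub, map_sub, ← v.2, ← v'.2, ← hy, ← hy]
        exact sub_eq_zero.mpr ((e1 _ _ _).symm.trans (e ▸ e1 _ _ _))))
      exact Prod.ext (Subtype.ext ((End.isUnit_iff _).mp ((e4 w).map φ) |>.1 e)) rfl
    · obtain ⟨w, hw⟩ := exists_mul_eq_dual hb' (β v.1)
      let w' : {w // θ w = w ∧ ¬ ev w = 0} := ⟨w, sub_eq_zero.mp (hb' _ fun c => by
        rw [mul_sub, map_sub, ← hw, ← b5 c, ← map_mul, e2, ← hw, ← e2, sub_self]), fun e =>
          v.2 ((hw z).trans (by rw [mul_comm, c2, e, zero_smul, map_zero]))⟩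
      obtain ⟨x, hx⟩ := (e4 w').exists_right_inv
      refine ⟨(⟨φ x v, fun c => ((e1 _ _ c).trans (hw _)).trans (congrArg _ ?_)⟩, w'),
        Subtype.ext (by simp [← End.mul_apply, ← map_mul, hx])⟩
      have := congrArg θ hx
      rw [map_mul, map_one θ] at this
      linear_combination (-c * θ x * x) * hy w' + c * (y w' * x) * this + c * hx
  have d3 : Nat.card {w // θ w = w ∧ ¬ ev w = 0} + q ^ k = q ^ (k + 1) := by
    have f1 := card_fixed_sq hH.ne hH.invol θ.toAddMonoidHom b6 b5 ⊤ fun _ _ => trivial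
    have f2 := card_fixed_sq hH.ne hH.invol θ.toAddMonoidHom b6 b5 (LinearMap.ker ev.toLinearMap)
      fun x hx => by_contra fun e => ((c3 _ e).map θ).map ev |>.ne_zero (by simpa [b5] using hx)
    have f3 := ev.toLinearMap.finrank_range_add_finrank_ker
    rw [LinearMap.range_eq_top.mpr fun a => ⟨algebraMap F _ a, ev.commutes a⟩, finrank_top, finrank_self,
      finrank_adjoinRoot h0, natDegree_pow, natDegree_X_sub_C] at f3
    rw [natCard_eq_pow_finrank (K := F) (V := LinearMap.ker _), hq.card,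
      show finrank F _ = k by omega, ← pow_mul, mul_comm, pow_mul] at f2
    rw [natCard_eq_pow_finrank (K := F) (V := (⊤ : Submodule F _)), hq.card, finrank_top,
      finrank_adjoinRoot h0, natDegree_pow, natDegree_X_sub_C, mul_one, ← pow_mul, mul_comm,
      pow_mul] at f1
    rw [← Nat.pow_left_injective two_ne_zero f1, ← Nat.pow_left_injective two_ne_zero f2]
    exact ((card_or (s := fun w => w ∈ (⊤ : Submodule F _) ∧ θ w = w)
      (p := fun w => θ w = w ∧ ¬ ev w = 0) (q := fun w => w ∈ LinearMap.ker ev.toLinearMap ∧ θ w = w)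
      (fun w => by simp; tauto) fun w h h' => h.2 h'.1).2).symm
  have e5 : ∀ (s : S) c, ∀ w ∈ cW φ (B s), B (φ c s) w = 0 ∧ B w (φ c s) = 0 := fun s c w hw =>
    ⟨(b4 _ _ _).trans (hw _), hH.refl ((b4 _ _ _).trans (hw _))⟩
  have e6 : ∀ s : S, (pull B (cW φ (B s)).subtype).SeparatingLeft := fun s w hw =>
    Subtype.ext (hB _ fun x => by
      obtain ⟨E, hE⟩ := exists_split hb' s.2
      obtain ⟨⟨c, w'⟩, rfl⟩ := E.surjective x
      simpa [hE, e5 s c w w.2] using hw w')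
  let s₀ : S := ⟨v₀, fun _ => rfl⟩
  refine ⟨_, _, _, hH.pull _, e6 s₀, fun x y => hT x y, h3 _ hb' _ _ s₀.2, ?_⟩
  rw [card_CI (fun c => by simpa using AdjoinRoot.mk_surjective c) hb' (·.1) (B ·.1)
    (fun s t e _ => Subtype.ext e) s₀ (fun g => ⟨⟨g.1 v₀, fun c => ?_⟩, rfl, g.2.1 _⟩) (·.2) e5
    (fun s c d => by rw [b4, b4, ← End.mul_apply, ← End.mul_apply, ← map_mul, s.2, s₀.2])
    fun s => ?_]
  · rw [← d2, Nat.card_prod] at d1
    zify at d3
    refine mul_right_cancel₀ (b := (q - 1 : ℤ) * q ^ (k + 1)) (mul_ne_zero (by omega)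
      (by positivity)) ?_
    have h6 : (q : ℤ) ^ (2 * μ.sum + (k + 1)) * q ^ (k + 1) =
        (q ^ (finrank F (LinearMap.ker (φ z)) + (μ.count (k + 1) + 1))) ^ 2 := by
      rw [h2, h1]; ring
    push_cast at d1 ⊢
    linear_combination (exp := 1) (Nat.card (CI (pull B (cW φ (B v₀)).subtype)
      ((φ (AdjoinRoot.root _)).restrict (cW_inv φ (B v₀) _))) : ℤ) *
      ((q : ℤ) ^ (2 * μ.count (k + 1) + 1) * (d1 - q * Nat.card S * d3) - (q - 1) *
      (q ^ μ.count (k + 1) * (q ^ (μ.count (k + 1) + 1) - (-1) ^ (μ.count (k + 1) + 1))) * h6)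
  · obtain ⟨f, rfl⟩ := AdjoinRoot.mk_surjective c
    rw [← s₀.2, algHom_mk, ← g.2.1 v₀]
    exact congrArg _ (LinearMap.congr_fun (commute_aeval
      (y := g.1.toLinearMap) (LinearMap.ext fun x => (g.2.2 x).symm) f).eq v₀)
  · obtain ⟨e, h4, h5⟩ := exists_isom_herm (hH.pull _) (e6 s₀) (hH.pull _) (e6 s)
      (fun x y => hT x y) (fun x y => hT x y) ((h3 _ hb' _ _ s₀.2).trans (h3 _ hb' _ _ s.2).symm)
    exact ⟨e, h4, fun x => congrArg Subtype.val (h5 x)⟩

omit [FiniteDimensional F V] [Finite F] in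
theorem cexp_jordan {t : ℕ} (d : Fin t → ℕ) (i : ℕ) : (Finset.univ.val.map d).count i =
    (Finset.univ.filter fun k => d k = i).card := by
  rw [Multiset.count_map]; simp only [eq_comm]; rfl

/-- Order of the centraliser of a unipotent element in the general linear group. -/
theorem card_CI_gl {T : End F V} {μ : Multiset ℕ} {M : ℕ} (hμ : ∀ j ∈ μ, 0 < j ∧ j < M)
    (h : tyE T = μ.map fun j => (X - 1) ^ j) : Nat.card (CI (σ := σ) 0 T) =
      Nat.card F ^ cexp M (fun i => μ.count i) * ∏ i ∈ Finset.range M,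
        ∏ j : Fin (μ.count i), (Nat.card F ^ μ.count i - Nat.card F ^ (j : ℕ)) := by
  have h0 : 0 < Nat.card F := Nat.card_pos
  have := closed_form (q := Nat.card F) (by simp [h0.ne']) (G := fun a => ∏ j : Fin a,
    ((Nat.card F : ℤ) ^ a - Nat.card F ^ (j : ℕ))) (g := fun a => Nat.card F ^ a *
      (Nat.card F ^ (a + 1) - 1)) (by simp) (fun a => by
        simp only [Fin.prod_univ_succ, Fin.val_succ, pow_succ' _ a, pow_succ' _ (_ : Fin a).val,
          ← mul_sub, Finset.prod_mul_distrib]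
        simp; ring)
    (P := fun μ x => ∃ (W : Type _) (_ : AddCommGroup W) (_ : Module F W)
      (_ : FiniteDimensional F W) (T : End F W), (tyE T = μ.map fun j => (X - 1) ^ j) ∧
        x = Nat.card (CI (σ := σ) 0 T))
    (by rintro _ ⟨W, _, _, _, T, h, rfl⟩; simp [card_CI_zero h])
    (by
      rintro μ k _ hμ ⟨W, _, _, _, T, h, rfl⟩
      obtain ⟨W', T', h1, h2⟩ := card_CI_gl_step (σ := σ) hμ h
      exact ⟨_, ⟨W', _, _, _, T', h1, rfl⟩, h2⟩) μ hμ ⟨V, _, _, _, T, h, rfl⟩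
  zify
  rw [this]
  refine congrArg _ (Finset.prod_congr rfl fun i _ => Finset.prod_congr rfl fun j _ => ?_)
  rw [Nat.cast_sub (Nat.pow_le_pow_right h0 j.2.le)]; simp

/-- Order of the centraliser of a unipotent element in the unitary group. -/
theorem card_CI_herm {q : ℕ} (hq : QConj σ q) {B : V →ₛₗ[σ] V →ₗ[F] F} (hH : IsHerm B)
    (hB : B.SeparatingLeft) {T : End F V} (hT : ∀ x y, B (T x) (T y) = B x y) {μ : Multiset ℕ}
    {M : ℕ} (hμ : ∀ j ∈ μ, 0 < j ∧ j < M) (h : tyE T = μ.map fun j => (X - 1) ^ j) :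
    (Nat.card (CI B T) : ℤ) = q ^ cexp M (fun i => μ.count i) * ∏ i ∈ Finset.range M,
      ((q : ℤ) ^ (μ.count i * (μ.count i - 1) / 2) *
        ∏ j : Fin (μ.count i), ((q : ℤ) ^ ((j : ℕ) + 1) - (-1) ^ ((j : ℕ) + 1))) :=
  closed_form (q := q) (by have := Nat.card_pos (α := F); rw [hq.card] at this; simpa [Nat.pos_iff_ne_zero] using this)
    (G := fun a => (q : ℤ) ^ (a * (a - 1) / 2) * ∏ j : Fin a, ((q : ℤ) ^ ((j : ℕ) + 1) -
      (-1) ^ ((j : ℕ) + 1))) (g := fun a => q ^ a * (q ^ (a + 1) - (-1) ^ (a + 1))) (by simp)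
    (fun a => by simp only [Fin.prod_univ_castSucc, Nat.triangle_succ]; simp; ring)
    (P := fun μ x => ∃ (W : Type _) (_ : AddCommGroup W) (_ : Module F W)
      (_ : FiniteDimensional F W) (B : W →ₛₗ[σ] W →ₗ[F] F) (T : End F W), IsHerm B ∧
        B.SeparatingLeft ∧ (∀ x y, B (T x) (T y) = B x y) ∧
        (tyE T = μ.map fun j => (X - 1) ^ j) ∧ x = Nat.card (CI B T))
    (by rintro _ ⟨W, _, _, _, B, T, -, -, -, h, rfl⟩; simp [card_CI_zero h])
    (by
      rintro μ k _ hμ ⟨W, _, _, _, B, T, h1, h2, h3, h, rfl⟩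
      obtain ⟨W', B', T', h4, h5, h6, h7, h8⟩ := card_CI_herm_step hq h1 h2 h3 hμ h
      exact ⟨_, ⟨W', _, _, _, B', T', h4, h5, h6, h7, rfl⟩, h8⟩) μ hμ
    ⟨V, _, _, _, B, T, hH, hB, hT, h, rfl⟩

omit [Finite F] in
theorem card_CI_mat {ι : Type} [Fintype ι] [DecidableEq ι] (A : Matrix ι ι F) :
    Nat.card {g : GL ι F // g.1 * A = A * g.1} =
      Nat.card (CI (σ := RingHom.id F) 0 (Matrix.toLin' A)) :=
  Nat.card_congr ((glEquiv ι F).toEquiv.subtypeEquiv fun g => by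
    rw [← Matrix.toLin'.injective.eq_iff, Matrix.toLin'_mul, Matrix.toLin'_mul, LinearMap.ext_iff]
    exact ⟨fun h => ⟨fun _ _ => rfl, h⟩, fun h => h.2⟩)

end Cfsg.Agent.H10
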