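import Mathlib
import Cfsg.Agent.H10.Cent

/-! Classes of elements of prime order in projective linear and unitary groups. -/

namespace Cfsg.Agent.H10
open Module Polynomial H11 L0

theorem card_classes_prime {G : Type*} [Group G] [Finite G] {r : ℕ} (hr : r.Prime) :
    Nat.card {C : ConjClasses G // ∃ g, ConjClasses.mk g = C ∧ orderOf g = r} + 1 =
      Nat.card {C : ConjClasses G // ∃ g, ConjClasses.mk g = C ∧ g ^ r = 1} := by
  have := Fact.mk hr
  rw [(card_or (p := fun C : ConjClasses G => ∃ g, ConjClasses.mk g = C ∧ orderOf g = r)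
      (s := fun C => ∃ g, ConjClasses.mk g = C ∧ g ^ r = 1)
      (q := (· = 1)) (fun C => ⟨?_, ?_⟩) ?_).2, Nat.card_unique (α := {C // C = 1})]
  · rintro _ ⟨g, rfl, hg⟩ e
    rw [isConj_one_left.mp (ConjClasses.mk_eq_mk_iff_isConj.mp e), orderOf_one] at hg
    exact hr.one_lt.ne hg
  · rintro ⟨g, rfl, hg⟩
    by_cases e : g = 1
    · exact .inr (e ▸ rfl)
    · exact .inl ⟨g, rfl, orderOf_eq_prime hg e⟩
  · rintro (⟨g, rfl, hg⟩ | rfl)
    · exact ⟨g, rfl, hg ▸ pow_orderOf_eq_one g⟩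
    · exact ⟨1, rfl, one_pow _⟩

/-- Translation of multisets. -/
@[reducible] def symAct (M : Type*) [Group M] (n : ℕ) : MulAction M (Sym M n) where
  smul a m := m.map (a * ·)
  one_smul m := by change m.map _ = _; simp
  mul_smul a b m := by change m.map _ = (m.map _).map _; simp [Function.comp_def, mul_assoc]

theorem card_orbits_sym {M : Type*} [Group M] [Finite M] {r : ℕ} (hr : r.Prime)
    (h : Nat.card M = r) (n : ℕ) : Nat.card (@MulAction.orbitRel.Quotient M _ _ (symAct M n)) * r =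
      (n + r - 1).choose (r - 1) + (r - 1) * if r ∣ n then 1 else 0 := by
  classical
  let := symAct M n
  have := Fact.mk hr
  have := Fintype.ofFinite M
  have := Fintype.ofFinite (MulAction.orbitRel.Quotient M (Sym M n))
  have h0 := MulAction.sum_card_fixedBy_eq_card_orbits_mul_card_group M (Sym M n)
  rw [Nat.card_eq_fintype_card] at h
  rw [Nat.card_eq_fintype_card, ← h, ← h0, ← Finset.add_sum_erase _ _ (Finset.mem_univ 1),
    Finset.sum_const_nat (m := if r ∣ n then 1 else 0) fun a ha => ?_, h]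
  · have := hr.pos
    simp [h, Sym.card_sym_eq_choose, add_comm r, Nat.choose_symm_of_eq_add (show n + r - 1 =
      n + (r - 1) by omega)]
  have h1 : ∀ m : Sym M n, m ∈ MulAction.fixedBy _ a ↔ ∃ k : ℕ, m.1 = k • Finset.univ.val := fun m => by
    refine ⟨fun hm => ⟨m.1.count 1, Multiset.ext.mpr fun b => ?_⟩, fun ⟨k, hk⟩ => Subtype.ext ?_⟩
    · obtain ⟨j, rfl⟩ := (mem_powers_iff_mem_zpowers.mpr (mem_zpowers_of_prime_card
        (Nat.card_eq_fintype_card.trans h) (Finset.ne_of_mem_erase ha) (g' := b)) :)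
      rw [Multiset.count_nsmul, Multiset.count_univ, mul_one]
      dsimp only
      induction j with
      | zero => simp
      | succ j ih =>
        rw [← ih, pow_succ', ← Multiset.count_map_eq_count' _ _ (mul_right_injective a) (a ^ j)]
        exact congrArg (fun x : Sym M n => x.1.count (a * a ^ j)) hm.symm
    · change m.1.map _ = _
      rw [hk, Multiset.map_nsmul]
      exact congrArg _ (Multiset.map_univ_val_equiv (Equiv.mulLeft a))
  have h2 : ∀ (m : Sym M n) (k : ℕ), m.1 = k • Finset.univ.val → n = r * k := fun m k hk => by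
    simpa [m.2, h, mul_comm] using congrArg Multiset.card hk
  split_ifs with e
  · obtain ⟨k, rfl⟩ := e
    refine Fintype.card_eq_one_iff.mpr ⟨⟨⟨k • Finset.univ.val, by simp [h, mul_comm]⟩,
      (h1 _).mpr ⟨k, rfl⟩⟩, fun m => Subtype.ext (Subtype.ext ?_)⟩
    obtain ⟨j, hj⟩ := (h1 _).mp m.2
    obtain rfl := Nat.eq_of_mul_eq_mul_left hr.pos (h2 _ _ hj)
    exact hj
  · exact Fintype.card_eq_zero_iff.mpr ⟨fun m => ((h1 _).mp m.2).elim fun k hk => e ⟨k, h2 _ k hk⟩⟩

variable {F : Type*} [Field F] {σ : F →+* F} {V : Type*} [AddCommGroup V] [Module F V]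
  [FiniteDimensional F V] {r : ℕ}

open Classical in
theorem gd_X_sub_C (f : F[X]) (a : F) : gd f (X - C a) = if f.eval a = 0 then 1 else 0 := by
  split_ifs with h
  · rw [gd_of_dvd_left (X_sub_C_ne_zero a) (dvd_iff_isRoot.mpr h), natDegree_X_sub_C]
  · exact gd_of_isCoprime (X_sub_C_ne_zero a) ((irreducible_X_sub_C a).coprime_iff_not_dvd.mpr
      fun e => h (dvd_iff_isRoot.mp e)).symm

theorem tyE_smul_lin {T : End F V} {m : Multiset F} (h : tyE T = m.map fun a => X - C a) (l : F) :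
    tyE (l • T) = (m.map (l * ·)).map fun a => X - C a := by
  refine tyE_eq_of_kdE (fun u hu => ?_) fun p k _ _ => ?_
  · obtain ⟨a, -, rfl⟩ := Multiset.mem_map.mp hu
    exact .of_irreducible (irreducible_X_sub_C a) (monic_X_sub_C a)
  · rw [show kdE (l • T) (p ^ k) = kdE T ((p ^ k).comp (C l * X)) by
      rw [kdE, kdE, aeval_comp, map_mul, aeval_C, aeval_X, ← Algebra.smul_def], kdE_eq_sum, h]
    simp only [Multiset.map_map, Function.comp, gd_X_sub_C]
    exact congrArg _ (Multiset.map_congr rfl fun x _ => by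
      rw [eval_comp, eval_mul, eval_C, eval_X])

theorem pow_eq_scalar_iff (T : End F V) (k : ℕ) (c : F) :
    T ^ k = algebraMap F _ c ↔ ∀ u ∈ tyE T, u ∣ X ^ k - C c := by
  rw [← aeval_eq_zero_iff_tyE, ← sub_eq_zero]; simp

theorem tyE_of_irr {T : End F V} {u : F[X]} (hu : Irreducible u) (hm : u.Monic)
    (h : ∀ v ∈ tyE T, v ∣ u) : ∃ k, tyE T = Multiset.replicate k u ∧
      finrank F V = u.natDegree * k := by
  have h1 := Multiset.eq_replicate_card.mpr fun v hv => eq_of_monic_of_associated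
    (prim_of_mem_tyE hv).monic hm (((irreducible_iff_prime.mp hu).irreducible.dvd_iff.mp
      (h v hv)).resolve_left (not_isUnit_of_natDegree_pos _ (prim_of_mem_tyE hv).natDegree_pos)).symm
  exact ⟨_, h1, by rw [finrank_eq_sum_tyE T, h1]; simp [mul_comm]⟩

theorem exists_tyE_lin [NeZero r] {ζ : F} (hζ : IsPrimitiveRoot ζ r) {T : End F V}
    (h : T ^ r = 1) : ∃ m : Sym (rootsOfUnity r F) (finrank F V),
      tyE T = (m.1.map fun a => a.1.1).map fun a => X - C a := by
  have h0 : (r : F) ≠ 0 := hζ.neZero'.out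
  have H : ∀ u ∈ tyE T, ∃ a : rootsOfUnity r F, X - C a.1.1 = u := fun u hu => by
    have h1 := irrD_of_mem h0 h hu
    have h2 := h1.2.2
    rw [X_pow_sub_one_eq_prod (NeZero.pos r) hζ] at h2
    obtain ⟨a, ha, h3⟩ := (h1.1.prime.dvd_finsetProd_iff _).mp h2
    exact ⟨rootsOfUnity.mkOfPowEq a ((mem_nthRootsFinset (NeZero.pos r) 1).mp ha),
      (eq_of_monic_of_associated h1.2.1 (monic_X_sub_C a)
        (h1.1.associated_of_dvd (irreducible_X_sub_C a) h3)).symm⟩
  choose f hf using H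
  refine ⟨⟨(tyE T).attach.map fun u => f u.1 u.2, ?_⟩, by simp [hf]⟩
  rw [finrank_eq_sum_tyE T, Multiset.map_congr (f := natDegree) rfl (g := fun _ => 1)
    fun u hu => by rw [← hf u hu, natDegree_X_sub_C]]
  simp

theorem isConj_proj_iff {G : Type*} [Group G] (ρ : G →* End F V) {Λ : Subgroup Fˣ}
    (hZ : ∀ g, g ∈ Subgroup.center G → ∃ a ∈ Λ, ρ g = algebraMap F _ a.1)
    (hΛ : ∀ a ∈ Λ, ∃ g ∈ Subgroup.center G, ρ g = algebraMap F _ a.1)
    (hc : ∀ g g', tyE (ρ g) = tyE (ρ g') → IsConj g g') (g g' : G) :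
    IsConj (g : G ⧸ Subgroup.center G) g' ↔ ∃ a ∈ Λ, tyE (ρ g') = tyE (a.1 • ρ g) := by
  refine ⟨fun h => ?_, fun ⟨a, ha, h⟩ => ?_⟩
  · obtain ⟨k, hk⟩ := isConj_iff.mp h
    obtain ⟨k, rfl⟩ := QuotientGroup.mk_surjective k
    obtain ⟨a, ha, e⟩ := hZ _ (QuotientGroup.eq.mp (show ((k * g * k⁻¹ : G) :
      G ⧸ Subgroup.center G) = g' from hk))
    refine ⟨a, ha, (tyE_congr (LinearEquiv.ofLinearMap (ρ k) (ρ k⁻¹)
      (by rw [← End.mul_eq_comp, ← map_mul, mul_inv_cancel, map_one]; rfl)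
      (by rw [← End.mul_eq_comp, ← map_mul, inv_mul_cancel, map_one]; rfl)) fun v => ?_).symm⟩
    rw [← mul_inv_cancel_left (k * g * k⁻¹) g', map_mul ρ (k * g * k⁻¹), e, ← Algebra.commutes,
      ← Algebra.smul_def]
    simp [← End.mul_apply, ← map_mul]
  · obtain ⟨z, hz, e⟩ := hΛ a ha
    rw [Algebra.smul_def, ← e, ← map_mul] at h
    simpa [(QuotientGroup.eq_one_iff z).mpr hz] using
      (QuotientGroup.mk' (Subgroup.center G)).map_isConj (hc _ _ h.symm)

theorem card_classes_proj {G : Type*} [Group G] [Finite G] [Finite F] (ρ : G →* End F V)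
    (hρ : Function.Injective ρ) {Λ : Subgroup Fˣ}
    (hZ : ∀ g, g ∈ Subgroup.center G → ∃ a ∈ Λ, ρ g = algebraMap F _ a.1)
    (hΛ : ∀ a ∈ Λ, ∃ g ∈ Subgroup.center G, ρ g = algebraMap F _ a.1)
    (hc : ∀ g g', tyE (ρ g) = tyE (ρ g') → IsConj g g') (hr : r.Prime) (hd : r ∣ Nat.card Λ)
    (hp : ∀ a ∈ Λ, ∀ y : F, y ^ r = a.1 → ∃ b ∈ Λ, b ^ r = a) (hn : 0 < finrank F V)
    (he : ∀ s : Multiset F[X], (∀ u ∈ s, Irreducible u ∧ ∃ k, ∃ a ∈ Λ, u = X ^ (k + 1) - C a.1) →
      (s.map natDegree).sum = finrank F V → ∃ g, tyE (ρ g) = s) :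
    Nat.card {C : ConjClasses (G ⧸ Subgroup.center G) // ∃ g, ConjClasses.mk g = C ∧
      orderOf g = r} = ((finrank F V + r - 1).choose (r - 1) - r - (if r ∣ finrank F V then 1
        else 0)) / r + r * (if r ∣ finrank F V then 1 else 0) := by
  have := Fact.mk hr
  have := finrank_pos_iff.mp hn
  obtain ⟨ζ, hζ⟩ := exists_prime_orderOf_dvd_card' r hd
  have h0 : IsPrimitiveRoot ζ.1 r := by
    rw [← hζ, ← Subgroup.orderOf_coe]; exact IsPrimitiveRoot.orderOf _
  have h1 : rootsOfUnity r F ≤ Λ := h0.zpowers_eq ▸ Subgroup.zpowers_le.mpr ζ.2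
  let := symAct (rootsOfUnity r F) (finrank F V)
  have hk := isConj_proj_iff ρ hZ hΛ hc
  have h2 : ∀ g (c : Λ), ρ g ^ r = algebraMap F _ c.1.1 →
      (g : G ⧸ Subgroup.center G) ^ r = 1 := fun g c h => by
    obtain ⟨z, hz, e⟩ := hΛ c c.2
    rw [← QuotientGroup.mk_pow, hρ ((map_pow ρ g r).trans (h.trans e.symm)),
      (QuotientGroup.eq_one_iff z).mpr hz]
  have h3 : ∀ c : Λ, (c : Λ ⧸ (powMonoidHom r).range) ≠ 1 → Irreducible (X ^ r - C c.1.1) :=
    fun c h => X_pow_sub_C_irreducible_of_prime hr fun y hy => h (by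
      obtain ⟨b, hb, e⟩ := hp c c.2 y hy
      exact (QuotientGroup.eq_one_iff _).mpr ⟨⟨b, hb⟩, Subtype.ext e⟩)
  have h4 : ∀ {g} {m : Multiset (rootsOfUnity r F)}, (tyE (ρ g) = (m.map fun a => a.1.1).map
      fun a => X - C a) → ρ g ^ r = algebraMap F _ (1 : Λ).1.1 := fun {g m} h =>
    (pow_eq_scalar_iff _ _ _).mpr fun u hu => by
      simp only [h, Multiset.map_map, Multiset.mem_map] at hu
      obtain ⟨a, -, rfl⟩ := hu
      exact dvd_iff_isRoot.mpr (by simp [(mem_rootsOfUnity' _ _).mp a.2])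
  have h5 : ∀ {g g' : G} {c c' : Λ}, ρ g ^ r = algebraMap F _ c.1.1 → ρ g' ^ r = algebraMap F _ c'.1.1
      → IsConj (g : G ⧸ Subgroup.center G) g' → (c : Λ ⧸ (powMonoidHom r).range) = c' := by
    intro g g' c c' e e' h
    obtain ⟨a, ha, h⟩ := (hk g g').mp h
    rw [pow_eq_scalar_iff, h, ← pow_eq_scalar_iff, _root_.smul_pow, e, Algebra.smul_def, ← map_mul] at e'
    exact QuotientGroup.eq.mpr ⟨⟨a, ha⟩, Subtype.ext (Units.ext (by
      simp [← (algebraMap F _).injective e', mul_comm (a.1 ^ r)]))⟩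
  have h6 := card_classes_eq (G := G ⧸ Subgroup.center G) (I := MulAction.orbitRel.Quotient
    (rootsOfUnity r F) (Sym (rootsOfUnity r F) (finrank F V)) ⊕
      {y : Λ ⧸ (powMonoidHom r).range // y ≠ 1 ∧ r ∣ finrank F V}) (· ^ r = 1)
    (Sum.elim (fun o x => ∃ g m, QuotientGroup.mk g = x ∧ Quotient.mk'' m = o ∧
        tyE (ρ g) = (m.1.map fun a => a.1.1).map fun a => X - C a)
      fun y x => ∃ g, ∃ c : Λ, QuotientGroup.mk g = x ∧ QuotientGroup.mk c = y.1 ∧
        ρ g ^ r = algebraMap F _ c.1.1) (fun x hx => ?_) ?_ ?_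
  · have h7 := card_orbits_sym hr h0.card_rootsOfUnity' (finrank F V)
    have h8 : Nat.card (Λ ⧸ (powMonoidHom r).range) = r := by
      rw [← Subgroup.index_eq_card, Subgroup.index_range]
      exact (Nat.card_congr ⟨fun a => ⟨a.1.1, congrArg Subtype.val a.2⟩,
        fun a => ⟨⟨a.1, h1 a.2⟩, Subtype.ext a.2⟩, fun _ => rfl, fun _ => rfl⟩).trans
        h0.card_rootsOfUnity'
    have h9 : 2 ≤ (finrank F V + r - 1).choose (r - 1) := by
      have := hr.two_le
      refine le_trans ?_ (Nat.choose_le_choose _ (show (r - 1) + 1 ≤ _ by omega))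
      rw [Nat.choose_succ_self_right]; omega
    rw [← card_classes_prime hr, Nat.card_sum] at h6
    generalize Nat.card (MulAction.orbitRel.Quotient (rootsOfUnity r F)
      (Sym (rootsOfUnity r F) (finrank F V))) = o at h6 h7
    have := hr.two_le
    split_ifs at h7 ⊢ with e
    · have h10 : Nat.card {y : Λ ⧸ (powMonoidHom r).range // y ≠ 1 ∧ r ∣ finrank F V} + 1 = r := by
        classical
        have := Fintype.ofFinite (Λ ⧸ (powMonoidHom r).range)
        rw [Nat.card_eq_fintype_card] at h8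
        simp only [e, and_true, Nat.card_eq_fintype_card, Fintype.card_subtype_compl,
          Fintype.card_unique, h8]
        omega
      obtain ⟨o, rfl⟩ : ∃ k, o = k + 2 := Nat.exists_eq_add_of_le' (by
        by_contra e; interval_cases o <;> omega)
      rw [show _ - r - 1 = r * o by rw [add_mul, mul_comm] at h7; omega, Nat.mul_div_cancel_left _ hr.pos]
      omega
    · obtain ⟨o, rfl⟩ : ∃ k, o = k + 1 := Nat.exists_eq_add_of_le' (by
        by_contra e; interval_cases o; omega)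
      rw [show _ - r - 0 = r * o by rw [add_mul, mul_comm] at h7; omega, Nat.mul_div_cancel_left _ hr.pos]
      simpa [e] using h6
  · obtain ⟨g, rfl⟩ := QuotientGroup.mk_surjective x
    obtain ⟨c, hc, e⟩ := hZ _ ((QuotientGroup.eq_one_iff _).mp hx)
    rw [map_pow] at e
    by_cases h : ((⟨c, hc⟩ : Λ) : Λ ⧸ (powMonoidHom r).range) = 1
    · obtain ⟨b, hb⟩ := (QuotientGroup.eq_one_iff _).mp h
      obtain ⟨z, hz, e'⟩ := hΛ _ b⁻¹.2
      obtain ⟨m, hm⟩ := exists_tyE_lin (IsPrimitiveRoot.coe_units_iff.mpr h0) (T := ρ (z * g)) (by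
        rw [map_mul, e', ← Algebra.smul_def, _root_.smul_pow, e, Algebra.smul_def, ← map_mul,
          ← show (b.1 ^ r : Fˣ) = c from congrArg Subtype.val hb]
        simp [← mul_pow])
      exact ⟨.inl _, z * g, m, by simp [(QuotientGroup.eq_one_iff z).mpr hz], rfl, hm⟩
    · obtain ⟨k, -, hk⟩ := tyE_of_irr (h3 _ h) (monic_X_pow_sub_C _ hr.ne_zero)
        ((pow_eq_scalar_iff _ _ _).mp e)
      exact ⟨.inr ⟨_, h, k, by rw [hk, natDegree_X_pow_sub_C]⟩, g, _, rfl, rfl, e⟩
  · rintro (o | ⟨y, hy, k, hk⟩)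
    · obtain ⟨m, rfl⟩ := Quotient.exists_rep o
      obtain ⟨g, hg⟩ := he ((m.1.map fun a => a.1.1).map fun a => X - C a) (fun u hu => by
        simp only [Multiset.map_map, Multiset.mem_map] at hu
        obtain ⟨a, -, rfl⟩ := hu
        exact ⟨irreducible_X_sub_C _, 0, a, h1 a.2, by simp⟩) (by simp)
      exact ⟨g, h2 g 1 (h4 hg), g, m, rfl, rfl, hg⟩
    · obtain ⟨c, rfl⟩ := QuotientGroup.mk_surjective y
      obtain ⟨g, hg⟩ := he (Multiset.replicate k (X ^ r - C c.1.1)) (fun u hu => by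
        rw [Multiset.eq_of_mem_replicate hu]
        exact ⟨h3 c hy, r - 1, c, c.2, by rw [Nat.sub_add_cancel hr.pos]⟩) (by simp [hk, mul_comm])
      have := (pow_eq_scalar_iff (ρ g) r c.1.1).mpr fun u hu =>
        (Multiset.eq_of_mem_replicate (hg ▸ hu)).dvd
      exact ⟨g, h2 g c this, g, c, rfl, rfl, this⟩
  · rintro (o | y) (o' | y') _ _ - - ⟨g, m, rfl, e1, e2⟩ ⟨g', m', rfl, e3, e4⟩
    · have hi : Function.Injective fun m : Multiset (rootsOfUnity r F) =>
          (m.map fun a => a.1.1).map fun a => X - C a :=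
        (Multiset.map_injective fun a b h => C_injective (sub_right_injective h)).comp
          (Multiset.map_injective (Units.val_injective.comp Subtype.val_injective))
      rw [hk, Sum.inl.injEq, ← e1, ← e3, eq_comm, Quotient.eq'', MulAction.orbitRel_apply]
      refine ⟨fun ⟨a, _, h⟩ => ?_, fun ⟨a, h⟩ => ⟨a, h1 a.2, ?_⟩⟩
      · have := (pow_eq_scalar_iff _ _ _).mp (h4 e4)
        rw [h, ← pow_eq_scalar_iff, _root_.smul_pow, h4 e2, Algebra.smul_def, ← map_mul] at this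
        refine ⟨⟨a, Units.ext (by simpa using (algebraMap F _).injective this)⟩,
          Subtype.ext (hi ?_)⟩
        refine Eq.trans ?_ ((tyE_smul_lin e2 _).symm.trans (h.symm.trans e4))
        change (Multiset.map _ (m.1.map _)).map _ = _
        simp
      · rw [e4, tyE_smul_lin e2, ← h]
        change (Multiset.map _ (m.1.map _)).map _ = _
        simp
    · exact iff_of_false (fun h => y'.2.1 (e3.symm.trans (h5 (h4 e2) e4 h).symm)) nofun
    · exact iff_of_false (fun h => y.2.1 (e1.symm.trans (h5 e2 (h4 e4) h))) nofun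
    · refine ⟨fun h => congrArg _ (Subtype.ext (e1.symm.trans ((h5 e2 e4 h).trans e3))),
        fun h => (hk _ _).mpr ?_⟩
      obtain ⟨b, hb⟩ := QuotientGroup.eq.mp (e1.trans ((congrArg Subtype.val
        (Sum.inr.inj h)).trans e3.symm))
      have hi := h3 m' (e3 ▸ y'.2.1)
      obtain ⟨k, k1, k2⟩ := tyE_of_irr hi (monic_X_pow_sub_C _ hr.ne_zero)
        ((pow_eq_scalar_iff _ _ _).mp e4)
      obtain ⟨j, j1, j2⟩ := tyE_of_irr hi (monic_X_pow_sub_C _ hr.ne_zero)
        ((pow_eq_scalar_iff (b.1.1 • ρ g) _ _).mp (by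
          rw [_root_.smul_pow, e2, Algebra.smul_def, ← map_mul, ← eq_inv_mul_iff_mul_eq.mp hb]
          simp [mul_comm]))
      exact ⟨b, b.2, by rw [k1, j1, Nat.eq_of_mul_eq_mul_left hi.natDegree_pos (k2.symm.trans j2)]⟩

theorem real_herm_binom (hσ : σ ≠ RingHom.id F) (hσ2 : ∀ a, σ (σ a) = a) {k : ℕ} {c : F}
    (hc : σ c * c = 1) (h : Irreducible (X ^ (k + 1) - C c)) :
    Real σ 1 1 (trHom σ) {X ^ (k + 1) - C c} := by
  have := Fact.mk h
  have h1 : AdjoinRoot.root (X ^ (k + 1) - C c) ^ (k + 1) = AdjoinRoot.of _ c :=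
    (root_pow_eq_iff _ _ _).mpr dvd_rfl
  have h0 : AdjoinRoot.root (X ^ (k + 1) - C c) ≠ 0 := fun e => by
    rw [e, zero_pow k.succ_ne_zero, eq_comm, map_eq_zero] at h1
    simp [h1] at hc
  obtain ⟨a, ha⟩ := exists_trace_eq hσ hσ2 (map_one σ)
  obtain ⟨l, hl⟩ := exists_dual_eq (F := F) (one_ne_zero (α := AdjoinRoot (X ^ (k + 1) - C c))) a
  exact ((par_herm hσ2).realD_cyc (.of_irreducible h (monic_X_pow_sub_C _ k.succ_ne_zero))
    (AdjoinRoot.lift ((AdjoinRoot.of _).comp σ) (AdjoinRoot.root _)⁻¹ (by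
      simpa [h1, sub_eq_zero] using inv_eq_of_mul_eq_one_left (by rw [← map_mul, hc, map_one])))
    (fun a => AdjoinRoot.lift_of _) (by rw [AdjoinRoot.lift_root, inv_mul_cancel₀ h0]) l (z := 1)
    (fun a ha => ⟨_, mul_inv_cancel₀ ha⟩) (by simp [hl, ha]) (w := 1) (by simp)).real

end Cfsg.Agent.H10
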