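import Mathlib
import Cfsg.Agent.H10.PG

/-! Invariant subspaces of semisimple isometries. -/

namespace Cfsg.Agent.H10

open Module Polynomial H11 L0

universe u

variable {F : Type u} [Field F] {σ : F →+* F} {ε κ : F} {τ : F →+ F} {N : ℕ}
  {V V' : Type*} [AddCommGroup V] [Module F V] [FiniteDimensional F V] [AddCommGroup V']
  [Module F V'] [FiniteDimensional F V'] {g : End F V} {g' : End F V'} {U W : Submodule F V}
  {s t : Multiset F[X]}

/-- `W` is invariant under `g`, with elementary divisors `t`. -/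
def TyOn (g : End F V) (W : Submodule F V) (t : Multiset F[X]) : Prop :=
  ∃ hW : ∀ x ∈ W, g x ∈ W, tyE (g.restrict hW) = t

theorem TyOn.inv (h : TyOn g W t) : ∀ x ∈ W, g x ∈ W := h.1

theorem TyOn.finrank_eq (h : TyOn g W t) : finrank F W = (t.map natDegree).sum := by
  obtain ⟨_, rfl⟩ := h; exact finrank_eq_sum_tyE _

theorem exists_tyOn (hW : ∀ x ∈ W, g x ∈ W) : ∃ t, TyOn g W t := ⟨_, hW, rfl⟩

theorem TyOn.unique (h : TyOn g W s) (h' : TyOn g W t) : s = t := h.2.symm.trans h'.2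

theorem tyOn_top : TyOn g ⊤ (tyE g) :=
  ⟨fun _ _ => trivial, tyE_congr Submodule.topEquiv fun _ => rfl⟩

theorem tyOn_bot : TyOn g ⊥ 0 := by
  obtain ⟨t, ht⟩ := exists_tyOn (g := g) (W := ⊥) (by simp)
  have h1 := ht.finrank_eq
  obtain ⟨h2, rfl⟩ := ht
  refine ⟨h2, Multiset.eq_zero_of_forall_notMem fun u hu => ?_⟩
  have := (prim_of_mem_tyE hu).natDegree_pos
  have := Multiset.single_le_sum (s := (tyE (g.restrict h2)).map natDegree) (by simp) _
    (Multiset.mem_map_of_mem _ hu)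
  simp at h1
  omega

theorem TyOn.map (h : TyOn g W t) {f : V →ₗ[F] V'} (hf : Function.Injective f)
    (hg : ∀ x, f (g x) = g' (f x)) : TyOn g' (W.map f) t := by
  obtain ⟨h1, rfl⟩ := h
  refine ⟨by rintro _ ⟨x, hx, rfl⟩; exact ⟨_, h1 x hx, hg x⟩,
    (tyE_congr (W.equivMapOfInjective f hf) fun v => ?_).symm⟩
  exact Subtype.ext (hg v)

theorem tyOn_range {f : V →ₗ[F] V'} (hf : Function.Injective f) (hg : ∀ x, f (g x) = g' (f x)) :
    TyOn g' (LinearMap.range f) (tyE g) := by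
  simpa using tyOn_top.map hf hg

theorem TyOn.sup (h : TyOn g U s) (h' : TyOn g W t) (hd : Disjoint U W) :
    TyOn g (U ⊔ W) (s + t) := by
  obtain ⟨h1, rfl⟩ := h
  obtain ⟨h2, rfl⟩ := h'
  have := tyOn_range (g := (g.restrict h1).prodMap (g.restrict h2)) (g' := g)
    (f := U.subtype.coprod W.subtype) (LinearMap.ker_eq_bot.mp (by
      rw [LinearMap.ker_coprod_of_disjoint_range _ _ (by simpa using hd)]; simp))
    fun x => by simp
  simpa [tyE_prodMap, LinearMap.range_coprod] using this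

theorem TyOn.eq_add (h : TyOn g U s) (h' : TyOn g W t) (hc : IsCompl U W) : tyE g = s + t :=
  tyOn_top.unique (hc.sup_eq_top ▸ h.sup h' hc.disjoint)

theorem TyOn.comap (h : TyOn g U s) (hW : ∀ x ∈ W, g x ∈ W) (hle : U ≤ W) :
    TyOn (g.restrict hW) (U.comap W.subtype) s := by
  obtain ⟨t, ht⟩ := exists_tyOn (g := g.restrict hW) (W := U.comap W.subtype) fun x hx => h.inv _ hx
  have := ht.map (g' := g) W.injective_subtype fun _ => rfl
  rw [Submodule.map_comap_subtype, inf_eq_right.mpr hle] at this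
  exact h.unique this ▸ ht

theorem TyOn.of_restrict {hW : ∀ x ∈ W, g x ∈ W} {U : Submodule F W}
    (h : TyOn (g.restrict hW) U s) : TyOn g (U.map W.subtype) s :=
  h.map W.injective_subtype fun _ => rfl

omit [FiniteDimensional F V] in
theorem restrict_pow_eq_one (hg : g ^ N = 1) (hW : ∀ x ∈ W, g x ∈ W) : g.restrict hW ^ N = 1 := by
  rw [End.pow_restrict N hW]
  exact LinearMap.ext fun x => Subtype.ext (LinearMap.congr_fun hg x)

omit [FiniteDimensional F V] in
theorem exists_inv_compl (hN : (N : F) ≠ 0) (hg : g ^ N = 1) (hW : ∀ x ∈ W, g x ∈ W) :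
    ∃ U, IsCompl W U ∧ ∀ x ∈ U, g x ∈ U := by
  have h1 : g.IsSemisimple := End.isSemisimple_of_squarefree_aeval_eq_zero
    (separable_X_pow_sub_C (1 : F) hN one_ne_zero).squarefree (by simp [hg])
  obtain ⟨U, h2, h3⟩ := End.isSemisimple_iff.mp h1 W hW
  exact ⟨U, h3, h2⟩

theorem TyOn.le_tyE (hN : (N : F) ≠ 0) (hg : g ^ N = 1) (h : TyOn g W t) : t ≤ tyE g := by
  obtain ⟨U, h1, h2⟩ := exists_inv_compl hN hg h.inv
  obtain ⟨s, hs⟩ := exists_tyOn h2
  exact h.eq_add hs h1 ▸ Multiset.le_add_right _ _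

theorem TyOn.le (hN : (N : F) ≠ 0) (hg : g ^ N = 1) (h : TyOn g U s) (h' : TyOn g W t)
    (hle : U ≤ W) : s ≤ t :=
  h'.2 ▸ (h.comap h'.inv hle).le_tyE hN (restrict_pow_eq_one hg _)

theorem exists_isCompl_of_ty (h : tyE g = s + t) :
    ∃ U W, IsCompl U W ∧ TyOn g U s ∧ TyOn g W t := by
  have h1 : ∀ u ∈ s + t, Prim u := fun u hu => prim_of_mem_tyE (h ▸ hu)
  obtain ⟨k, hk⟩ : ∃ k, (s.map natDegree).sum = k := ⟨_, rfl⟩
  obtain ⟨l, hl⟩ : ∃ k, (t.map natDegree).sum = k := ⟨_, rfl⟩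
  obtain ⟨a, rfl⟩ := exists_tyE_eq (V := Fin k → F) (s := s)
    (fun u hu => h1 u (by simp [hu])) (by simp [hk])
  obtain ⟨b, rfl⟩ := exists_tyE_eq (V := Fin l → F) (s := t)
    (fun u hu => h1 u (by simp [hu])) (by simp [hl])
  obtain ⟨e, he⟩ := (tyE_eq_iff _ _).mp ((tyE_prodMap a b).trans h.symm)
  exact ⟨_, _, (Submodule.orderIsoMapComap e).isCompl LinearMap.isCompl_range_inl_inr,
    (tyOn_range LinearMap.inl_injective (by simp)).map e.injective he,
    (tyOn_range LinearMap.inr_injective (by simp)).map e.injective he⟩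

theorem exists_tyOn_of_le (h : s ≤ tyE g) : ∃ U, TyOn g U s := by
  obtain ⟨t, ht⟩ := Multiset.le_iff_exists_add.mp h
  obtain ⟨U, -, -, h1, -⟩ := exists_isCompl_of_ty ht
  exact ⟨U, h1⟩

theorem exists_ker_of_mem_tyE {u f : F[X]} (hu : u ∈ tyE g) (hf : u ∣ f) :
    ∃ w, w ≠ 0 ∧ aeval g f w = 0 := by
  obtain ⟨U, hU⟩ := exists_tyOn_of_le (Multiset.singleton_le.mpr hu)
  have h1 := hU.finrank_eq
  have h2 := (prim_of_mem_tyE hu).natDegree_pos
  obtain ⟨w, hw⟩ := finrank_pos_iff_exists_ne_zero.mp (show 0 < finrank F U by simpa [h1] using h2)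
  obtain ⟨h3, h4⟩ := hU
  have h5 := (aeval_eq_zero_iff_tyE (g.restrict h3) f).mpr (by simpa [h4] using hf)
  refine ⟨w, by simpa using hw, ?_⟩
  have h6 : ∀ f : F[X], (aeval (g.restrict h3) f w : V) = aeval g f w := fun f => by
    induction f using Polynomial.induction_on' with
    | add p q hp hq => simp [hp, hq]
    | monomial n a => simp [aeval_monomial, End.pow_restrict n h3, Algebra.algebraMap_eq_smul_one]
  rw [← h6, h5]; rfl

section forms
variable {B : V →ₛₗ[σ] V →ₗ[F] F} {Q : V → F} {B' : V' →ₛₗ[σ] V' →ₗ[F] F} {Q' : V' → F}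

/-- The case in which invariant forms are unique up to the centraliser. -/
def Unq (σ : F →+* F) (g : End F V) : Prop := σ ≠ RingHom.id F ∨ ∀ w, g (g w) = w → w = 0

theorem Unq.good (H : Unq σ g) (ε : F) (hs : s ≤ tyE g) : Good σ ε s := by
  by_cases h : σ = RingHom.id F
  · refine .inr ⟨h, fun u hu h1 => ?_⟩
    obtain ⟨w, h2, h3⟩ := exists_ker_of_mem_tyE (Multiset.mem_of_le hs hu) h1
    exact h2 (H.resolve_left (not_not.mpr h) w (by simpa [sq, sub_eq_zero] using h3))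
  · refine .inl (by_contra fun h1 => h (RingHom.ext fun a => ?_))
    push Not at h1
    have h2 := h1 1
    have h3 := h1 a
    rw [map_one] at h2
    simp only [RingHom.id_apply]
    linear_combination σ a * h2 - h3

omit [FiniteDimensional F V] in
theorem Unq.restrict (H : Unq σ g) (hW : ∀ x ∈ W, g x ∈ W) : Unq σ (g.restrict hW) :=
  H.imp_right fun h w hw => Subtype.ext (h _ (congrArg Subtype.val hw))

theorem exists_isom_equiv [Finite F] (h : IsForm ε κ τ B Q) (hB : B.SeparatingLeft)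
    (h' : IsForm ε κ τ B' Q') (hB' : B'.SeparatingLeft) (hg : ∀ x y, B (g x) (g y) = B x y)
    (hg' : ∀ x y, B' (g' x) (g' y) = B' x y) (H : Unq σ g) (ht : tyE g' = tyE g) :
    ∃ e : V' ≃ₗ[F] V, (∀ x y, B (e x) (e y) = B' x y) ∧ ∀ x, e (g' x) = g (e x) := by
  obtain ⟨x, hx⟩ := (tyE_eq_iff _ _).mp ht.symm
  have h1 := separatingLeft_pull_equiv hB' x
  obtain ⟨y, h2, h3⟩ := exists_comm_isom h hB (h'.comp x.toLinearMap) h1 g hg
    (by simp [hx, hg']) H
  have h4 : Function.Injective y := (injective_iff_map_eq_zero _).mpr fun v hv =>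
    h1 v fun w => by rw [← h2, hv]; simp
  refine ⟨x.symm ≪≫ₗ LinearEquiv.ofInjectiveEndo y h4, fun a b => by simp [h2], fun a => ?_⟩
  obtain ⟨a, rfl⟩ := x.surjective a
  simp [← hx, h3]

theorem isom_inv_perp (hB : B.SeparatingLeft) (hg : ∀ x y, B (g x) (g y) = B x y)
    (hW : ∀ x ∈ W, g x ∈ W) : ∀ x ∈ perp B W, g x ∈ perp B W := fun x hx => mem_perp.mpr fun w hw => by
  have h1 : Function.Injective (g.restrict hW) := (injective_iff_map_eq_zero _).mpr fun v hv =>
    Subtype.ext (hB v fun y => by rw [← hg, show g v = 0 from congrArg Subtype.val hv]; simp)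
  obtain ⟨v, hv⟩ := LinearMap.injective_iff_surjective.mp h1 ⟨w, hw⟩
  rw [← show g v = w from congrArg Subtype.val hv, hg, mem_perp.mp hx _ v.2]

open Classical in
theorem count_map_du (hσ : ∀ a, σ (σ a) = a) (hN : 0 < N) (ht : ∀ u ∈ t, IrrD N u) {w : F[X]}
    (hw : IrrD N w) : (t.map (du σ N)).count w = t.count (du σ N w) := by
  rw [Multiset.count_map, Multiset.count_eq_card_filter_eq]
  exact congrArg _ (Multiset.filter_congr fun u hu =>
    ⟨fun e => by rw [e, (ht u hu).du_du hσ hN], fun e => by rw [← e, hw.du_du hσ hN]⟩)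

theorem tyE_dual (hσ : ∀ a, σ (σ a) = a) (hN : (N : F) ≠ 0) (hB : B.SeparatingLeft)
    (hB' : B.SeparatingRight) {a b : End F V} (h : ∀ x y, B (a x) (b y) = B x y) (ha : a ^ N = 1) :
    tyE b = (tyE a).map (du σ N) := by
  classical
  have h0 : 0 < N := Nat.pos_of_ne_zero fun e => hN (by simp [e])
  have hb : b ^ N = 1 := LinearMap.ext fun y => sub_eq_zero.mp (hB' _ fun x => by
    have := pair_pow h N x y
    rw [ha] at this
    simpa [sub_eq_zero] using this)
  refine Multiset.ext' fun w => ?_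
  by_cases hw : IrrD N w
  · have := count_du hσ hN hB hB' h ha hw
    rw [hw.natDegree_du hσ hN] at this
    rw [count_map_du hσ h0 (fun u => irrD_of_mem hN ha) hw]
    exact (Nat.eq_of_mul_eq_mul_right hw.prim.natDegree_pos this).symm
  · rw [Multiset.count_eq_zero.mpr fun hu => hw (irrD_of_mem hN hb hu),
      Multiset.count_eq_zero.mpr fun hu => hw ?_]
    obtain ⟨u, h1, rfl⟩ := Multiset.mem_map.mp hu
    exact (irrD_of_mem hN ha h1).du h0

/-- The type of an invariant isotropic subspace. -/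
theorem TyOn.add_du_le (h : IsForm ε κ τ B Q) (hB : B.SeparatingLeft)
    (hg : ∀ x y, B (g x) (g y) = B x y) (hN : (N : F) ≠ 0) (hgN : g ^ N = 1) (hW : TyOn g W t)
    (hi : ∀ x ∈ W, ∀ y ∈ W, B x y = 0) : t + t.map (du σ N) ≤ tyE g := by
  obtain ⟨U, h1, h2⟩ := exists_inv_compl hN hgN (isom_inv_perp hB hg hW.inv)
  have h3 := h.finrank_perp hB W
  have h4 := Submodule.finrank_add_eq_of_isCompl h1
  let φ : W ≃ₗ[F] U := LinearEquiv.ofFinrankEq _ _ (by omega)
  obtain ⟨h5, rfl⟩ := hW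
  have h6 := tyE_dual (B := (B.comp W.subtype).compl₂ (U.subtype ∘ₗ φ.toLinearMap)) h.invol hN
    (fun x hx => Subtype.ext (hB _ fun y => ?_)) (fun y hy => φ.injective (Subtype.ext ?_))
    (a := g.restrict h5) (b := φ.symm.conj (g.restrict h2)) (fun x y => by simp [hg])
    (restrict_pow_eq_one hgN _)
  · rw [← h6]
    refine (TyOn.sup ⟨h5, rfl⟩ ⟨h2, tyE_congr φ.symm fun v => by simp⟩
      (h1.disjoint.mono_left fun x hx => mem_perp.mpr fun y hy => hi y hy x hx)).le_tyE hN hgN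
  · obtain ⟨a, ha, b, hb, rfl⟩ := Submodule.mem_sup.mp (h1.sup_eq_top ▸ Submodule.mem_top (x := y))
    simpa [mem_perp.mp ha _ x.2] using hx (φ.symm ⟨b, hb⟩)
  · simpa using Submodule.disjoint_def.mp h1.disjoint _
      (mem_perp.mpr fun x hx => hy ⟨x, hx⟩) (φ y).2

theorem TyOn.isInv (h : IsForm ε κ τ B Q) (hg : ∀ x y, B (g x) (g y) = B x y) (hN : (N : F) ≠ 0)
    (hgN : g ^ N = 1) (hW : TyOn g W t) (hn : NondegOn B W) : Inv σ N t := by
  classical
  obtain ⟨h1, rfl⟩ := hW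
  have h2 := restrict_pow_eq_one hgN h1
  have h3 := nondegOn_iff.mp hn
  refine ⟨fun u => irrD_of_mem hN h2, fun u hu => ?_⟩
  rw [← count_map_du h.invol (Nat.pos_of_ne_zero fun e => hN (by simp [e]))
    (fun u => irrD_of_mem hN h2) hu, ← tyE_dual h.invol hN h3
    (fun y => (h.restrict W).separatingRight h3) (b := g.restrict h1) (fun x y => hg x y) h2]

theorem Inv.of_add (hs : Inv σ N s) (h : Inv σ N (s + t)) (hN : 0 < N) : Inv σ N t := by
  classical
  refine ⟨fun u hu => h.1 u (by simp [hu]), fun u hu => ?_⟩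
  have := h.2 u hu
  rwa [Multiset.count_add, Multiset.count_add, hs.2 u hu, add_right_inj] at this

theorem inv_add_du (hσ : ∀ a, σ (σ a) = a) (hN : 0 < N) (ht : ∀ u ∈ t, IrrD N u) :
    Inv σ N (t + t.map (du σ N)) := by
  classical
  refine ⟨fun u hu => ?_, fun u hu => ?_⟩
  · rcases Multiset.mem_add.mp hu with hu | hu
    · exact ht u hu
    · obtain ⟨v, hv, rfl⟩ := Multiset.mem_map.mp hu
      exact (ht v hv).du hN
  · rw [Multiset.count_add, Multiset.count_add, count_map_du hσ hN ht hu,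
      count_map_du hσ hN ht (hu.du hN), hu.du_du hσ hN, add_comm]

variable [Finite F]

/-- Invariant non-degenerate subspaces of a given type. -/
theorem exists_nondeg_of_real (h : IsForm ε κ τ B Q) (hB : B.SeparatingLeft)
    (hg : ∀ x y, B (g x) (g y) = B x y) (H : Unq σ g) (hs : Real σ ε κ τ s) (ht : Real σ ε κ τ t)
    (he : tyE g = s + t) : ∃ W, NondegOn B W ∧ TyOn g W s := by
  obtain ⟨V₁, _, _, _, B₁, Q₁, a1, a2, a, rfl⟩ := hs
  obtain ⟨V₂, _, _, _, B₂, Q₂, b1, b2, b, rfl⟩ := ht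
  have h1 := isOrthSum_prod B₁ Q₁ B₂ Q₂
  obtain ⟨e, e1, e2⟩ := exists_isom_equiv h hB (h1.isForm a1 b1) (h1.sep a2 b2) hg
    (g' := a.1.toLinearMap.prodMap b.1.toLinearMap) (fun x y => by simp [a.2.1, b.2.1]) H
    (by rw [tyE_prodMap, he])
  refine ⟨_, ?_, (tyOn_range LinearMap.inl_injective (by simp)).map e.injective e2⟩
  rintro _ ⟨_, ⟨x, rfl⟩, rfl⟩ hx
  rw [a2 x fun y => by simpa [e1] using hx _ ⟨_, ⟨y, rfl⟩, rfl⟩]; simp

theorem exists_nondeg_of_le (P : Par σ ε κ τ) (h : IsForm ε κ τ B Q) (hB : B.SeparatingLeft)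
    (hg : ∀ x y, B (g x) (g y) = B x y) (hN : (N : F) ≠ 0) (hgN : g ^ N = 1) (H : Unq σ g)
    (hs : Inv σ N s) (hle : s ≤ tyE g) : ∃ W, NondegOn B W ∧ TyOn g W s := by
  obtain ⟨t, ht⟩ := Multiset.le_iff_exists_add.mp hle
  exact exists_nondeg_of_real h hB hg H (P.real_inv hN hs (H.good ε hle))
    (P.real_inv hN (hs.of_add (ht ▸ tyOn_top.isInv h hg hN hgN (nondegOn_top hB))
      (Nat.pos_of_ne_zero fun e => hN (by simp [e]))) (H.good ε (ht ▸ Multiset.le_add_left _ _))) ht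

/-- Invariant pairs of isotropic subspaces of a given type. -/
theorem exists_iso_of_le (P : Par σ ε κ τ) (h : IsForm ε κ τ B Q) (hB : B.SeparatingLeft)
    (hg : ∀ x y, B (g x) (g y) = B x y) (hN : (N : F) ≠ 0) (hgN : g ^ N = 1) (H : Unq σ g)
    (hle : t + t.map (du σ N) ≤ tyE g) : ∃ U W, Disjoint U W ∧ (∀ x ∈ U, ∀ y ∈ U, B x y = 0) ∧
      (∀ x ∈ W, ∀ y ∈ W, B x y = 0) ∧ TyOn g U t ∧ TyOn g W (t.map (du σ N)) := by
  have h0 : 0 < N := Nat.pos_of_ne_zero fun e => hN (by simp [e])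
  have h1 : ∀ u ∈ t, IrrD N u := fun u hu =>
    irrD_of_mem hN hgN (Multiset.mem_of_le hle (by simp [hu]))
  obtain ⟨M, m1, m2, m3⟩ := exists_nondeg_of_le P h hB hg hN hgN H (inv_add_du h.invol h0 h1) hle
  obtain ⟨k, hk⟩ : ∃ k, (t.map natDegree).sum = k := ⟨_, rfl⟩
  obtain ⟨A, hA⟩ := exists_gl_ty_eq (n := Fin k) (fun u hu => (h1 u hu).prim)
    (fun u hu => not_X_dvd_of_dvd_X_pow_sub_one h0.ne' (h1 u hu).2.2) (by simp [hk])
  obtain ⟨b, hb, -⟩ := exists_dual_end σ A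
  have h2 : tyE (Matrix.toLin' A.1) = t := hA
  have h3 := tyE_dual h.invol hN (hermB_sep _) (hermB_sepR _) (b := b.toLinearMap) hb
    ((pow_eq_one_iff_tyE _ _).mpr fun u hu => (h1 u (h2 ▸ hu)).2.2)
  obtain ⟨C, c1, c2⟩ := P.exists_form (((hermB _ σ).comp (LinearMap.fst F _ _)).compl₂
    (LinearMap.snd F (Fin k → F) (Fin k → F)))
  generalize Matrix.toLin' A.1 = a at hb h2 h3
  have h4 : ε ≠ 0 := left_ne_zero_of_mul_eq_one P.eps
  obtain ⟨e, e1, e2⟩ := exists_isom_equiv (h.restrict M) (nondegOn_iff.mp m1) c2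
    (fun x hx => Prod.ext (hermB_sep _ _ fun y => by simpa [c1] using hx (0, y))
      (hermB_sepR _ _ fun y => by simpa [c1, h4] using hx (y, 0))) (g := g.restrict m2)
    (fun x y => hg x y) (g' := a.prodMap b.toLinearMap)
    (fun x y => by simp only [c1]; exact congrArg₂ (· + ε * σ ·) (hb _ _) (hb _ _)) (H.restrict _)
    (by rw [tyE_prodMap, m3, h3, h2])
  have h5 : Function.Injective (M.subtype ∘ₗ e.toLinearMap) := M.injective_subtype.comp e.injective
  have h6 : ∀ x, (M.subtype ∘ₗ e.toLinearMap) (a.prodMap b.toLinearMap x) =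
    g ((M.subtype ∘ₗ e.toLinearMap) x) := fun x => congrArg Subtype.val (e2 x)
  refine ⟨_, _, Submodule.disjoint_map h5 LinearMap.isCompl_range_inl_inr.disjoint, ?_, ?_,
    h2 ▸ (tyOn_range LinearMap.inl_injective (by simp)).map h5 h6,
    h2 ▸ h3 ▸ (tyOn_range LinearMap.inr_injective (by simp)).map h5 h6⟩ <;>
  · rintro _ ⟨_, ⟨x, rfl⟩, rfl⟩ _ ⟨_, ⟨y, rfl⟩, rfl⟩
    exact (e1 _ _).trans (by simp [c1])

end forms

end Cfsg.Agent.H10
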