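import Mathlib
import Cfsg.Agent.H10.AutPSL2
import Cfsg.Agent.H10.Congr

/-! Odd-index overgroups of `PSL₃(4)` with trivial centraliser embed in `PGL₃(4)`. -/

set_option autoImplicit false

namespace Cfsg.Agent.H26.Lf
open Subgroup
universe u
variable {G : Type u} [Group G] [Finite G]

theorem emb2 {F : Type*} [Field F] [Fintype F] (hF : Fintype.card F = 4)
    {K : Type} [Field K] [Fintype K] (hK : Fintype.card K = 4) (L : Subgroup G) [L.Normal]
    (e : L ≃* Matrix.ProjectiveSpecialLinearGroup (Fin 3) K)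
    (hC : centralizer (L : Set G) = ⊥) (hodd : ¬ 2 ∣ L.index) :
    ∃ f : G →* GL (Fin 3) F ⧸ center (GL (Fin 3) F), Function.Injective f := by
  have e' := e.trans (H10.pslCongr (n := Fin 3) (FiniteField.ringEquivOfCardEq (hK.trans hF.symm)))
  let φ : G →* MulAut (Matrix.ProjectiveSpecialLinearGroup (Fin 3) F) :=
    (MulAut.congr e').toMonoidHom.comp MulAut.conjNormal
  have hφ : Function.Injective φ := by
    refine (MulAut.congr e').injective.comp ((injective_iff_map_eq_one _).2 fun g hg => ?_)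
    refine (Subgroup.mem_bot.1 (hC ▸ mem_centralizer_iff.2 fun x hx => ?_))
    have := congrArg Subtype.val (DFunLike.congr_fun hg (⟨x, hx⟩ : L))
    exact (mul_inv_eq_iff_eq_mul.1 this).symm
  obtain ⟨π, hπ, -⟩ := H10.exists_autType (F := F) (n := 3) le_rfl
  have := Fact.mk Nat.prime_two
  have h4 : Nat.card (RingAut F × Multiplicative (ZMod 2)) = 4 := by
    rw [Nat.card_prod, (H10.ringAut_cyclic_card (p := 2) (f := 2) hF).2]
    simp
  have hL : ∀ x ∈ L, π (φ x) = 1 := fun x hx => by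
    rw [← MonoidHom.mem_ker, hπ]
    refine H10.inn_le_range_pDiag ⟨e' ⟨x, hx⟩, MulEquiv.ext fun y => ?_⟩
    obtain ⟨y, rfl⟩ := e'.surjective y
    change e' _ * e' y * (e' _)⁻¹ = e' (MulAut.conjNormal x (e'.symm (e' y)))
    rw [← map_mul, ← map_inv, ← map_mul, e'.symm_apply_apply]
    rfl
  have hr : ∀ g, φ g ∈ (H10.pDiag : GL (Fin 3) F →* _).range := fun g => by
    rw [← hπ, MonoidHom.mem_ker]
    have h1 : orderOf (π (φ g)) ∣ L.index := orderOf_dvd_of_pow_eq_one (by
      rw [← map_pow, ← map_pow]; exact hL _ (L.pow_index_mem g))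
    have h2 : orderOf (π (φ g)) ∣ 2 ^ 2 := by
      have := orderOf_dvd_natCard (π (φ g))
      rwa [h4] at this
    exact orderOf_eq_one_iff.1 (Nat.eq_one_of_dvd_coprimes
      (((Nat.Prime.coprime_iff_not_dvd Nat.prime_two).2 hodd).symm.pow_right 2) h1 h2)
  let ψ := ((QuotientGroup.quotientMulEquivOfEq (H10.ker_pDiag (ι := Fin 3) (F := F) (by simp))).symm.trans
    (QuotientGroup.quotientKerEquivRange _)).symm
  exact ⟨ψ.toMonoidHom.comp (φ.codRestrict _ hr), ψ.injective.comp
    (fun a b h => hφ (congrArg Subtype.val h))⟩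

end Cfsg.Agent.H26.Lf
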