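import Mathlib
import Cfsg.Agent.H10.SL
import Cfsg.Agent.H26.Lf0

/-! The Sylow 2-subgroup of `PSL₃(4)`. -/

set_option autoImplicit false

namespace Cfsg.Agent.H26.Lf
open Subgroup Matrix
universe u

theorem model_map {G H : Type*} [Group G] [Group H] {S A B : Subgroup G} (h : St S A B)
    (f : G →* H) (inj : Function.Injective f) (ho : ¬ 2 ∣ (S.map f).index) :
    St (S.map f) (A.map f) (B.map f) := by
  have hc : ∀ K : Subgroup G, Nat.card (K.map f) = Nat.card K := fun K =>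
    card_map_of_injective inj
  have hZ : A.map f ⊓ B.map f = (A ⊓ B).map f := (map_inf _ _ _ inj).symm
  refine ⟨by rw [← Subgroup.map_sup, h.sup], by rw [hc, h.cS], by rw [hc, h.cA],
    by rw [hc, h.cB], by rw [hZ, hc, h.cZ], ?_, ?_, ?_, ?_, ho⟩
  · rintro _ ⟨a, ha, rfl⟩; rw [← map_mul, h.sqA a ha, map_one]
  · rintro _ ⟨a, ha, rfl⟩; rw [← map_mul, h.sqB a ha, map_one]
  · rintro _ ⟨a, ha, rfl⟩ _ ⟨b, hb, rfl⟩
    rw [hZ]
    exact ⟨_, h.com a ha b hb, by simp⟩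
  · rintro _ ⟨a, ha, rfl⟩ _ ⟨b, hb, rfl⟩ e
    rcases h.nd a ha b hb (inj (by rw [map_mul, map_mul, e])) with h3 | h3
    · exact Or.inl ⟨a, h3, rfl⟩
    · exact Or.inr ⟨b, h3, rfl⟩

section
variable {F : Type*} [Field F]

/-- upper unitriangular matrices -/
def modelU (a b c : F) : SpecialLinearGroup (Fin 3) F :=
  ⟨!![1, a, c; 0, 1, b; 0, 0, 1], by simp [det_fin_three]⟩

theorem modelU_mul (a b c a' b' c' : F) :
    modelU a b c * modelU a' b' c' = modelU (a + a') (b + b') (c + c' + a * b') := by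
  apply Subtype.ext
  change !![1, a, c; 0, 1, b; 0, 0, 1] * !![1, a', c'; 0, 1, b'; 0, 0, 1] =
    !![1, a + a', c + c' + a * b'; 0, 1, b + b'; 0, 0, 1]
  ext i j
  fin_cases i <;> fin_cases j <;> simp [mul_apply, Fin.sum_univ_three] <;> ring

theorem modelU_zero : modelU (0 : F) 0 0 = 1 := by
  ext i j
  fin_cases i <;> fin_cases j <;> simp [modelU]

theorem modelU_inv (a b c : F) : (modelU a b c)⁻¹ = modelU (-a) (-b) (a * b - c) := by
  refine inv_eq_of_mul_eq_one_right ?_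
  rw [modelU_mul, ← modelU_zero]
  congr 1 <;> ring

theorem modelU_inj {a b c a' b' c' : F} :
    modelU a b c = modelU a' b' c' ↔ a = a' ∧ b = b' ∧ c = c' := by
  refine ⟨fun h => ⟨?_, ?_, ?_⟩, by rintro ⟨rfl, rfl, rfl⟩; rfl⟩
  · exact congrArg (fun g : SpecialLinearGroup (Fin 3) F => g.1 0 1) h
  · exact congrArg (fun g : SpecialLinearGroup (Fin 3) F => g.1 1 2) h
  · exact congrArg (fun g : SpecialLinearGroup (Fin 3) F => g.1 0 2) h

/-- unitriangular subgroups -/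
def modelS (X Y : AddSubgroup F) : Subgroup (SpecialLinearGroup (Fin 3) F) where
  carrier := {g | ∃ a ∈ X, ∃ b ∈ Y, ∃ c, g = modelU a b c}
  one_mem' := ⟨0, X.zero_mem, 0, Y.zero_mem, 0, modelU_zero.symm⟩
  mul_mem' := by
    rintro _ _ ⟨a, ha, b, hb, c, rfl⟩ ⟨a', ha', b', hb', c', rfl⟩
    exact ⟨_, X.add_mem ha ha', _, Y.add_mem hb hb', _, modelU_mul ..⟩
  inv_mem' := by
    rintro _ ⟨a, ha, b, hb, c, rfl⟩
    exact ⟨_, X.neg_mem ha, _, Y.neg_mem hb, _, modelU_inv ..⟩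

theorem model_mem {X Y : AddSubgroup F} {a b c : F} : modelU a b c ∈ modelS X Y ↔ a ∈ X ∧ b ∈ Y :=
  ⟨fun ⟨_, ha, _, hb, _, e⟩ => by
    obtain ⟨rfl, rfl, rfl⟩ := modelU_inj.1 e
    exact ⟨ha, hb⟩, fun h => ⟨a, h.1, b, h.2, c, rfl⟩⟩

theorem model_card (X Y : AddSubgroup F) :
    Nat.card (modelS X Y) = Nat.card X * (Nat.card Y * Nat.card F) := by
  rw [← Nat.card_prod, ← Nat.card_prod]
  refine (Nat.card_congr (Equiv.ofBijective (fun x : X × Y × F =>
    (⟨modelU x.1 x.2.1 x.2.2, model_mem.2 ⟨x.1.2, x.2.1.2⟩⟩ : modelS X Y)) ⟨?_, ?_⟩)).symm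
  · rintro ⟨a, b, c⟩ ⟨a', b', c'⟩ h
    obtain ⟨h1, h2, h3⟩ := modelU_inj.1 (congrArg Subtype.val h)
    exact Prod.ext (Subtype.ext h1) (Prod.ext (Subtype.ext h2) h3)
  · rintro ⟨_, a, ha, b, hb, c, rfl⟩
    exact ⟨⟨⟨a, ha⟩, ⟨b, hb⟩, c⟩, rfl⟩

theorem model_st [Fintype F] (hF : Fintype.card F = 4) :
    St (modelS (F := F) ⊤ ⊤) (modelS ⊥ ⊤) (modelS ⊤ ⊥) := by
  have h4 : Nat.card F = 4 := by rw [Nat.card_eq_fintype_card, hF]
  have h2 : (2 : F) = 0 := by
    have := FiniteField.cast_card_eq_zero F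
    rw [hF] at this
    exact pow_eq_zero_iff (n := 2) (by norm_num) |>.1 (by rw [← this]; norm_num)
  have hZ : modelS (F := F) ⊥ ⊤ ⊓ modelS ⊤ ⊥ = modelS ⊥ ⊥ := by
    refine le_antisymm ?_ ?_
    · rintro _ ⟨⟨a, ha, b, -, c, rfl⟩, h⟩
      exact model_mem.2 ⟨ha, (model_mem.1 h).2⟩
    · rintro _ ⟨a, ha, b, hb, c, rfl⟩
      exact ⟨model_mem.2 ⟨ha, trivial⟩, model_mem.2 ⟨trivial, hb⟩⟩
  have cS : Nat.card (modelS (F := F) ⊤ ⊤) = 64 := by simp [model_card, hF]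
  refine ⟨le_antisymm (sup_le ?_ ?_) ?_, cS, by simp [model_card, hF], by simp [model_card, hF],
    by simp [hZ, model_card, hF], ?_, ?_, ?_, ?_, ?_⟩
  · rintro _ ⟨a, -, b, -, c, rfl⟩; exact model_mem.2 ⟨trivial, trivial⟩
  · rintro _ ⟨a, -, b, -, c, rfl⟩; exact model_mem.2 ⟨trivial, trivial⟩
  · rintro _ ⟨a, -, b, -, c, rfl⟩
    have : modelU a b c = modelU 0 b c * modelU a 0 0 := by simp [modelU_mul]
    rw [this]
    exact mul_mem (mem_sup_left (model_mem.2 ⟨rfl, trivial⟩))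
      (mem_sup_right (model_mem.2 ⟨trivial, rfl⟩))
  · rintro _ ⟨a, rfl, b, -, c, rfl⟩
    rw [modelU_mul, ← modelU_zero, modelU_inj]
    exact ⟨by simp, by linear_combination b * h2, by linear_combination c * h2⟩
  · rintro _ ⟨a, -, b, rfl, c, rfl⟩
    rw [modelU_mul, ← modelU_zero, modelU_inj]
    exact ⟨by linear_combination a * h2, by simp, by linear_combination c * h2⟩
  · rintro _ ⟨a, rfl, b, -, c, rfl⟩ _ ⟨a', -, b', rfl, c', rfl⟩
    rw [hZ, modelU_inv, modelU_inv, modelU_mul, modelU_mul, modelU_mul, model_mem]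
    simp
  · rintro _ ⟨a, rfl, b, -, c, rfl⟩ _ ⟨a', -, b', rfl, c', rfl⟩ e
    rw [modelU_mul, modelU_mul, modelU_inj] at e
    have : a' * b = 0 := by linear_combination -e.2.2
    rcases mul_eq_zero.1 this with h | h
    · exact Or.inr (model_mem.2 ⟨h, trivial⟩)
    · exact Or.inl (model_mem.2 ⟨trivial, h⟩)
  · have h1 := H10.card_SL_fin (F := F) 3 (by norm_num)
    have h3 := (modelS (F := F) ⊤ ⊤).card_mul_index
    rw [hF, Fin.prod_univ_three] at h1
    rw [cS] at h3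
    simp at h1
    omega

end

variable {G : Type u} [Group G] [Finite G]

theorem model {F : Type*} [Field F] [Fintype F] (hF : Fintype.card F = 4) (S : Sylow 2 G)
    (P : Sylow 2 (Matrix.ProjectiveSpecialLinearGroup (Fin 3) F))
    (hS : Nonempty (↥(S : Subgroup G) ≃* ↥(P : Subgroup (Matrix.ProjectiveSpecialLinearGroup (Fin 3) F)))) :
    ∃ A B : Subgroup G, St (S : Subgroup G) A B := by
  have := Fact.mk Nat.prime_two
  have h := (model_st hF).quot (center _) (by rw [H10.card_center_SL_fin 3 (by norm_num), hF]; decide)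
  obtain ⟨e⟩ := hS
  have e0 := (Sylow.equiv h.syl P).trans e.symm
  set T := (modelS (F := F) ⊤ ⊤).map (QuotientGroup.mk' (center _)) with hT
  have e' : ↥T ≃* ↥(S : Subgroup G) := e0
  let f : ↥T →* G := (S : Subgroup G).subtype.comp e'.toMonoidHom
  have h1 := h.sub _ le_rfl
  have h2 : (⊤ : Subgroup ↥T).map f = S := by
    rw [← Subgroup.map_map, map_top_of_surjective _ e'.surjective, ← MonoidHom.range_eq_map,
      range_subtype]
  rw [subgroupOf_self] at h1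
  have h3 := model_map h1 f (Subtype.val_injective.comp e'.injective) (by
    rw [h2]; exact S.not_dvd_index)
  rw [h2] at h3
  exact ⟨_, _, h3⟩

end Cfsg.Agent.H26.Lf
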