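import Cfsg.Agent.H26.Lf2

/-! The torus normalising a Sylow 2-subgroup of type `L₃(4)`. -/

namespace Cfsg.Agent.H26.Lf
open Subgroup
universe u
variable {G : Type u} [Group G] [Finite G] {S A B : Subgroup G}

theorem tor_T (h : St S A B) : ∃ T : Subgroup G, T ≤ normalizer (S : Set G) ∧
    (∀ τ ∈ T, Odd (orderOf τ)) ∧ ∀ m ∈ normalizer (S : Set G), ∃ s ∈ S, ∃ τ ∈ T, m = s * τ := by
  let N := normalizer (S : Set G)
  have hi : ¬ 2 ∣ (S.subgroupOf N).index := fun e =>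
    h.odd (e.trans (relIndex_dvd_index_of_le le_normalizer))
  have hc : Nat.card (S.subgroupOf N) = 2 ^ 6 := by
    rw [Nat.card_congr (subgroupOfEquivOfLe le_normalizer).toEquiv, h.cS]; norm_num
  obtain ⟨T, hT⟩ := exists_right_complement'_of_coprime (N := S.subgroupOf N) (by
    rw [hc]
    exact Nat.Coprime.pow_left _ ((Nat.Prime.coprime_iff_not_dvd Nat.prime_two).2 hi))
  refine ⟨T.map N.subtype, map_subtype_le _, ?_, fun m hm => ?_⟩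
  · rintro _ ⟨τ, hτ, rfl⟩
    have h1 := orderOf_dvd_natCard (⟨τ, hτ⟩ : T)
    rw [← hT.symm.index_eq_card, ← Subgroup.orderOf_coe, ← Subgroup.orderOf_coe] at h1
    rw [← Nat.not_even_iff_odd, even_iff_two_dvd]
    exact fun e => hi (e.trans h1)
  · obtain ⟨⟨s, τ⟩, e⟩ := hT.2 ⟨m, hm⟩
    exact ⟨s.1.1, s.2, τ.1.1, ⟨τ.1, τ.2, rfl⟩, (congrArg Subtype.val e).symm⟩

theorem tor_nc (c : Cx S A B)
    (hA : ¬ normalizer (A : Set G) ≤ normalizer ((A ⊓ B : Subgroup G) : Set G))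
    {x z : G} (ho : Odd (orderOf x)) (x1 : x ≠ 1) (hz : z ∈ A ⊓ B) (z1 : z ≠ 1)
    (e : x * z = z * x) : ¬ ∀ m ∈ normalizer (S : Set G), ∀ z ∈ A ⊓ B, m * z = z * m := by
  intro hall
  have hx := c.hz z hz z1 (mem_centralizer_singleton_iff.2 e)
  obtain ⟨g, hg, hgZ⟩ := not_forall₂_exists hA
  have hW := c.rt.conj g
  have hWA : (A ⊓ B).map (MulAut.conj g).toMonoidHom ≤ A := by
    rintro _ ⟨v, hv, rfl⟩; exact nm hg hv.1
  have hd : ∀ w ∈ (A ⊓ B).map (MulAut.conj g).toMonoidHom, w ∈ B → w = 1 := by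
    rintro _ ⟨v, hv, rfl⟩ hB
    by_contra h1
    exact hgZ (c.nZ (c.nS hv (fun e => h1 (by simp [e])) ⟨nm hg hv.1, hB⟩))
  obtain ⟨w, hw, w1⟩ := hW.ex
  have wB : w ∉ B := fun e => w1 (hd w hw e)
  obtain ⟨b, hb, w', hw', -, e1⟩ := c.cover hWA hW.card hd (nm (c.nA hx) (hWA hw))
    (fun e => wB (nm' (c.nB hx) e))
  have e2 : b⁻¹ * x * w * (b⁻¹ * x)⁻¹ = w' := by
    calc _ = b⁻¹ * (x * w * x⁻¹) * b := by group
      _ = _ := by rw [e1]; group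
  have h1 := hW.nrm hw w1 (e2 ▸ hw')
  have h2 : g⁻¹ * (b⁻¹ * x) * g ∈ normalizer ((A ⊓ B : Subgroup G) : Set G) := nm_of fun v hv => by
    have := mem_cj.1 (nm h1 (⟨v, hv, rfl⟩ : g * v * g⁻¹ ∈ (A ⊓ B).map (MulAut.conj g).toMonoidHom))
    simpa [mul_assoc] using this
  have h3 := hall _ (c.nS' h2) _ (mem_cj.1 hw)
  have h4 : x * w * x⁻¹ = b * w * b⁻¹ := by
    calc _ = b * g * (g⁻¹ * (b⁻¹ * x) * g * (g⁻¹ * w * g)) * g⁻¹ * x⁻¹ := by group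
      _ = _ := by rw [h3]; group
  exact x1 (c.tAZ ho (c.four' hx (hWA hw) wB (by
    rw [h4]; exact (c.comSA (c.leB hb) (hWA hw)).2)) hz z1 e)
where
  not_forall₂_exists {H K : Subgroup G} (h : ¬ H ≤ K) : ∃ g ∈ H, g ∉ K := by
    by_contra hc
    push Not at hc
    exact h hc

theorem tor_nK (h : St S A B) {n k : G} (hn : n ∈ normalizer (S : Set G)) (hk : k ∈ KK A B) :
    n * k * n⁻¹ ∈ KK A B := by
  refine ⟨mul_mem (mul_mem (h.nB hn) hk.1) (inv_mem (h.nB hn)), fun a ha => ?_⟩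
  have := nm (h.nB hn) (hk.2 _ (nm (inv_mem (h.nA hn)) ha))
  simpa [mul_assoc] using this

theorem tor_K (c : Cx S A B) {T : Subgroup G} (hT : T ≤ normalizer (S : Set G))
    (ho : ∀ τ ∈ T, Odd (orderOf τ)) {x : G} (hx : x ∈ T) (hK : x ∈ KK A B) (x1 : x ≠ 1) :
    x ∉ KK B A ∧ x * x * x = 1 ∧ ∀ σ ∈ T, σ ∈ KK A B → σ = 1 ∨ σ = x ∨ σ = x⁻¹ := by
  have tr : ∀ σ ∈ T, σ ∈ KK A B → σ ∈ KK B A → σ = 1 := fun σ h h1 h2 =>
    eq_one_of_odd (ho σ h) (c.pz (c.tAB (hT h) h1 h2))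
  have h1 : x ∉ KK B A := fun e => x1 (tr x hx hK e)
  have h2 : ∀ σ ∈ T, σ ∈ KK A B → σ = 1 ∨ σ = x ∨ σ = x⁻¹ := fun σ h hs => by
    rcases c.toSt.symm.three (hT hx) (hT h) h1 with e | e | e
    · exact Or.inl (tr σ h hs e)
    · exact Or.inr (Or.inl (inv_mul_eq_one.1
        (tr _ (mul_mem (inv_mem hx) h) (mul_mem (inv_mem hK) hs) e)).symm)
    · exact Or.inr (Or.inr (eq_inv_of_mul_eq_one_right (tr _ (mul_mem hx h) (mul_mem hK hs) e)))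
  refine ⟨h1, ?_, h2⟩
  rcases h2 _ (mul_mem hx hx) (mul_mem hK hK) with e | e | e
  · exact absurd (mem_bot.1 (mem_of_sq ⊥ (ho x hx) (mem_bot.2 e))) x1
  · exact absurd (mul_eq_left.1 e) x1
  · rw [e, inv_mul_cancel]

theorem tor_dec (c : Cx S A B) {T : Subgroup G} (hT : T ≤ normalizer (S : Set G))
    (ho : ∀ τ ∈ T, Odd (orderOf τ)) {x1 x2 : G} (h1 : x1 ∈ T) (k1 : x1 ∈ KK B A) (n1 : x1 ≠ 1)
    (h2 : x2 ∈ T) (k2 : x2 ∈ KK A B) (n2 : x2 ≠ 1) : Commute x1 x2 ∧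
    ∀ σ ∈ T, ∃ a b, (a = 1 ∨ a = x1 ∨ a = x1⁻¹) ∧ (b = 1 ∨ b = x2 ∨ b = x2⁻¹) ∧ σ = a * b := by
  obtain ⟨a1, -, -⟩ := tor_K c.symm hT ho h1 k1 n1
  obtain ⟨-, -, b3⟩ := tor_K c hT ho h2 k2 n2
  constructor
  · have hm : x1 * x2 * x1⁻¹ * x2⁻¹ ∈ T := mul_mem (mul_mem (mul_mem h1 h2) (inv_mem h1)) (inv_mem h2)
    have := eq_one_of_odd (ho _ hm) (c.pz (c.tAB (hT hm)
      (mul_mem (tor_nK c.toSt (hT h1) k2) (inv_mem k2)) (by
        have := mul_mem k1 (tor_nK c.toSt.symm (hT h2) (inv_mem k1))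
        simpa [mul_assoc] using this)))
    exact commutatorElement_eq_one_iff_commute.1 this
  · intro σ h
    rcases c.three (hT h1) (hT h) a1 with e | e | e
    · exact ⟨1, σ, Or.inl rfl, b3 σ h e, (one_mul σ).symm⟩
    · exact ⟨x1, _, Or.inr (Or.inl rfl), b3 _ (mul_mem (inv_mem h1) h) e, by group⟩
    · exact ⟨x1⁻¹, _, Or.inr (Or.inr rfl), b3 _ (mul_mem h1 h) e, by group⟩

theorem tor_ex (c : Cx S A B) {T : Subgroup G} (hT : T ≤ normalizer (S : Set G)) {x τ : G}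
    (hx : x ∈ T) (hτ : τ ∈ T) (hK : x ∉ KK A B) (cx : x ∈ centralizer ((A ⊓ B : Subgroup G) : Set G))
    (cτ : τ ∉ centralizer ((A ⊓ B : Subgroup G) : Set G)) : ∃ y ∈ T, y ∈ KK A B ∧ y ≠ 1 := by
  rcases c.three (hT hx) (hT hτ) hK with e | e | e
  · exact ⟨_, hτ, e, fun h => cτ (h ▸ one_mem _)⟩
  · exact ⟨_, mul_mem (inv_mem hx) hτ, e, fun h => cτ (inv_mul_eq_one.1 h ▸ cx)⟩
  · exact ⟨_, mul_mem hx hτ, e, fun h => cτ (eq_inv_of_mul_eq_one_right h ▸ inv_mem cx)⟩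

omit [Finite G] in
theorem tor_zp {y g : G} (hy : y * y * y = 1) (hg : g ∈ zpowers y) : g = 1 ∨ g = y ∨ g = y⁻¹ := by
  have h3 : y ^ 3 = 1 := by rw [pow_succ, pow_two, hy]
  obtain ⟨n, rfl⟩ := hg
  have : y ^ n = y ^ (n % 3) := zpow_eq_zpow_emod n (by exact_mod_cast h3)
  change y ^ n = 1 ∨ y ^ n = y ∨ y ^ n = y⁻¹
  rw [this]
  rcases (by omega : n % 3 = 0 ∨ n % 3 = 1 ∨ n % 3 = 2) with h | h | h <;> rw [h]
  · simp
  · simp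
  · right; right
    rw [zpow_two]; exact eq_inv_of_mul_eq_one_left hy

theorem tor0 (c : Cx S A B)
    (hA : ¬ normalizer (A : Set G) ≤ normalizer ((A ⊓ B : Subgroup G) : Set G))
    {z0 : G} (hz : z0 ∈ A ⊓ B) (z1 : z0 ≠ 1) (hc : ¬ centralizer ({z0} : Set G) ≤ S) :
    ∃ (T : Subgroup G) (x1 x2 y : G), T ≤ normalizer (S : Set G) ∧ (∀ τ ∈ T, Odd (orderOf τ)) ∧
      (∀ σ ∈ T, ∀ τ ∈ T, σ * τ = τ * σ) ∧ (∀ τ ∈ T, τ * τ * τ = 1) ∧ x1 ∈ T ∧ x2 ∈ T ∧ y ∈ T ∧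
      x1 ∈ KK B A ∧ x2 ∈ KK A B ∧ x1 ≠ 1 ∧ x2 ≠ 1 ∧
      (∀ τ ∈ T, τ ∈ zpowers y ∨ τ ∈ KK A B ∨ τ ∈ KK B A ∨ ∀ z ∈ A ⊓ B, τ * z = z * τ) ∧
      x1 ∉ zpowers y ∧ x2 ∉ zpowers y := by
  obtain ⟨T, hT, ho, hd⟩ := tor_T c.toSt
  obtain ⟨g, hg, hgS⟩ := tor_nc.not_forall₂_exists hc
  obtain ⟨s, hs, x, hx, rfl⟩ := hd g (c.hz z0 hz z1 hg)
  have x1 : x ≠ 1 := fun e => hgS (by rw [e, mul_one]; exact hs)
  have e0 : x * z0 = z0 * x := by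
    have := mem_centralizer_singleton_iff.1 hg
    rw [mul_assoc, ← mul_assoc z0, ← c.cenZ hs hz, mul_assoc] at this
    exact mul_left_cancel this
  have cx := c.fourZ (c.nZ (hT hx)) (ho x hx) hz z1 e0
  have cx' : x ∈ centralizer ((A ⊓ B : Subgroup G) : Set G) := fun z h => (cx z h).symm
  obtain ⟨τ, hτ, cτ⟩ : ∃ τ ∈ T, τ ∉ centralizer ((A ⊓ B : Subgroup G) : Set G) := by
    by_contra h
    push Not at h
    refine tor_nc c hA (ho x hx) x1 hz z1 e0 fun m hm z h' => ?_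
    obtain ⟨s, hs, τ, hτ, rfl⟩ := hd m hm
    rw [mul_assoc, ← h τ hτ z h', ← mul_assoc, c.cenZ hs h', mul_assoc]
  have kA : x ∉ KK A B := fun e => x1 (c.tAZ (ho x hx) e hz z1 e0)
  have kB : x ∉ KK B A := fun e => x1 (c.symm.tAZ (ho x hx) e ⟨hz.2, hz.1⟩ z1 e0)
  obtain ⟨p2, h2, k2, n2⟩ := tor_ex c hT hx hτ kA cx' cτ
  obtain ⟨p1, h1, k1, n1⟩ := tor_ex c.symm hT hx hτ kB (by rwa [inf_comm]) (by rwa [inf_comm])
  obtain ⟨a, b, ha, hb, rfl⟩ := (tor_dec c hT ho h1 k1 n1 h2 k2 n2).2 x hx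
  have ha' : a ∈ T ∧ a ∈ KK B A := by
    rcases ha with rfl | rfl | rfl
    exacts [⟨one_mem _, one_mem _⟩, ⟨h1, k1⟩, ⟨inv_mem h1, inv_mem k1⟩]
  have hb' : b ∈ T ∧ b ∈ KK A B := by
    rcases hb with rfl | rfl | rfl
    exacts [⟨one_mem _, one_mem _⟩, ⟨h2, k2⟩, ⟨inv_mem h2, inv_mem k2⟩]
  have a1 : a ≠ 1 := fun e => kA (by rw [e, one_mul]; exact hb'.2)
  have b1 : b ≠ 1 := fun e => kB (by rw [e, mul_one]; exact ha'.2)
  obtain ⟨cab, dec⟩ := tor_dec c hT ho ha'.1 ha'.2 a1 hb'.1 hb'.2 b1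
  obtain ⟨aK, a3, -⟩ := tor_K c.symm hT ho ha'.1 ha'.2 a1
  obtain ⟨bK, b3, -⟩ := tor_K c hT ho hb'.1 hb'.2 b1
  have ca : ∀ σ ∈ T, Commute a σ ∧ Commute b σ := fun σ h => by
    obtain ⟨u, v, hu, hv, rfl⟩ := dec σ h
    refine ⟨Commute.mul_right ?_ ?_, Commute.mul_right ?_ ?_⟩
    · rcases hu with rfl | rfl | rfl <;> simp
    · rcases hv with rfl | rfl | rfl <;> simp [cab]
    · rcases hu with rfl | rfl | rfl <;> simp [cab.symm]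
    · rcases hv with rfl | rfl | rfl <;> simp
  have cT : ∀ σ ∈ T, ∀ τ ∈ T, Commute σ τ := fun σ h τ h' => by
    obtain ⟨u, v, hu, hv, rfl⟩ := dec σ h
    refine Commute.mul_left ?_ ?_
    · rcases hu with rfl | rfl | rfl <;> simp [(ca τ h').1]
    · rcases hv with rfl | rfl | rfl <;> simp [(ca τ h').2]
  have p3 : ∀ t : G, t * t * t = 1 ↔ t ^ 3 = 1 := fun t => by rw [pow_succ, pow_two]
  have c3 : ∀ τ ∈ T, τ * τ * τ = 1 := fun σ h => by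
    obtain ⟨u, v, hu, hv, rfl⟩ := dec σ h
    have hu' : u ∈ T ∧ u ^ 3 = 1 := by
      rcases hu with rfl | rfl | rfl
      exacts [⟨one_mem _, one_pow _⟩, ⟨ha'.1, (p3 _).1 a3⟩,
        ⟨inv_mem ha'.1, by rw [inv_pow, (p3 _).1 a3, inv_one]⟩]
    have hv' : v ∈ T ∧ v ^ 3 = 1 := by
      rcases hv with rfl | rfl | rfl
      exacts [⟨one_mem _, one_pow _⟩, ⟨hb'.1, (p3 _).1 b3⟩,
        ⟨inv_mem hb'.1, by rw [inv_pow, (p3 _).1 b3, inv_one]⟩]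
    rw [p3, (cT _ hu'.1 _ hv'.1).mul_pow, hu'.2, hv'.2, one_mul]
  have hy : a * b⁻¹ ∈ T := mul_mem ha'.1 (inv_mem hb'.1)
  have yA : a * b⁻¹ ∉ KK A B := fun e => aK ((mul_mem_cancel_right (inv_mem hb'.2)).1 e)
  have yB : a * b⁻¹ ∉ KK B A := fun e => bK (inv_mem_iff.1 ((mul_mem_cancel_left ha'.2).1 e))
  refine ⟨T, a, b, a * b⁻¹, hT, ho, cT, c3, ha'.1, hb'.1, hy, ha'.2, hb'.2, a1, b1, fun σ h => ?_,
    fun e => ?_, fun e => ?_⟩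
  · obtain ⟨u, v, hu, hv, rfl⟩ := dec σ h
    rcases hu with rfl | rfl | rfl <;> rcases hv with rfl | rfl | rfl
    · exact Or.inl (by simp)
    · exact Or.inr (Or.inl (by simpa using hb'.2))
    · exact Or.inr (Or.inl (by simpa using hb'.2))
    · exact Or.inr (Or.inr (Or.inl (by simpa using ha'.2)))
    · exact Or.inr (Or.inr (Or.inr cx))
    · exact Or.inl (mem_zpowers _)
    · exact Or.inr (Or.inr (Or.inl (by simpa using ha'.2)))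
    · refine Or.inl (inv_mem_iff.1 ?_)
      rw [mul_inv_rev, inv_inv, ← cab.inv_right.eq]
      exact mem_zpowers _
    · refine Or.inr (Or.inr (Or.inr fun z h' => ?_))
      rw [cab.inv_inv.eq, ← mul_inv_rev]
      exact (inv_mem cx' z h').symm
  · rcases tor_zp (c3 _ hy) e with h | h | h
    · exact a1 h
    · exact yB (h ▸ ha'.2)
    · exact yB (inv_mem_iff.1 (h ▸ ha'.2))
  · rcases tor_zp (c3 _ hy) e with h | h | h
    · exact b1 h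
    · exact yA (h ▸ hb'.2)
    · exact yA (inv_mem_iff.1 (h ▸ hb'.2))

end Cfsg.Agent.H26.Lf
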