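import Mathlib
import Cfsg.Agent.H22.Rk2

/-! Quadratic modules for `SL₂(F)`. -/

set_option autoImplicit false
set_option linter.unusedSectionVars false

namespace Cfsg.Agent.H10.Md

open Matrix Cfsg.Agent.H19.St
open scoped MatrixGroups

section abs

variable {k G W : Type*} [Field k] [Group G] [AddCommGroup W] [DistribMulAction G W] {x y : k → G}
  {t : k} {u v b : W}

theorem rel_ww (h : Rel x y) (t : k) (ht : t ≠ 0) : ww y x t = ww x y (-t⁻¹) := by
  rw [h.w_eq (by simpa using ht), ww]; simp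

theorem rel_symm (h : Rel x y) : Rel y x := ⟨h.y_add, h.x_add, fun t ht u => by
  have := h.w_y (t := -t⁻¹) (by simpa using ht) u
  rw [← rel_ww h t ht, show -((-t⁻¹) ^ 2 * u) = -u / t ^ 2 by field_simp] at this
  exact this⟩

variable (W) in
/-- the common fixed points -/
def Fxd (x : k → G) : AddSubgroup W where
  carrier := {w | ∀ t, x t • w = w}
  add_mem' ha hb t := by rw [smul_add, ha t, hb t]
  zero_mem' t := smul_zero _
  neg_mem' ha t := by rw [smul_neg, ha t]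

theorem w_mem (h : Rel x y) (ht : t ≠ 0) (hv : v ∈ Fxd W y) : ww x y t • v ∈ Fxd W x := fun s => by
  rw [smul_smul, h.x_w ht, mul_smul, hv]

theorem fix_y (h : Rel x y) (ht : t ≠ 0) (h1 : x t • b = b) (hb : b ∈ Fxd W y) : b ∈ Fxd W x := by
  have := w_mem h ht hb
  rwa [ww, mul_smul, mul_smul, h1, hb, h1] at this

theorem w_eq_X (h : Rel x y) (h0 : ∀ w ∈ Fxd W x, w ∈ Fxd W y → w = 0) (ht : t ≠ 0) (hv : v ∈ Fxd W y)
    (h1 : x t • v - v ∈ Fxd W x) :
    ww x y t • v = x t • v - v ∧ y (-t⁻¹) • (x t • v - v) - (x t • v - v) = -v := by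
  have h2 := w_mem h ht hv
  have h3 := w_mem (rel_symm h) (t := -t⁻¹) (by simpa using ht) h1
  rw [rel_ww h _ (by simpa using ht), show -(-t⁻¹)⁻¹ = t by simp, ww, mul_smul, mul_smul, h1] at h3
  have h4 : ww x y t • v = v + y (-t⁻¹) • (x t • v - v) := by
    rw [h.w_eq ht, mul_smul, mul_smul, hv, smul_sub, hv, add_sub_cancel]
  have h5 : ww x y t • v - (x t • v - v) = 0 := h0 _ (sub_mem h2 h1) (by
    convert add_mem h3 hv using 1
    rw [← sub_eq_iff_eq_add'.2 h4, smul_sub, h2 t]; abel)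
  refine ⟨sub_eq_zero.1 h5, ?_⟩
  rw [← sub_eq_iff_eq_add'.2 h4, sub_eq_zero.1 h5]; abel

theorem X_all (h : Rel x y) (h0 : ∀ w ∈ Fxd W x, w ∈ Fxd W y → w = 0) (hs : Fxd W x ⊔ Fxd W y = ⊤) (ht : t ≠ 0)
    (h1 : x t • v - v ∈ Fxd W x) (s : k) : x s • v - v ∈ Fxd W x := by
  obtain ⟨a, ha, b, hb, e⟩ := AddSubgroup.mem_sup.1 (hs.ge (AddSubgroup.mem_top (x s • v - v)))
  have h2 : x t • b = b := by
    have h3 := h1 s
    rw [smul_sub, smul_smul, ← h.x_add, add_comm, h.x_add, mul_smul] at h3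
    rw [eq_sub_of_add_eq' e, smul_sub, smul_sub, ha t]
    linear_combination (norm := abel1) h3
  rw [← e, h0 b (fix_y h ht h2 hb) hb, add_zero]
  exact ha

theorem quad_of_sup (h : Rel x y) (h0 : ∀ w ∈ Fxd W x, w ∈ Fxd W y → w = 0) (hs : Fxd W x ⊔ Fxd W y = ⊤)
    (irr : ∀ U : AddSubgroup W, (∀ t, ∀ u ∈ U, x t • u ∈ U ∧ y t • u ∈ U) → U = ⊥ ∨ U = ⊤)
    (hv : v ∉ Fxd W x) (h1 : x 1 • v - v ∈ Fxd W x) (t : k) (w : W) : x t • w - w ∈ Fxd W x := by
  let Z : ∀ x : k → G, AddSubgroup W := fun x =>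
    { carrier := {w | ∀ t, x t • w - w ∈ Fxd W x}
      add_mem' := fun {a b} ha hb t => by
        convert add_mem (ha t) (hb t) using 1
        rw [smul_add]; abel
      zero_mem' := fun t => by simp [zero_mem]
      neg_mem' := fun {a} ha t => by
        convert neg_mem (ha t) using 1
        rw [smul_neg]; abel }
  have key : ∀ {x y : k → G}, Rel x y → (∀ w ∈ Fxd W x, w ∈ Fxd W y → w = 0) → Fxd W y ⊔ Fxd W x = ⊤ → ∀ t,
      ∀ u ∈ (Fxd W y ⊓ Z x) ⊔ (Fxd W x ⊓ Z y), x t • u ∈ (Fxd W y ⊓ Z x) ⊔ (Fxd W x ⊓ Z y) := by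
    intro x y h h0 hs t u hu
    obtain ⟨a, ha, b, hb, rfl⟩ := AddSubgroup.mem_sup.1 hu
    by_cases ht : t = 0
    · rwa [ht, h.x_zero, one_smul]
    rw [smul_add, hb.1 t, ← add_sub_cancel a (x t • a)]
    refine add_mem (add_mem (AddSubgroup.mem_sup_left ha) (AddSubgroup.mem_sup_right ⟨ha.2 t, ?_⟩))
      (AddSubgroup.mem_sup_right hb)
    exact X_all (rel_symm h) (fun w a b => h0 w b a) hs (t := -t⁻¹) (by simpa using ht)
      (by rw [(w_eq_X h h0 ht ha.1 (ha.2 t)).2]; exact neg_mem ha.1)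
  obtain ⟨a, ha, b, hb, rfl⟩ := AddSubgroup.mem_sup.1 (hs.ge (AddSubgroup.mem_top v))
  rcases irr ((Fxd W y ⊓ Z x) ⊔ (Fxd W x ⊓ Z y)) (fun t u hu => ⟨key h h0 (by rwa [sup_comm]) t u hu, by
    rw [sup_comm] at hu ⊢
    exact key (rel_symm h) (fun w a b => h0 w b a) hs t u hu⟩) with e | e
  · have : b ∈ (⊥ : AddSubgroup W) := e ▸ AddSubgroup.mem_sup_left ⟨hb, X_all h h0 hs one_ne_zero (by
      convert h1 using 1
      rw [smul_add, ha 1]; abel)⟩
    exact absurd (by rwa [AddSubgroup.mem_bot.1 this, add_zero]) hv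
  · obtain ⟨c, hc, d, hd, rfl⟩ := AddSubgroup.mem_sup.1 (e.ge (AddSubgroup.mem_top w))
    convert hc.2 t using 1
    rw [smul_add, hd.1 t]; abel

theorem quad_symm (h : Rel x y) (hq : ∀ t (w : W), x t • w - w ∈ Fxd W x) (t : k) (w : W) : y t • w - w ∈ Fxd W y := by
  have := w_mem (rel_symm h) one_ne_zero (hq (-t) ((ww y x (1 : k))⁻¹ • w))
  rwa [smul_sub, smul_smul, (rel_symm h).w_y one_ne_zero, mul_smul, smul_inv_smul, one_pow, one_mul, neg_neg] at this

theorem X_add (h : Rel x y) (hq : ∀ t (w : W), x t • w - w ∈ Fxd W x) (w : W) (s t : k) :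
    x (s + t) • w - w = (x s • w - w) + (x t • w - w) := by
  have := hq t w s
  rw [smul_sub] at this
  rw [h.x_add, mul_smul]
  linear_combination (norm := abel1) this

end abs

variable {F W : Type*} [Field F] [AddCommGroup W] [DistribMulAction SL(2, F) W]

theorem nat_of_quad (irr : ∀ U : AddSubgroup W, (∀ (g : SL(2, F)), ∀ u ∈ U, g • u ∈ U) → U = ⊥ ∨ U = ⊤)
    (h0 : ∀ w ∈ Fxd W (xx (k := F)), w ∈ Fxd W (yy (k := F)) → w = 0) {u : W} (hu : u ∈ Fxd W (xx (k := F))) (hu0 : u ≠ 0)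
    (hq : ∀ (t : F) (w : W), xx t • w - w ∈ Fxd W (xx (k := F))) :
    ∃ θ : (Fin 2 → F) ≃+ W, ∀ (g : SL(2, F)) z, θ (g.1 *ᵥ z) = g • θ z := by
  have h := rel_SL (k := F)
  have hq' := quad_symm h hq
  have h0' : ∀ w ∈ Fxd W (yy (k := F)), w ∈ Fxd W (xx (k := F)) → w = 0 := fun w a b => h0 w b a
  have eX : ∀ t : F, t ≠ 0 → ∀ v ∈ Fxd W (yy (k := F)), xx t • v - v = ww xx yy t • v := fun t ht v hv =>
    (w_eq_X h h0 ht hv (hq t v)).1.symm
  have eY : ∀ t : F, t ≠ 0 → ∀ v ∈ Fxd W (xx (k := F)), yy t • v - v = ww xx yy (-t⁻¹) • v := fun t ht v hv => by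
    rw [← rel_ww h t ht]
    exact (w_eq_X (rel_symm h) h0' ht hv (hq' t v)).1.symm
  obtain ⟨v, hv⟩ : ∃ v, v = yy (1 : F) • u - u := ⟨_, rfl⟩
  have hv1 : v ∈ Fxd W (yy (k := F)) := hv ▸ hq' 1 u
  rw [eY 1 one_ne_zero u hu, inv_one] at hv
  let θ : (Fin 2 → F) →+ W := AddMonoidHom.mk' (fun z => (xx (z 0) • v - v) + (yy (z 1) • u - u)) fun a b => by
    rw [Pi.add_apply, Pi.add_apply, X_add h hq, X_add (rel_symm h) hq']; abel
  have e1 : ∀ t b : F, xx t • (yy b • u - u) - (yy b • u - u) = xx (t * b) • v - v := fun t b => by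
    by_cases ht : t = 0
    · simp [ht, h.x_zero]
    by_cases hb : b = 0
    · simp [hb, h.x_zero, h.y_zero]
    rw [eX t ht _ (hq' b u), eY b hb u hu, eX _ (mul_ne_zero ht hb) v hv1, hv, smul_smul, smul_smul]
    congr 1
    refine Subtype.ext ?_
    rw [Matrix.SpecialLinearGroup.coe_mul, Matrix.SpecialLinearGroup.coe_mul, coe_ww ht, coe_ww (by simpa using hb),
      coe_ww (mul_ne_zero ht hb), coe_ww (by simp)]
    simp [mul_comm]
  have e2 : ∀ t a : F, yy t • (xx a • v - v) - (xx a • v - v) = yy (t * a) • u - u := fun t a => by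
    by_cases ht : t = 0
    · simp [ht, h.y_zero]
    by_cases ha : a = 0
    · simp [ha, h.x_zero, h.y_zero]
    rw [eY t ht _ (hq a v), eX a ha v hv1, eY _ (mul_ne_zero ht ha) u hu, hv, smul_smul, smul_smul]
    congr 1
    refine Subtype.ext ?_
    rw [Matrix.SpecialLinearGroup.coe_mul, Matrix.SpecialLinearGroup.coe_mul, coe_ww ha, coe_ww (by simpa using ht),
      coe_ww (t := -1) (by simp), coe_ww (by simp [ht, ha])]
    simp [mul_comm]
  have hθ : ∀ (g : SL(2, F)) z, θ (g.1 *ᵥ z) = g • θ z := fun g => by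
    induction g using sl_induction with
    | hx t =>
      intro z
      change xx _ • v - v + (yy _ • u - u) = xx t • (xx _ • v - v + (yy _ • u - u))
      rw [smul_add, hq _ _ t, sub_eq_iff_eq_add.1 (e1 t _), ← add_assoc, ← X_add h hq]
      simp [mulVec, dotProduct]
    | hy t =>
      intro z
      change xx _ • v - v + (yy _ • u - u) = yy t • (xx _ • v - v + (yy _ • u - u))
      rw [smul_add, hq' _ _ t, sub_eq_iff_eq_add.1 (e2 t _), add_right_comm, ← X_add (rel_symm h) hq', add_comm]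
      simp [mulVec, dotProduct]
    | hmul a b ha hb =>
      intro z
      rw [Matrix.SpecialLinearGroup.coe_mul, ← mulVec_mulVec, ha, hb, mul_smul]
  have e3 : θ ![1, 0] = u := by
    change xx (1 : F) • v - v + (yy (0 : F) • u - u) = u
    rw [eX 1 one_ne_zero v hv1, hv, h.w_neg, smul_inv_smul, h.y_zero, one_smul, sub_self, add_zero]
  refine ⟨AddEquiv.ofBijective θ ⟨(injective_iff_map_eq_zero θ).2 fun z hz => by_contra fun c => hu0 ?_,
    AddMonoidHom.range_eq_top.1 ((irr θ.range ?_).resolve_left fun e => hu0 ?_)⟩, hθ⟩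
  · obtain ⟨s, hs⟩ := P22.sl2_trans c (m' := ![1, 0]) (by simp)
    rw [← e3, ← hs, hθ, hz, smul_zero]
  · rintro g _ ⟨z, rfl⟩
    exact ⟨_, hθ g z⟩
  · exact AddSubgroup.mem_bot.1 (e ▸ ⟨_, e3⟩)

theorem fix_all {w : W} (h1 : w ∈ Fxd W (xx (k := F))) (h2 : w ∈ Fxd W (yy (k := F))) (g : SL(2, F)) : g • w = w := by
  induction g using sl_induction with
  | hx t => exact h1 t
  | hy t => exact h2 t
  | hmul a b ha hb => rw [mul_smul, hb, ha]

theorem nat_mod [Finite W] {p : ℕ} [hp : Fact p.Prime] [CharP F p] (hW : ∀ w : W, p • w = 0)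
    (irr : ∀ U : AddSubgroup W, (∀ (g : SL(2, F)), ∀ u ∈ U, g • u ∈ U) → U = ⊥ ∨ U = ⊤)
    (nt : ∃ (g : SL(2, F)) (w : W), g • w ≠ w)
    (hq : (∀ (t : F) (w : W), xx t • w - w ∈ Fxd W (xx (k := F))) ∨ Nat.card W ≤ Nat.card (Fxd W (xx (k := F))) ^ 2) :
    ∃ θ : (Fin 2 → F) ≃+ W, ∀ (g : SL(2, F)) z, θ (g.1 *ᵥ z) = g • θ z := by
  have h := rel_SL (k := F)
  have h0 : ∀ w ∈ Fxd W (xx (k := F)), w ∈ Fxd W (yy (k := F)) → w = 0 := fun w a b => by
    rcases irr (Fxd W (xx (k := F)) ⊓ Fxd W (yy (k := F))) (fun g u hu => by rwa [fix_all hu.1 hu.2]) with e | e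
    · exact AddSubgroup.mem_bot.1 (e ▸ ⟨a, b⟩)
    · obtain ⟨g, w, hw⟩ := nt
      exact absurd (fix_all (e.ge (AddSubgroup.mem_top w)).1 (e.ge (AddSubgroup.mem_top w)).2 g) hw
  have hc : Nat.card (Fxd W (xx (k := F))) ≤ Nat.card (Fxd W (yy (k := F))) :=
    Nat.card_le_card_of_injective (fun u => ⟨_, w_mem (rel_symm h) one_ne_zero u.2⟩) fun a b e =>
      Subtype.ext (smul_left_cancel _ (congrArg Subtype.val e))
  obtain ⟨w, hw⟩ : ∃ w, w ∉ Fxd W (xx (k := F)) := by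
    by_contra! c
    obtain ⟨g, w, hw⟩ := nt
    exact hw (fix_all (c w) (by simpa using w_mem (rel_symm h) one_ne_zero (c ((ww yy xx (1 : F))⁻¹ • w))) g)
  have hq : ∀ (t : F) (w : W), xx t • w - w ∈ Fxd W (xx (k := F)) := by
    refine hq.elim id fun hq => ?_
    have hs : Fxd W (xx (k := F)) ⊔ Fxd W (yy (k := F)) = ⊤ := by
      have hi : Function.Injective fun z : Fxd W (xx (k := F)) × Fxd W (yy (k := F)) => z.1.1 + z.2.1 := fun a b e => by
        dsimp only at e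
        have h1 : a.1.1 - b.1.1 = 0 := h0 _ (sub_mem a.1.2 b.1.2) (by
          convert sub_mem b.2.2 a.2.2 using 1
          linear_combination (norm := abel1) e)
        exact Prod.ext (Subtype.ext (sub_eq_zero.1 h1)) (Subtype.ext (by linear_combination (norm := abel1) e - h1))
      refine eq_top_iff.2 fun w _ => ?_
      obtain ⟨z, rfl⟩ := (hi.bijective_of_nat_card_le (by rw [Nat.card_prod]; nlinarith)).2 w
      exact AddSubgroup.add_mem_sup z.1.2 z.2.2
    by_contra c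
    have h1 : ∀ v ∉ Fxd W (xx (k := F)), xx (1 : F) • v - v ∉ Fxd W (xx (k := F)) := fun v hv e =>
      c (quad_of_sup h h0 hs (fun U hU => irr U fun g => by
        induction g using sl_induction with
        | hx t => exact fun u hu => (hU t u hu).1
        | hy t => exact fun u hu => (hU t u hu).2
        | hmul a b ha hb => exact fun u hu => by rw [mul_smul]; exact ha _ (hb _ hu)) hv e)
    let f : AddMonoid.End W := DistribSMul.toAddMonoidHom W (xx (1 : F))
    have h2 : ∀ n : ℕ, ((f - 1) ^ n) w ∉ Fxd W (xx (k := F)) := fun n => by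
      induction n with
      | zero => exact hw
      | succ n ih => rw [pow_succ']; exact h1 _ ih
    have h3 : ∀ n : ℕ, (f ^ n) w = xx (n : F) • w := fun n => by
      induction n with
      | zero => simp [h.x_zero]
      | succ n ih =>
        rw [pow_succ', Nat.cast_succ, add_comm, h.x_add, mul_smul, ← ih]; rfl
    obtain ⟨r, hr⟩ := (Commute.one_right (f - 1)).exists_add_pow_prime_eq hp.out
    refine h2 p ?_
    have h4 := h3 p
    rw [sub_add_cancel, one_pow, mul_assoc, mul_assoc] at hr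
    rw [hr, CharP.cast_eq_zero F, h.x_zero, one_smul] at h4
    change ((f - 1) ^ p) w + w + (p : AddMonoid.End W) _ = w at h4
    rw [AddMonoid.End.natCast_apply, hW, add_zero, add_eq_right] at h4
    exact h4 ▸ zero_mem _
  obtain ⟨t, ht⟩ := not_forall.1 hw
  exact nat_of_quad irr h0 (hq t w) (sub_ne_zero.2 ht) hq

theorem exists_equiv_upper {H : Type*} [Group H] [Finite F] {p : ℕ} [hp : Fact p.Prime] [CharP F p]
    (e : H ≃* SL(2, F)) (S : Sylow p H) : ∃ e' : H ≃* SL(2, F), ∀ h, h ∈ S.1 ↔ ∃ t, e' h = xx t := by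
  have := Finite.of_equiv _ e.symm.toEquiv
  obtain ⟨g, -, hg⟩ := (FT.syl_top hp.out (S.mapSurjective (f := e.toMonoidHom) e.surjective)).syl_trans P22.syl_upper
  refine ⟨e.trans (MulAut.conj g), fun h => ?_⟩
  rw [← mem_upper, hg]
  exact (Subgroup.mem_map_iff_mem (f := e.toMonoidHom) e.injective).symm.trans FT.conj_mem_cj.symm

end Cfsg.Agent.H10.Md
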