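import Mathlib
import Cfsg.Agent.H27.Mt0

/-! Base change from `𝔽₂` to `F`: invariant bilinear maps vanish. -/

set_option autoImplicit false
namespace Cfsg.Agent.H27.Mt
open Matrix Cfsg.Agent.H13 TensorProduct

universe u
variable {G : Type*} [Group G] {F : Type} [Field F] (S : SzData G F)

/-- base change of a representation -/
noncomputable def daBc {k : Type*} [CommRing k] (A : Type*) [CommRing A] [Algebra k A] {U : Type*}
    [AddCommGroup U] [Module k U] (π : G →* (U →ₗ[k] U)) : G →* (A ⊗[k] U →ₗ[A] A ⊗[k] U) where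
  toFun g := (π g).baseChange A
  map_one' := by rw [map_one]; exact LinearMap.baseChange_id
  map_mul' g h := by rw [map_mul]; exact LinearMap.baseChange_comp _ _

theorem daBc_tmul {k : Type*} [CommRing k] (A : Type*) [CommRing A] [Algebra k A] {U : Type*}
    [AddCommGroup U] [Module k U] (π : G →* (U →ₗ[k] U)) (g : G) (a : A) (x : U) :
    daBc A π g (a ⊗ₜ x) = a ⊗ₜ π g x := rfl

theorem daBc_nz {k : Type*} [CommRing k] (A : Type*) [CommRing A] [Algebra k A] {U : Type*}
    [AddCommGroup U] [Module k U] {π : G →* (U →ₗ[k] U)} (h : Nz π) : Nz (daBc A π) := by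
  intro g ho h1 x
  induction x using TensorProduct.induction_on with
  | zero => simp
  | tmul a x =>
    simp only [daBc_tmul]
    rw [← tmul_sum, h g ho h1 x, tmul_zero]
  | add x y hx hy => simp only [map_add, Finset.sum_add_distrib, hx, hy, add_zero]

theorem da (m : Main.{u} S) (b : Bil.{u} S) : DA.{u} G := by
  intro U M _ _ _ _ _ _ πU πM hU hM β hβ
  have := S.charP
  have := S.finiteF
  let _ : Algebra (ZMod 2) F := ZMod.algebra F 2
  have : Finite (F ⊗[ZMod 2] U) := Module.finite_of_finite (ZMod 2)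
  have : Finite (F ⊗[ZMod 2] M) := Module.finite_of_finite (ZMod 2)
  have hsp := (m _ _ (daBc_nz F hU)).2
  have hI := (m _ _ (daBc_nz F hM)).1
  let γ : F ⊗[ZMod 2] U →ₗ[F] F ⊗[ZMod 2] U →ₗ[F] F ⊗[ZMod 2] M := LinearMap.BilinMap.baseChange F β
  have hγ : ∀ g x y, γ (daBc F πU g x) (daBc F πU g y) = daBc F πM g (γ x y) := by
    intro g x y
    induction x using TensorProduct.induction_on with
    | zero => simp
    | add x x' hx hx' => simp only [map_add, LinearMap.add_apply, hx, hx']
    | tmul a x =>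
      induction y using TensorProduct.induction_on with
      | zero => simp
      | add y y' hy hy' => simp only [map_add, hy, hy']
      | tmul c y =>
        change (a * c) ⊗ₜ β (πU g x) (πU g y) = (a * c) ⊗ₜ πM g (β x y)
        rw [hβ]
  have h0 : ∀ x y, γ x y = 0 := by
    intro x y
    have hx : x ∈ Sp S (daBc F πU) := hsp ▸ Submodule.mem_top
    have hy : y ∈ Sp S (daBc F πU) := hsp ▸ Submodule.mem_top
    unfold Sp at hx hy
    induction hx using Submodule.iSup_induction' with
    | zero => simp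
    | add x x' _ _ hx hx' => rw [map_add, LinearMap.add_apply, hx, hx', add_zero]
    | mem p x hx =>
      induction hy using Submodule.iSup_induction' with
      | zero => simp
      | add y y' _ _ hy hy' => rw [map_add, hy, hy', add_zero]
      | mem r y hy =>
        obtain ⟨x, rfl⟩ := hx
        obtain ⟨y, rfl⟩ := hy
        have := b _ _ (daBc_nz F hM) hI p.1.1 r.1.1 (γ.compl₁₂ p.1.2 r.1.2) (fun g x y => by
          simp only [LinearMap.compl₁₂_apply]
          rw [p.2.2, r.2.2, hγ])
        exact LinearMap.congr_fun₂ this x y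
  ext x y
  have h1 : (1 : F) ⊗ₜ[ZMod 2] β x y = 0 := by
    have := h0 (1 ⊗ₜ x) (1 ⊗ₜ y)
    rwa [show γ (1 ⊗ₜ x) (1 ⊗ₜ y) = (1 * 1 : F) ⊗ₜ β x y from rfl, one_mul] at this
  obtain ⟨ℓ, hℓ⟩ := Module.Projective.exists_dual_eq_one (ZMod 2) (one_ne_zero (α := F))
  have h2 := congrArg (fun z => TensorProduct.lid (ZMod 2) M (LinearMap.rTensor M ℓ z)) h1
  simpa [hℓ] using h2

end Cfsg.Agent.H27.Mt
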