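import Mathlib
import Cfsg.Agent.H10.Mtda

/-! Modules over `ℤ/4` with fixed-point-free odd elements have exponent two. -/

set_option autoImplicit false
namespace Cfsg.Agent.H27.Mt
open Matrix Cfsg.Agent.H13 TensorProduct

universe u
variable {G : Type*} [Group G] {F : Type} [Field F] (S : SzData G F)

theorem db (m : Main.{u} S) (i : Irr.{u} S) (d : Det.{u} S) : DB.{u} G := by
  intro A _ _ π hN h4 hmin
  have := S.charP
  have := S.finiteF
  let _ : Algebra (ZMod 2) F := ZMod.algebra F 2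
  let T : AddSubgroup A := (nsmulAddMonoidHom (α := A) 2).range
  have hT : ∀ a, a ∈ T ↔ ∃ b, 2 • b = a := fun a => Iff.rfl
  let _ : Module (ZMod 2) (A ⧸ T) := AddCommGroup.zmodModule (fun x => by
    obtain ⟨a, rfl⟩ := QuotientAddGroup.mk_surjective x
    rw [← QuotientAddGroup.mk_nsmul, QuotientAddGroup.eq_zero_iff]
    exact ⟨a, rfl⟩)
  have hπT : ∀ g, T ≤ T.comap (π g).toAddMonoidHom := by
    rintro g _ ⟨b, rfl⟩
    exact ⟨π g b, (map_nsmul (π g) 2 b).symm⟩
  let πb : G →* (A ⧸ T →ₗ[ZMod 2] A ⧸ T) :=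
    { toFun := fun g => (QuotientAddGroup.map T T (π g).toAddMonoidHom (hπT g)).toZModLinearMap 2
      map_one' := by
        ext x
        obtain ⟨a, rfl⟩ := QuotientAddGroup.mk_surjective x
        change ((π 1 a : A) : A ⧸ T) = a
        rw [map_one]; rfl
      map_mul' := fun g h => by
        ext x
        obtain ⟨a, rfl⟩ := QuotientAddGroup.mk_surjective x
        change ((π (g * h) a : A) : A ⧸ T) = (π g (π h a) : A)
        rw [map_mul]; rfl }
  have hπb : ∀ g (a : A), πb g (a : A ⧸ T) = (π g a : A) := fun _ _ => rfl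
  have hNb : Nz πb := by
    intro g ho h1 x
    obtain ⟨a, rfl⟩ := QuotientAddGroup.mk_surjective x
    simp only [hπb]
    have := congrArg (QuotientAddGroup.mk' T) (hN g ho h1 a)
    rwa [map_sum, map_zero] at this
  let s : A ⧸ T →+ A := QuotientAddGroup.lift T (nsmulAddMonoidHom 2) (by
    rintro _ ⟨b, rfl⟩
    change 2 • 2 • b = 0
    rw [← mul_smul]; exact h4 b)
  have hs : ∀ a : A, s (a : A ⧸ T) = 2 • a := fun _ => rfl
  have hsG : ∀ g x, s (πb g x) = π g (s x) := by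
    intro g x
    obtain ⟨a, rfl⟩ := QuotientAddGroup.mk_surjective x
    rw [hπb, hs, hs, map_nsmul]
  obtain ⟨ℓ, hℓ⟩ := Module.Projective.exists_dual_eq_one (ZMod 2) (one_ne_zero (α := F))
  let L : F ⊗[ZMod 2] (A ⧸ T) →ₗ[ZMod 2] A ⧸ T :=
    (TensorProduct.lid (ZMod 2) (A ⧸ T)).toLinearMap ∘ₗ LinearMap.rTensor (A ⧸ T) ℓ
  have hL : ∀ c x, L (c ⊗ₜ x) = ℓ c • x := fun _ _ => rfl
  have hLG : ∀ g z, L (daBc F πb g z) = πb g (L z) := by
    intro g z
    induction z using TensorProduct.induction_on with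
    | zero => simp
    | add x y hx hy => simp only [map_add, hx, hy]
    | tmul c x => rw [daBc_tmul, hL, hL, map_smul]
  have : Finite (F ⊗[ZMod 2] (A ⧸ T)) := Module.finite_of_finite (ZMod 2)
  have hsp := (m _ _ (daBc_nz F hNb)).2
  by_contra hne
  push Not at hne
  obtain ⟨a0, ha0⟩ := hne
  have hex : ∃ (τ : F →+* F) (φ : (Fin 4 → F) →ₗ[F] F ⊗[ZMod 2] (A ⧸ T)),
      GM S τ (daBc F πb) φ ∧ ∃ x, s (L (φ x)) ≠ 0 := by
    by_contra hc
    push Not at hc
    have h0 : ∀ z, s (L z) = 0 := by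
      intro z
      have hz : z ∈ Sp S (daBc F πb) := hsp ▸ Submodule.mem_top
      unfold Sp at hz
      induction hz using Submodule.iSup_induction' with
      | zero => simp
      | add x x' _ _ hx hx' => rw [map_add, map_add, hx, hx', add_zero]
      | mem p x hx =>
        obtain ⟨x, rfl⟩ := hx
        exact hc _ _ p.2.2 x
    have := h0 (1 ⊗ₜ (a0 : A ⧸ T))
    rw [hL, hℓ, one_smul, hs] at this
    exact ha0 this
  obtain ⟨τ, φ, hφ, x0, hx0⟩ := hex
  let ψ : (Fin 4 → F) →+ A ⧸ T := L.toAddMonoidHom.comp φ.toAddMonoidHom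
  have hψG : ∀ g x, ψ (nat S τ g x) = πb g (ψ x) := fun g x => by
    change L (φ _) = πb g (L (φ x))
    rw [hφ, hLG]
  let j : (Fin 4 → F) →+ A := s.comp ψ
  have hjG : ∀ g x, j (nat S τ g x) = π g (j x) := fun g x => by
    change s (ψ _) = π g (s (ψ x))
    rw [hψG, hsG]
  have hj : Function.Injective j := i A π τ j hjG (fun e => hx0 (DFunLike.congr_fun e x0))
  have hψ : Function.Injective ψ := Function.Injective.of_comp (f := s) hj
  have hj2 : ∀ x, ∃ a, j x = 2 • a := fun x => by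
    obtain ⟨a, ha⟩ := QuotientAddGroup.mk_surjective (ψ x)
    exact ⟨a, by change s (ψ x) = _; rw [← ha, hs]⟩
  have hjr : ∀ a : A, 2 • a ∈ j.range := by
    rcases hmin j.range (by rintro _ ⟨x, rfl⟩; exact hj2 x)
      (by rintro g _ ⟨x, rfl⟩; exact ⟨_, hjG g x⟩) with h | h
    · exact absurd (AddSubgroup.mem_bot.1 (h ▸ ⟨x0, rfl⟩ : j x0 ∈ (⊥ : AddSubgroup A))) hx0
    · exact h
  let A0 : Submodule ℤ A := (ψ.range.comap (QuotientAddGroup.mk' T)).toIntSubmodule
  have hA0 : ∀ a : A, a ∈ A0 ↔ ∃ x, ψ x = (a : A ⧸ T) := fun _ => Iff.rfl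
  have hA0G : ∀ g, ∀ a ∈ A0, π g a ∈ A0 := by
    intro g a ha
    obtain ⟨x, hx⟩ := (hA0 a).1 ha
    exact (hA0 _).2 ⟨nat S τ g x, by rw [hψG, hx, hπb]⟩
  let π0 : G →* (A0 →ₗ[ℤ] A0) :=
    { toFun := fun g => (π g).restrict (hA0G g)
      map_one' := by ext a; simp
      map_mul' := fun g h => by ext a; simp }
  choose p hp using fun a : A0 => (hA0 a).1 a.2
  let pr : A0 →+ (Fin 4 → F) := AddMonoidHom.mk' p fun a b => hψ (by
    rw [map_add, hp, hp, hp]; rfl)
  have hjA : ∀ x, j x ∈ A0 := fun x => by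
    obtain ⟨a, ha⟩ := hj2 x
    exact (hA0 _).2 ⟨0, by
      rw [map_zero, eq_comm, QuotientAddGroup.eq_zero_iff]; exact ⟨a, ha.symm⟩⟩
  let j0 : (Fin 4 → F) →+ A0 := AddMonoidHom.mk' (fun x => ⟨j x, hjA x⟩) fun a b =>
    Subtype.ext (map_add j a b)
  refine d A0 π0 τ j0 pr (fun x y e => hj (congrArg Subtype.val e)) ?_ ?_ ?_ ?_
  · intro x
    obtain ⟨a, ha⟩ := QuotientAddGroup.mk_surjective (ψ x)
    exact ⟨⟨a, (hA0 a).2 ⟨x, ha.symm⟩⟩, hψ ((hp _).trans ha)⟩
  · intro g a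
    refine hψ ?_
    change ψ (p _) = ψ (nat S τ g (p a))
    rw [hψG, hp, hp, hπb]; rfl
  · intro a
    apply Subtype.ext
    change s (ψ (p a)) = 2 • (a : A)
    rw [hp, hs]
  · intro a ha
    have h1 : ((a : A) : A ⧸ T) = 0 := by
      rw [← hp a, show p a = 0 from ha, map_zero]
    obtain ⟨b, hb⟩ := (hT _).1 ((QuotientAddGroup.eq_zero_iff _).1 h1)
    obtain ⟨x, hx⟩ := hjr b
    exact ⟨x, Subtype.ext (hx.trans hb)⟩

end Cfsg.Agent.H27.Mt
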