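import Mathlib
import Cfsg.Agent.H27.Mt0

/-! The induction step: every fixed-point-free module is a sum of natural modules. -/

set_option autoImplicit false
namespace Cfsg.Agent.H27.Mt
open Matrix Cfsg.Agent.H13

universe u
variable {G : Type*} [Group G] {F : Type} [Field F] (S : SzData G F)

theorem ind_nat {E : Type*} [AddCommGroup E] [Module F E] {π : G →* (E →ₗ[F] E)} {τ : F →+* F}
    {φ : (Fin 4 → F) →ₗ[F] E} (hφ : GM S τ π φ) (x : Fin 4 → F) :
    (∀ b c, D π (S.u 0 b) (D π (S.u 0 c) (φ x)) = 0) ∧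
    ∀ a b a' b' c, D π (S.u a b) (D π (S.u a' b') (D π (S.u 0 c) (φ x))) = 0 := by
  have hD : ∀ g y, D π g (φ y) = φ (nat S τ g y - y) := fun g y => by
    rw [D_apply, map_sub, hφ]
  refine ⟨fun b c => ?_, fun a b a' b' c => ?_⟩
  · rw [hD, hD, ← map_zero φ]
    congr 1
    ext i
    fin_cases i <;> simp [nat_u, vecHead, vecTail]
  · rw [hD, hD, hD, ← map_zero φ]
    congr 1
    ext i
    fin_cases i <;> simp [nat_u, vecHead, vecTail]

theorem ind_aux (c : C1.{u} S) (e : Ext.{u} S) (s : SS.{u} S) (n : ℕ) :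
    ∀ (E : Type u) [AddCommGroup E] [Module F E] [Finite E] (π : G →* (E →ₗ[F] E)),
      Nat.card E = n → Nz π → I1 S π ∧ I2 S π := by
  induction n using Nat.strong_induction_on with
  | _ n ih =>
  intro E _ _ _ π hn hN
  rcases subsingleton_or_nontrivial E with hE | hE
  · exact ⟨fun _ _ _ => Subsingleton.elim _ _, fun _ _ _ _ _ _ => Subsingleton.elim _ _⟩
  obtain ⟨τ, φ, hinj, hφ⟩ := c E π hN
  let R := LinearMap.range φ
  have hR : ∀ g, R ≤ R.comap (π g) := by
    rintro g _ ⟨x, rfl⟩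
    exact ⟨_, hφ g x⟩
  let πb : G →* (E ⧸ R →ₗ[F] E ⧸ R) :=
    { toFun := fun g => R.mapQ R (π g) (hR g)
      map_one' := by ext x; simp
      map_mul' := fun g h => by ext x; simp }
  have hπb : ∀ g (a : E), πb g (R.mkQ a) = R.mkQ (π g a) := fun _ _ => rfl
  have hNb : Nz πb := by
    intro g ho h1 x
    obtain ⟨a, rfl⟩ := R.mkQ_surjective x
    simp only [hπb]
    rw [← map_sum, hN g ho h1 a, map_zero]
  have : Finite (E ⧸ R) := Finite.of_surjective _ R.mkQ_surjective
  have hlt : Nat.card (E ⧸ R) < n := by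
    rw [← hn, Submodule.card_eq_card_quotient_mul_card R]
    have h1 : 1 < Nat.card R := by
      have : Nontrivial R := by
        refine ⟨⟨⟨φ 1, 1, rfl⟩, 0, fun h => ?_⟩⟩
        have h2 : φ 1 = φ 0 := by rw [map_zero]; exact congrArg Subtype.val h
        exact one_ne_zero (hinj h2)
      exact Finite.one_lt_card
    have h2 : 0 < Nat.card (E ⧸ R) := Nat.card_pos
    nlinarith
  obtain ⟨i1, i2⟩ := ih _ hlt (E ⧸ R) πb rfl hNb
  have hsp := s _ πb hNb i1 i2
  have key : ∀ y : E ⧸ R, ∀ x, R.mkQ x = y →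
      (∀ b c, D π (S.u 0 b) (D π (S.u 0 c) x) = 0) ∧
      ∀ a b a' b' c, D π (S.u a b) (D π (S.u a' b') (D π (S.u 0 c) x)) = 0 := by
    intro y
    have hy : y ∈ Sp S πb := hsp ▸ Submodule.mem_top
    unfold Sp at hy
    induction hy using Submodule.iSup_induction' with
    | zero =>
      intro x hx
      obtain ⟨z, rfl⟩ := (Submodule.Quotient.mk_eq_zero R).1 hx
      exact ind_nat S hφ z
    | add y y' _ _ hy hy' =>
      intro x hx
      obtain ⟨x', rfl⟩ := R.mkQ_surjective y'
      have h1 := hy (x - x') (by rw [map_sub, hx, add_sub_cancel_right])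
      have h2 := hy' x' rfl
      rw [← sub_add_cancel x x']
      generalize x - x' = z at h1
      simp only [map_add, h1.1, h1.2, h2.1, h2.2, add_zero, implies_true, and_self]
    | mem p y hy =>
      intro x hx
      obtain ⟨⟨τ', ψ⟩, hψ, hG⟩ := p
      change Function.Injective ψ at hψ
      change GM S τ' πb ψ at hG
      change y ∈ LinearMap.range ψ at hy
      let X : Submodule F E := (LinearMap.range ψ).comap R.mkQ
      have hX : ∀ g, ∀ a ∈ X, π g a ∈ X := by
        rintro g a ⟨z, hz⟩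
        exact ⟨nat S τ' g z, by rw [hG, hz, hπb]⟩
      let π0 : G →* (X →ₗ[F] X) :=
        { toFun := fun g => (π g).restrict (hX g)
          map_one' := by ext a; simp
          map_mul' := fun g h => by ext a; simp }
      have hj : ∀ z, φ z ∈ X := fun z => ⟨0, by
        rw [map_zero, eq_comm]; exact (Submodule.Quotient.mk_eq_zero R).2 ⟨z, rfl⟩⟩
      let pr : X →ₗ[F] (Fin 4 → F) := (LinearEquiv.ofInjective ψ hψ).symm.toLinearMap ∘ₗ
        (R.mkQ.restrict (p := X) (q := LinearMap.range ψ) fun _ h => h)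
      have hpr : ∀ a : X, ψ (pr a) = R.mkQ a := fun a =>
        congrArg Subtype.val ((LinearEquiv.ofInjective ψ hψ).apply_symm_apply ⟨R.mkQ a, a.2⟩)
      have T : Two S τ' τ π0 (φ.codRestrict X hj) pr := by
        refine ⟨fun a b h => hinj (congrArg Subtype.val h), fun g z => Subtype.ext (hφ g z),
          fun z => ?_, fun g a => hψ ?_, fun a => ⟨fun h => ?_, ?_⟩⟩
        · obtain ⟨a, ha⟩ := R.mkQ_surjective (ψ z)
          exact ⟨⟨a, z, ha.symm⟩, hψ ((hpr _).trans ha)⟩
        · rw [hG, hpr, hpr, hπb]; rfl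
        · have h1 := hpr a
          rw [h, map_zero, eq_comm] at h1
          obtain ⟨z, hz⟩ := (Submodule.Quotient.mk_eq_zero R).1 h1
          exact ⟨z, Subtype.ext hz⟩
        · rintro ⟨z, rfl⟩
          refine hψ ?_
          rw [hpr, map_zero]
          exact (Submodule.Quotient.mk_eq_zero R).2 ⟨z, rfl⟩
      obtain ⟨j1, j2⟩ := e X π0 _ _ _ _ T
      have hx' : x ∈ X := by change R.mkQ x ∈ LinearMap.range ψ; rw [hx]; exact hy
      exact ⟨fun b c => congrArg Subtype.val (j1 b c ⟨x, hx'⟩),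
        fun a b a' b' c => congrArg Subtype.val (j2 a b a' b' c ⟨x, hx'⟩)⟩
  exact ⟨fun b c x => (key _ x rfl).1 b c, fun a b a' b' c x => (key _ x rfl).2 a b a' b' c⟩

theorem ind (c : C1.{u} S) (e : Ext.{u} S) (s : SS.{u} S) : Main.{u} S := by
  intro E _ _ _ π hN
  obtain ⟨i1, i2⟩ := ind_aux S c e s _ E π rfl hN
  exact ⟨i1, s E π hN i1 i2⟩

end Cfsg.Agent.H27.Mt
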