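import Cfsg.Agent.H10.SeA1k
import Cfsg.Agent.L1.Se0
import Cfsg.Agent.H20.Moore

/-! Piece (pA1) of S3330: a copy of `S₈`. -/

set_option autoImplicit false
set_option linter.unusedVariables false

namespace Cfsg.Agent.L1Se

open Subgroup Equiv Cfsg.Agent.H19

universe u

variable {G : Type u} [Group G]

/-- `g` is `ψ p` up to the central involution `t` -/
def pA1_Rl (ψ : Perm (Fin 6) →* G) (t g : G) (p : Perm (Fin 6)) : Prop := g = ψ p ∨ g = t * ψ p

section
variable {ψ : Perm (Fin 6) →* G} {t : G}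

theorem pA1_mul (tt : t * t = 1) (ct : ∀ p, Commute (ψ p) t) {g g' : G} {p p' : Perm (Fin 6)}
    (h : pA1_Rl ψ t g p) (h' : pA1_Rl ψ t g' p') : pA1_Rl ψ t (g * g') (p * p') := by
  rcases h with rfl | rfl <;> rcases h' with rfl | rfl
  · left; rw [map_mul]
  · right; rw [map_mul, ← mul_assoc, (ct p).eq, mul_assoc]
  · right; rw [map_mul, mul_assoc]
  · left; rw [map_mul, mul_assoc, ← mul_assoc (ψ p), (ct p).eq, ← mul_assoc, ← mul_assoc, tt, one_mul]

theorem pA1_uniq (tt : t * t = 1) (inj : Function.Injective ψ) (nt : t ∉ ψ.range) {g : G}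
    {p p' : Perm (Fin 6)} (h : pA1_Rl ψ t g p) (h' : pA1_Rl ψ t g p') : p = p' := by
  rcases h with h | h <;> rcases h' with h' | h'
  · exact inj (h.symm.trans h')
  · exact absurd ⟨p * p'⁻¹, by rw [map_mul, map_inv, ← h, h']; group⟩ nt
  · exact absurd ⟨p' * p⁻¹, by rw [map_mul, map_inv, ← h', h]; group⟩ nt
  · exact inj (mul_left_cancel (h.symm.trans h'))

theorem pA1_same (tt : t * t = 1) {g g' : G} {p : Perm (Fin 6)} (h : pA1_Rl ψ t g p)
    (h' : pA1_Rl ψ t g' p) : g = g' ∨ g = t * g' := by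
  rcases h with rfl | rfl <;> rcases h' with rfl | rfl
  · left; rfl
  · right; rw [← mul_assoc, tt, one_mul]
  · right; rfl
  · left; rfl

theorem pA1_comm (ct : ∀ p, Commute (ψ p) t) {g g' : G} {p p' : Perm (Fin 6)}
    (h : pA1_Rl ψ t g p) (h' : pA1_Rl ψ t g' p') (c : p * p' = p' * p) : Commute g g' := by
  have c' : Commute (ψ p) (ψ p') := Commute.map c ψ
  rcases h with rfl | rfl <;> rcases h' with rfl | rfl
  · exact c'
  · exact (ct p).mul_right c'
  · exact (ct p').symm.mul_left c'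
  · exact ((Commute.refl t).mul_right (ct p').symm).mul_left ((ct p).mul_right c')

theorem pA1_abs (tt : t * t = 1) (inj : Function.Injective ψ) (nt : t ∉ ψ.range)
    (ct : ∀ p, Commute (ψ p) t) (ex : ∀ g, Commute g t → ∃ p, pA1_Rl ψ t g p)
    (a b c d e : G) (ca : Commute a t) (cb : Commute b t) (cc : Commute c t) (cd : Commute d t)
    (ce : Commute e t) (ha : a * a = 1) (hb : b * b = 1) (hc : c * c = 1)
    (hd : d * d = 1) (he : e * e = 1) (h1 : a * b * a = b * a * b) (h2 : a ≠ b) (h2' : a ≠ t * b)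
    (h3 : a * c = c * a) (h4 : a ≠ c) (h4' : a ≠ t * c) (h5 : b * c * b = c * b * c)
    (h6 : a * d = d * a) (h7 : b * d = d * b)
    (h8 : c * d * c = d * c * d) (h9 : e * b = b * e) (h10 : e * d = d * e)
    (h11 : e * a * e = a * e * a) (h12 : e ≠ b) (h12' : e ≠ t * b) : Commute e c := by
  obtain ⟨pa, ra⟩ := ex a ca
  obtain ⟨pb, rb⟩ := ex b cb
  obtain ⟨pc, rc⟩ := ex c cc
  obtain ⟨pd, rd⟩ := ex d cd
  obtain ⟨pe, re⟩ := ex e ce
  have r1 : pA1_Rl ψ t 1 1 := Or.inl (map_one ψ).symm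
  have sq : ∀ {g p}, pA1_Rl ψ t g p → g * g = 1 → p * p = 1 := fun r h =>
    pA1_uniq tt inj nt (pA1_mul tt ct r r) (h ▸ r1)
  have cm : ∀ {g p g' p'}, pA1_Rl ψ t g p → pA1_Rl ψ t g' p' → g * g' = g' * g →
      p * p' = p' * p := fun r r' h =>
    pA1_uniq tt inj nt (pA1_mul tt ct r r') (h ▸ pA1_mul tt ct r' r)
  have br : ∀ {g p g' p'}, pA1_Rl ψ t g p → pA1_Rl ψ t g' p' → g * g' * g = g' * g * g' →
      p * p' * p = p' * p * p' := fun r r' h =>
    pA1_uniq tt inj nt (pA1_mul tt ct (pA1_mul tt ct r r') r)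
      (h ▸ pA1_mul tt ct (pA1_mul tt ct r' r) r')
  have ne : ∀ {g p g' p'}, pA1_Rl ψ t g p → pA1_Rl ψ t g' p' → g ≠ g' → g ≠ t * g' → p ≠ p' :=
    fun r r' n n' h => (pA1_same tt r (h ▸ r')).elim n n'
  exact pA1_comm ct re rc (pA1_key pa pb pc pd pe (sq ra ha) (sq rb hb) (sq rc hc) (sq rd hd)
    (sq re he) (br ra rb h1) (ne ra rb h2 h2') (cm ra rc h3) (ne ra rc h4 h4') (br rb rc h5)
    (cm ra rd h6) (cm rb rd h7) (br rc rd h8) (cm re rb h9) (cm re rd h10) (br re ra h11)
    (ne re rb h12 h12'))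

end

theorem pA1_rng {n : ℕ} (ψ : Perm (Fin (n + 1)) →* G) (K : Subgroup G)
    (h : ∀ i < n, ψ (adjSwap n i) ∈ K) (p : Perm (Fin (n + 1))) : ψ p ∈ K := by
  have : (⊤ : Subgroup (Perm (Fin (n + 1)))) ≤ K.comap ψ := by
    rw [← H20.Moore.adj_top n, closure_le]
    rintro _ ⟨i, hi, rfl⟩
    exact h i hi
  exact this (mem_top p)

def pA1_c (x : Fin 3 × Fin 3 × Fin 2 × Fin 2) : Perm (Fin 8) :=
  (swap 0 1 * swap 1 2) ^ x.1.1 * (swap 3 4 * swap 4 5) ^ x.2.1.1 *
    (swap 0 3 * swap 1 4 * swap 2 5) ^ x.2.2.1.1 * (swap 6 7) ^ x.2.2.2.1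

theorem pA1_ci : ∀ x y, pA1_c x = pA1_c y → x = y := by decide +kernel

theorem pA1_cc : ∀ x, pA1_c x * (swap 0 1 * swap 1 2 * (swap 3 4 * swap 4 5)) =
    (swap 0 1 * swap 1 2 * (swap 3 4 * swap 4 5)) * pA1_c x := by decide +kernel

variable [Finite G] {ε : W →* G} {σ : G} {φ : Perm (Fin 6) →* G}

omit [Finite G] in
theorem pA1_36 (h : SA ε σ eA) (h6 : S6 ε eA φ) : Commute (φ (swap 2 3)) (ε (1, swap 2 3)) := by
  have e1 : φ (swap 0 1) = ε eE := h6.a1
  have e4 : φ (swap 3 4) = ε eA := h6.a3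
  have e5 : φ (swap 4 5) = ε (1, swap 1 2) := by
    have : (swap 4 5 : Perm (Fin 6)) = (swap 3 4)⁻¹ * (swap 3 4 * swap 4 5) := by group
    rw [this, map_mul, map_inv, h6.a4, e4, ← map_inv, ← map_mul]
    congr 1
    decide +kernel
  let c : G := σ⁻¹ * ε uE
  have hc : c * ε tE * c⁻¹ = ε eE := by
    have : ε uE * ε tE * (ε uE)⁻¹ = ε eA := by
      rw [← map_inv, ← map_mul, ← map_mul]; congr 1; decide +kernel
    calc c * ε tE * c⁻¹ = σ⁻¹ * (ε uE * ε tE * (ε uE)⁻¹) * σ := by simp only [c]; group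
      _ = _ := by rw [this, ← h.se]; group
  let ψ : Perm (Fin 6) →* G := (MulAut.conj c).toMonoidHom.comp φ
  have hψ : ∀ p, ψ p = c * φ p * c⁻¹ := fun p => rfl
  have eq : ∀ {x y : W}, x = y → ε x = ε y := fun h => by rw [h]
  have eqp : ∀ {x y : Perm (Fin 6)}, x = y → φ x = φ y := fun h => by rw [h]
  have cτ : Commute (φ (swap 2 3)) (ε tE) := (h6.cen _).2 (Or.inl ⟨_, rfl⟩)
  refine pA1_abs (ψ := ψ) (t := ε eE) ?_ ?_ ?_ ?_ ?_ (ε eA) (ε (1, swap 1 2)) (ε (1, swap 2 3))
    (ε tE) (φ (swap 2 3)) ?_ ?_ ?_ ?_ ?_ ?_ ?_ ?_ ?_ ?_ ?_ ?_ ?_ ?_ ?_ ?_ ?_ ?_ ?_ ?_ ?_ ?_ ?_ ?_ ?_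
  · rw [← map_mul, ← map_one ε]; exact eq (by decide +kernel)
  · exact (MulAut.conj c).injective.comp h6.inj
  · rintro ⟨p, hp⟩
    rw [hψ, ← hc] at hp
    exact h6.nt ⟨p, mul_left_cancel (mul_right_cancel hp)⟩
  · intro p
    have := ((h6.cen _).2 (Or.inl ⟨p, rfl⟩)).map (MulAut.conj c)
    rwa [MulAut.conj_apply, MulAut.conj_apply, hc] at this
  · intro g hg
    have h1 : Commute (c⁻¹ * g * c) (ε tE) := by
      have := hg.map (MulAut.conj c⁻¹)
      rw [MulAut.conj_apply, MulAut.conj_apply, ← hc, inv_inv] at this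
      rwa [show c⁻¹ * (c * ε tE * c⁻¹) * c = ε tE by group] at this
    have tt : ε tE * ε tE = 1 := by rw [← map_mul, ← map_one ε]; exact eq (by decide +kernel)
    rcases (h6.cen _).1 h1 with ⟨p, hp⟩ | ⟨p, hp⟩
    · exact ⟨p, Or.inl (by rw [hψ, hp]; group)⟩
    · refine ⟨p, Or.inr ?_⟩
      rw [hψ, hp, ← hc]
      calc g = c * (ε tE * ε tE) * c⁻¹ * g := by rw [tt]; group
        _ = _ := by group
  · exact Commute.map (by unfold Commute SemiconjBy; decide +kernel) ε
  · exact Commute.map (by unfold Commute SemiconjBy; decide +kernel) ε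
  · exact Commute.map (by unfold Commute SemiconjBy; decide +kernel) ε
  · exact Commute.map (by unfold Commute SemiconjBy; decide +kernel) ε
  · rw [← e1]; exact Commute.map (by unfold Commute SemiconjBy; decide +kernel) φ
  · rw [← map_mul, ← map_one ε]; exact eq (by decide +kernel)
  · rw [← map_mul, ← map_one ε]; exact eq (by decide +kernel)
  · rw [← map_mul, ← map_one ε]; exact eq (by decide +kernel)
  · rw [← map_mul, ← map_one ε]; exact eq (by decide +kernel)
  · rw [← map_mul, ← map_one φ]; exact eqp (by decide +kernel)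
  · simp only [← map_mul]; exact eq (by decide +kernel)
  · exact h.inj.ne (by decide +kernel)
  · rw [← map_mul]; exact h.inj.ne (by decide +kernel)
  · simp only [← map_mul]; exact eq (by decide +kernel)
  · exact h.inj.ne (by decide +kernel)
  · rw [← map_mul]; exact h.inj.ne (by decide +kernel)
  · simp only [← map_mul]; exact eq (by decide +kernel)
  · simp only [← map_mul]; exact eq (by decide +kernel)
  · simp only [← map_mul]; exact eq (by decide +kernel)
  · simp only [← map_mul]; exact eq (by decide +kernel)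
  · rw [← e5]; simp only [← map_mul]; exact eqp (by decide +kernel)
  · exact cτ.eq
  · rw [← e4]; simp only [← map_mul]; exact eqp (by decide +kernel)
  · rw [← e5]; exact h6.inj.ne (by decide +kernel)
  · rw [← e5, ← e1, ← map_mul]; exact h6.inj.ne (by decide +kernel)

theorem pA1 (h : SA ε σ eA) (h6 : S6 ε eA φ) : ∃ f : Perm (Fin 8) →* G, SH f := by
  have e1 : φ (swap 0 1) = ε (swap 0 1, 1) := h6.a1
  have e4 : φ (swap 3 4) = ε (1, swap 0 1) := h6.a3
  have e2 : φ (swap 1 2) = ε (swap 1 2, 1) := by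
    have : (swap 1 2 : Perm (Fin 6)) = (swap 0 1)⁻¹ * (swap 0 1 * swap 1 2) := by group
    rw [this, map_mul, map_inv, h6.a2, e1, ← map_inv, ← map_mul]
    congr 1
    decide +kernel
  have e5 : φ (swap 4 5) = ε (1, swap 1 2) := by
    have : (swap 4 5 : Perm (Fin 6)) = (swap 3 4)⁻¹ * (swap 3 4 * swap 4 5) := by group
    rw [this, map_mul, map_inv, h6.a4, e4, ← map_inv, ← map_mul]
    congr 1
    decide +kernel
  have eq : ∀ {x y : W}, x = y → ε x = ε y := fun h => by rw [h]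
  have eqp : ∀ {x y : Perm (Fin 6)}, x = y → φ x = φ y := fun h => by rw [h]
  have c36 := pA1_36 h h6
  have cτ : ∀ p, Commute (φ p) (ε (1, swap 3 4)) := fun p => (h6.cen _).2 (Or.inl ⟨_, rfl⟩)
  let s : ℕ → G := fun i => match i with
    | 0 => φ (swap 0 1)
    | 1 => φ (swap 1 2)
    | 2 => φ (swap 2 3)
    | 3 => φ (swap 3 4)
    | 4 => φ (swap 4 5)
    | 5 => ε (1, swap 2 3)
    | _ => ε (1, swap 3 4)
  have cox : CoxA s 7 := by
    refine ⟨fun i hi => ?_, fun i hi => ?_, fun i j h1 h2 => ?_⟩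
    · interval_cases i <;> simp only [s, ← map_mul] <;>
        first
        | (rw [← map_one φ]; exact eqp (by decide +kernel))
        | (rw [← map_one ε]; exact eq (by decide +kernel))
    · have : i < 6 := by omega
      interval_cases i <;> simp only [s]
      · simp only [← map_mul]; exact eqp (by decide +kernel)
      · simp only [← map_mul]; exact eqp (by decide +kernel)
      · simp only [← map_mul]; exact eqp (by decide +kernel)
      · simp only [← map_mul]; exact eqp (by decide +kernel)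
      · rw [e5]; simp only [← map_mul]; exact eq (by decide +kernel)
      · simp only [← map_mul]; exact eq (by decide +kernel)
    · have : i < 5 := by omega
      interval_cases i <;> interval_cases j <;> simp only [s] <;>
        first
        | exact cτ _
        | exact c36
        | exact Commute.map (by unfold Commute SemiconjBy; decide +kernel) φ
        | (rw [e1]; exact Commute.map (by unfold Commute SemiconjBy; decide +kernel) ε)
        | (rw [e2]; exact Commute.map (by unfold Commute SemiconjBy; decide +kernel) ε)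
        | (rw [e4]; exact Commute.map (by unfold Commute SemiconjBy; decide +kernel) ε)
  obtain ⟨f, hf, -⟩ := cox.exists_hom
  have f0 : f (swap 0 1) = φ (swap 0 1) := hf 0 (by omega)
  have f1 : f (swap 1 2) = φ (swap 1 2) := hf 1 (by omega)
  have f2 : f (swap 2 3) = φ (swap 2 3) := hf 2 (by omega)
  have f3 : f (swap 3 4) = φ (swap 3 4) := hf 3 (by omega)
  have f4 : f (swap 4 5) = φ (swap 4 5) := hf 4 (by omega)
  have f5 : f (swap 5 6) = ε (1, swap 2 3) := hf 5 (by omega)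
  have f6 : f (swap 6 7) = ε (1, swap 3 4) := hf 6 (by omega)
  have inj : Function.Injective f := inj_perm (n := 7) (by omega) f (by
    rw [hf 0 (by omega), hf 1 (by omega)]
    exact h6.inj.ne (by decide +kernel))
  have rφ : ∀ p, φ p ∈ f.range := pA1_rng (n := 5) φ f.range fun i hi => by
    interval_cases i
    exacts [⟨_, f0⟩, ⟨_, f1⟩, ⟨_, f2⟩, ⟨_, f3⟩, ⟨_, f4⟩]
  have rε : ∀ w, ε w ∈ f.range := by
    rintro ⟨a, b⟩
    have ha := pA1_rng (n := 2) (ε.comp (MonoidHom.inl _ _)) f.range (fun i hi => by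
      interval_cases i
      exacts [⟨_, f0.trans e1⟩, ⟨_, f1.trans e2⟩]) a
    have hb := pA1_rng (n := 4) (ε.comp (MonoidHom.inr _ _)) f.range (fun i hi => by
      interval_cases i
      exacts [⟨_, f3.trans e4⟩, ⟨_, f4.trans e5⟩, ⟨_, f5⟩, ⟨_, f6⟩]) b
    have : ((a, b) : W) = (a, 1) * (1, b) := by simp
    rw [this, map_mul]
    exact mul_mem ha hb
  have fz : f (swap 0 1 * swap 1 2) = ε zE := by rw [map_mul, f0, f1, ← map_mul, h6.a2]
  have fz' : f (swap 3 4 * swap 4 5) = ε zF := by rw [map_mul, f3, f4, ← map_mul, h6.a4]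
  refine ⟨f, inj, fun g hg => ?_, fun g hg => ?_, fun g hg => ?_, h.syl⟩
  · rw [f6] at hg
    rcases (h6.cen g).1 hg with ⟨p, rfl⟩ | ⟨p, hp⟩
    · exact rφ p
    · have : g = (ε tE)⁻¹ * φ p := by rw [hp]; group
      rw [this]
      exact mul_mem (inv_mem (rε _)) (rφ p)
  · rw [fz] at hg
    obtain ⟨w, rfl⟩ := (h.rng g).2 (Subgroup.centralizer_le_normalizer _ (by
      rintro x ⟨k, rfl⟩
      exact (hg.zpow_right k).symm.eq))
    exact rε w
  · have fy : f (swap 0 1 * swap 1 2 * (swap 3 4 * swap 4 5)) = ε zE * ε zF := by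
      rw [map_mul, fz, fz']
    let F : Fin 3 × Fin 3 × Fin 2 × Fin 2 → centralizer ({ε zE * ε zF} : Set G) := fun x =>
      ⟨f (pA1_c x), by
        rw [mem_centralizer_singleton_iff, ← fy, ← map_mul, ← map_mul, pA1_cc]⟩
    have Fi : Function.Injective F := fun x y e => pA1_ci x y (inj (congrArg Subtype.val e))
    have Fb : Function.Bijective F := Fi.bijective_of_nat_card_le (by rw [h.cy]; simp)
    obtain ⟨x, hx⟩ := Fb.2 ⟨g, by rw [mem_centralizer_singleton_iff, ← fy]; exact hg.eq⟩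
    exact ⟨_, congrArg Subtype.val hx⟩

end Cfsg.Agent.L1Se
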