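import Cfsg.Agent.L1.Se0
import Cfsg.Agent.H20.Moore

/-! Piece (pA1) of S3330: a copy of `S₈`. -/

set_option autoImplicit false
set_option linter.unusedVariables false

namespace Cfsg.Agent.L1Se

open Subgroup Equiv Cfsg.Agent.H19

universe u

def pA1_ap (n i : ℕ) : ℕ := n / 8 ^ i % 8

def pA1_cd (p : Perm (Fin 6)) : ℕ :=
  (p 0).1 + 8 * (p 1).1 + 64 * (p 2).1 + 512 * (p 3).1 + 4096 * (p 4).1 + 32768 * (p 5).1

theorem pA1_apcd (p : Perm (Fin 6)) (i : Fin 6) : pA1_ap (pA1_cd p) i.1 = (p i).1 := by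
  have h0 := (p 0).2
  have h1 := (p 1).2
  have h2 := (p 2).2
  have h3 := (p 3).2
  have h4 := (p 4).2
  have h5 := (p 5).2
  unfold pA1_ap pA1_cd
  fin_cases i <;> simp <;> omega

def pA1_R6 : List ℕ := [0, 1, 2, 3, 4, 5]

theorem pA1_all6 (f : ℕ → Bool) : pA1_R6.all f = true ↔ ∀ i : Fin 6, f i.1 = true := by
  simp [pA1_R6, Fin.forall_fin_succ]

def pA1_sq (n : ℕ) : Bool := pA1_R6.all fun i => Nat.beq (pA1_ap n (pA1_ap n i)) i
def pA1_cm (n m : ℕ) : Bool :=
  pA1_R6.all fun i => Nat.beq (pA1_ap n (pA1_ap m i)) (pA1_ap m (pA1_ap n i))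
def pA1_br (n m : ℕ) : Bool :=
  pA1_R6.all fun i => Nat.beq (pA1_ap n (pA1_ap m (pA1_ap n i))) (pA1_ap m (pA1_ap n (pA1_ap m i)))

theorem pA1_sq_iff (p : Perm (Fin 6)) : pA1_sq (pA1_cd p) = true ↔ p * p = 1 := by
  rw [pA1_sq, pA1_all6]
  simp only [pA1_apcd, Nat.beq_eq, Fin.val_inj]
  exact ⟨fun h => Equiv.ext h, fun h i => congrArg (· i) h⟩

theorem pA1_cm_iff (p q : Perm (Fin 6)) : pA1_cm (pA1_cd p) (pA1_cd q) = true ↔ p * q = q * p := by
  rw [pA1_cm, pA1_all6]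
  simp only [pA1_apcd, Nat.beq_eq, Fin.val_inj]
  exact ⟨fun h => Equiv.ext h, fun h i => congrArg (· i) h⟩

theorem pA1_br_iff (p q : Perm (Fin 6)) :
    pA1_br (pA1_cd p) (pA1_cd q) = true ↔ p * q * p = q * p * q := by
  rw [pA1_br, pA1_all6]
  simp only [pA1_apcd, Nat.beq_eq, Fin.val_inj]
  exact ⟨fun h => Equiv.ext h, fun h i => congrArg (· i) h⟩

theorem pA1_cd_inj {p q : Perm (Fin 6)} (h : pA1_cd p = pA1_cd q) : p = q :=
  Equiv.ext fun i => Fin.ext (by rw [← pA1_apcd, h, pA1_apcd])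

def pA1_L : List ℕ := [181896, 153224, 178312, 117384, 181448, 152776, 173832, 109320, 83784, 80200, 181840, 153168, 178256, 117328, 180888, 152216, 172824, 82776, 169632, 105120, 169184, 71520, 50856, 47272, 50408, 42792, 181889, 153217, 178305, 117377, 181441, 152769, 173825, 109313, 83777, 80193, 181770, 153098, 178186, 117258, 180762, 152090, 169506, 104994, 50730, 47146, 180363, 151691, 172299, 82251, 180307, 151635, 168099, 69987, 49323, 41259, 165516, 101004, 165068, 67404, 165460, 100948, 164508, 66396, 34476, 34028, 18061, 14477, 17613, 9997, 18005, 14421, 17053, 8989, 5797, 5349]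

theorem pA1_mem0 : (pA1_R6.all fun a => pA1_R6.all fun b => pA1_R6.all fun c => pA1_R6.all fun d =>
    pA1_R6.all fun e => pA1_R6.all fun f =>
      !(pA1_sq (a + 8 * b + 64 * c + 512 * d + 4096 * e + 32768 * f)) ||
        pA1_L.any fun x => Nat.beq x (a + 8 * b + 64 * c + 512 * d + 4096 * e + 32768 * f)) = true := by
  decide +kernel

theorem pA1_mem (p : Perm (Fin 6)) (h : p * p = 1) : pA1_cd p ∈ pA1_L := by
  have := pA1_mem0
  simp only [pA1_all6] at this
  have := this (p 0) (p 1) (p 2) (p 3) (p 4) (p 5)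
  rw [show (p 0).1 + 8 * (p 1).1 + 64 * (p 2).1 + 512 * (p 3).1 + 4096 * (p 4).1 + 32768 * (p 5).1 =
    pA1_cd p from rfl, (pA1_sq_iff p).2 h] at this
  simp only [Bool.not_true, Bool.false_or, List.any_eq_true, Nat.beq_eq] at this
  obtain ⟨x, hx, rfl⟩ := this
  exact hx

theorem pA1_key0 : (pA1_L.all fun a => pA1_L.all fun b => !(pA1_br a b) || (Nat.beq a b ||
    pA1_L.all fun c => !(pA1_cm a c) || (Nat.beq a c || (!(pA1_br b c) ||
    pA1_L.all fun d => !(pA1_cm a d) || (!(pA1_cm b d) || (!(pA1_br c d) ||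
    pA1_L.all fun e => !(pA1_cm e b) || (!(pA1_cm e d) || (!(pA1_br e a) ||
      (Nat.beq e b || pA1_cm e c))))))))) = true := by
  decide +kernel

theorem pA1_key (a b c d e : Perm (Fin 6)) (ha : a * a = 1) (hb : b * b = 1) (hc : c * c = 1)
    (hd : d * d = 1) (he : e * e = 1) (h1 : a * b * a = b * a * b) (h2 : a ≠ b) (h3 : a * c = c * a)
    (h4 : a ≠ c) (h5 : b * c * b = c * b * c) (h6 : a * d = d * a) (h7 : b * d = d * b)
    (h8 : c * d * c = d * c * d) (h9 : e * b = b * e) (h10 : e * d = d * e)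
    (h11 : e * a * e = a * e * a) (h12 : e ≠ b) : e * c = c * e := by
  have ne : ∀ {p q : Perm (Fin 6)}, p ≠ q → Nat.beq (pA1_cd p) (pA1_cd q) = false := fun h => by
    rw [Bool.eq_false_iff]; intro h'; exact h (pA1_cd_inj (Nat.eq_of_beq_eq_true h'))
  have k1 := List.all_eq_true.1 (List.all_eq_true.1 pA1_key0 _ (pA1_mem a ha)) _ (pA1_mem b hb)
  rw [(pA1_br_iff _ _).2 h1, ne h2, Bool.not_true, Bool.false_or, Bool.false_or] at k1
  have k2 := List.all_eq_true.1 k1 _ (pA1_mem c hc)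
  rw [(pA1_cm_iff _ _).2 h3, ne h4, (pA1_br_iff _ _).2 h5, Bool.not_true, Bool.false_or,
    Bool.false_or, Bool.false_or] at k2
  have k3 := List.all_eq_true.1 k2 _ (pA1_mem d hd)
  rw [(pA1_cm_iff _ _).2 h6, (pA1_cm_iff _ _).2 h7, (pA1_br_iff _ _).2 h8, Bool.not_true,
    Bool.false_or, Bool.false_or, Bool.false_or] at k3
  have k4 := List.all_eq_true.1 k3 _ (pA1_mem e he)
  rw [(pA1_cm_iff _ _).2 h9, (pA1_cm_iff _ _).2 h10, (pA1_br_iff _ _).2 h11, ne h12, Bool.not_true,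
    Bool.false_or, Bool.false_or, Bool.false_or, Bool.false_or] at k4
  exact (pA1_cm_iff _ _).1 k4

end Cfsg.Agent.L1Se
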