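import Mathlib

/-! The Singer group of a field extension. -/

namespace Cfsg.Agent.H10

open Module

/-- Multiplication by units. -/
abbrev sgH (F K : Type*) [Field F] [Field K] [Algebra F K] : Kˣ →* (Module.End F K)ˣ :=
  Units.map ((Algebra.lmul F K : K →ₐ[F] Module.End F K) : K →* Module.End F K)

variable {F K : Type*} [Field F] [Field K] [Algebra F K]

theorem sgH_apply (a : Kˣ) (x : K) : (sgH F K a).1 x = a * x := rfl

theorem sgH_injective : Function.Injective (sgH F K) := fun a b h => Units.ext (by
  simpa [sgH_apply] using congrArg (fun g : (Module.End F K)ˣ => g.1 1) h)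

theorem unit_apply_ne_zero (g : (Module.End F K)ˣ) {x : K} (hx : x ≠ 0) : g.1 x ≠ 0 := fun h =>
  hx (by
    have : (g⁻¹).1 (g.1 x) = x := congrArg (fun f : Module.End F K => f x) g.inv_mul
    rw [← this, h, map_zero])

theorem mem_singer_of_forall {g : (Module.End F K)ˣ} (h : ∀ a x : K, g.1 (a * x) = a * g.1 x) :
    g ∈ (sgH F K).range :=
  ⟨Units.mk0 (g.1 1) (unit_apply_ne_zero g one_ne_zero), Units.ext (LinearMap.ext fun x => by
    rw [sgH_apply, Units.val_mk0, mul_comm, ← h, mul_one])⟩

theorem mem_singer_of_adjoin {g : (Module.End F K)ˣ} {s : Set K} (hs : Algebra.adjoin F s = ⊤)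
    (h : ∀ a ∈ s, ∀ x : K, g.1 (a * x) = a * g.1 x) : g ∈ (sgH F K).range := by
  refine mem_singer_of_forall fun a => ?_
  have ha : a ∈ Algebra.adjoin F s := hs ▸ trivial
  induction ha using Algebra.adjoin_induction with
  | mem a ha => exact h a ha
  | algebraMap r => intro x; rw [← Algebra.smul_def, ← Algebra.smul_def, map_smul]
  | add a b _ _ ha hb => intro x; rw [add_mul, map_add, ha, hb, add_mul]
  | mul a b _ _ ha hb => intro x; rw [mul_assoc, ha, hb, mul_assoc]

theorem card_singer [Fintype K] : Nat.card (sgH F K).range = Fintype.card K - 1 := by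
  classical
  rw [← Nat.card_congr (MonoidHom.ofInjective sgH_injective).toEquiv, Nat.card_eq_fintype_card,
    Fintype.card_units]

theorem comm_of_commute {g : (Module.End F K)ˣ} {a : Kˣ} (h : sgH F K a * g = g * sgH F K a)
    (x : K) : g.1 (a * x) = a * g.1 x :=
  (congrArg (fun f : (Module.End F K)ˣ => f.1 x) h).symm

end Cfsg.Agent.H10
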