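import Mathlib
import Cfsg.Agent.H10.Solub

/-! Solubilizers in `PSL₂(3^s)`. -/

namespace Cfsg.Agent.H10

open MulAction Matrix Projectivization Equiv
open scoped MatrixGroups LinearAlgebra.Projectivization

variable {F : Type*} [Field F] [Finite F]

theorem ncard_sol_involution_three [CharP F 3] {s : ℕ} (hs : s.Prime) (ho : Odd s)
    (hF : Nat.card F = 3 ^ s) {x : PGL(2, F)} (hL : x ∈ pslSub F) (hx : orderOf x = 2) :
    (sol x).ncard = Nat.card F * (Nat.card F + 1) := by
  classical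
  have := Fact.mk Nat.prime_three
  have hl := lineAct_pgl F 3
  have h2 : (2 : F) ≠ 0 := two_ne_zero_of_charP (p := 3) (by norm_num)
  have hodd := odd_card_of_two_ne_zero h2
  have hx1 : x ≠ 1 := fun e => by simp [e] at hx
  have hxx : x * x = 1 := by have := pow_orderOf_eq_one x; rwa [hx, sq] at this
  have hq : Nat.card F % 4 = 3 := by
    obtain ⟨k, rfl⟩ := ho
    rw [hF, pow_succ, pow_mul, Nat.mul_mod, Nat.pow_mod]; simp
  obtain ⟨z, z', e, he, hz⟩ := exists_isTorusPair_of_involution h2 hx1 hxx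
  obtain rfl : e = Nat.card F + 1 := by
    have a1 := he.mul_orderOf_dvd hL hz
    have a2 := he.e_eq
    rw [gcd_two_eq_two hodd, hx] at a1
    omega
  have hcomm := fun g => hl.commute_iff_mem_pairStab he.1 (g := g) hz hx1 hxx
  set C := pslSub F ⊓ pairStab _ z z'
  set T := pslSub F ⊓ torus _ z z'
  have hT : 2 * Nat.card T = Nat.card F + 1 := by
    have := he.card_psl_inf_torus
    rwa [gcd_two_eq_two hodd] at this
  have hC : Nat.card C = 2 * Nat.card T := he.card_inf_pairStab le_rfl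
  have hxC : x ∈ C := ⟨hL, torus_le_pairStab _ _ hz⟩
  have h1 := ncard_union_involutions (N := pslSub F) (C := C) inf_le_left hxC hxx
    fun y a b => ⟨a, (hcomm y).1 b⟩
  -- the reflections
  set R : Set PGL(2, F) := (C : Set PGL(2, F)) \ T
  have hR : R.ncard = Nat.card T := by
    have := Set.ncard_sdiff_add_ncard_of_subset (s := (T : Set PGL(2, F))) (t := C)
      (inf_le_inf_left _ (torus_le_pairStab _ _) : T ≤ C)
    simp only [ncard_subgroup] at this
    rw [hC, two_mul] at this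
    exact Nat.add_right_cancel this
  have hR' : ∀ r, r ∈ R ↔ r ∈ pslSub F ∧ InvPair x r := fun r => by
    have := hl.isCyclic_of_le_torus he.1 le_rfl
    constructor
    · rintro ⟨⟨a, b⟩, c⟩
      have d := b.resolve_left fun k => c ⟨a, k⟩
      exact ⟨a, hx1, fun k => c (k ▸ one_mem _), fun k => c (k ▸ ⟨hL, hz⟩), hxx,
        hl.swap_mul_self he.1 d.1 d.2, ((hcomm r).2 b).symm⟩
    · rintro ⟨a, b⟩
      exact ⟨⟨a, (hcomm r).1 b.comm.symm⟩, fun k =>
        b.ne (eq_of_involution_of_isCyclic hz k.2 hx1 b.s1 hxx b.ss)⟩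
  -- the involutions
  have hI : {y | y ∈ pslSub F ∧ y * y = 1 ∧ y ∉ C}.ncard + (1 + Nat.card T) =
      {y | ∃ g ∈ pslSub F, g * x * g⁻¹ = y}.ncard := by
    rw [← hR, ← Set.ncard_singleton x, ← Set.ncard_union_eq (Set.disjoint_singleton_left.2
      fun k => k.2 ⟨hL, hz⟩), ← Set.ncard_union_eq]
    · congr 1
      ext y
      have a1 : (∃ g ∈ pslSub F, g * x * g⁻¹ = y) ↔ y ∈ pslSub F ∧ y * y = 1 ∧ y ≠ 1 := by
        constructor
        · rintro ⟨g, hg, rfl⟩
          exact ⟨pslSub_normal.conj_mem _ hL g, by simp [mul_assoc, ← mul_assoc x x, hxx],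
            by simpa using hx1⟩
        · rintro ⟨a, b, c⟩
          have := Fact.mk Nat.prime_two
          exact involution_conj (p := 3) (by norm_num) hL a hx (orderOf_eq_prime (sq y ▸ b) c)
      simp only [Set.mem_union, Set.mem_ofPred_eq, a1, hR', Set.mem_singleton_iff]
      constructor
      · rintro (⟨a, b, c⟩ | rfl | ⟨a, b⟩)
        · exact ⟨a, b, fun k => c (k ▸ one_mem _)⟩
        · exact ⟨hL, hxx, hx1⟩
        · exact ⟨a, b.ss, b.s1⟩
      · rintro ⟨a, b, c⟩
        by_cases d : y ∈ C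
        · by_cases d' : y = x
          · exact Or.inr (Or.inl d')
          · exact Or.inr (Or.inr ⟨a, hx1, c, Ne.symm d', hxx, b, ((hcomm y).2 d.2).symm⟩)
        · exact Or.inl ⟨a, b, d⟩
    · rw [Set.disjoint_left]
      rintro y ⟨-, -, a⟩ (rfl | b)
      · exact a hxC
      · exact a b.1
  have hI2 := card_conj_elts (pslSub F) x
  rw [show pslSub F ⊓ Subgroup.centralizer {x} = C from Subgroup.ext fun y => and_congr_right
    fun _ => Subgroup.mem_centralizer_singleton_iff.trans (hcomm y)] at hI2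
  -- the elements of order three
  set Y : Set PGL(2, F) :=
    {y | y ∈ pslSub F ∧ InvPair x (y * x * y⁻¹) ∧ y * (y * x * y⁻¹) * y⁻¹ = x * (y * x * y⁻¹)}
  have hY : Y.ncard = 4 * Nat.card T := by
    have key : ∀ r : R, ∃ g ∈ pslSub F, g * x * g⁻¹ = r ∧ g * r * g⁻¹ = x * r := fun r => by
      obtain ⟨a, b⟩ := (hR' r).1 r.2
      have c : InvPair r.1 (x * r) := ⟨b.s1, b.ts1, fun k => hx1 (by simpa using k), b.ss, b.tsts,
        by rw [← mul_assoc, ← b.comm]⟩
      obtain ⟨g, g1, g2⟩ := invPair_conj h2 b c hL a a (mul_mem hL a)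
      have g3 : g * (x * r) * g⁻¹ = x := by
        rw [← conj_mul, g1, g2, b.comm, ← mul_assoc, b.ss, one_mul]
      have g4 : g * (g * g) ∈ b.four := mem_four_of_commute h2 b
        (by rw [← mul_inv_eq_iff_eq_mul]; conv_rhs => rw [← g3, ← g2, ← g1]
            group)
        (by rw [← mul_inv_eq_iff_eq_mul]; conv_rhs => rw [← g1, ← g3, ← g2]
            group)
      exact ⟨g, (Subgroup.mul_mem_cancel_right _ (sq g ▸ sq_mem_pslSub g)).1
        (b.four_le hL a g4), g1, g2⟩
    choose g g0 g1 g2 using key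
    let f : (Σ r : R, ((hR' r).1 r.2).2.four) → Y := fun t => ⟨g t.1 * t.2, by
      obtain ⟨r, v, hv⟩ := t
      obtain ⟨a, b⟩ := (hR' r).1 r.2
      have := b.isKleinFour
      have c : ∀ u ∈ b.four, v * u * v⁻¹ = u := fun u hu => mul_inv_eq_iff_eq_mul.2
        (congrArg Subtype.val ((IsKleinFour.isMulCommutative (G := b.four)).1.1 ⟨v, hv⟩ ⟨u, hu⟩))
      have d : g r * v * x * (g r * v)⁻¹ = r := by
        conv_rhs => rw [← g1 r, ← c x b.left_mem]
        group
      refine ⟨mul_mem (g0 r) (b.four_le hL a hv), ?_⟩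
      dsimp only
      rw [d]
      refine ⟨b, ?_⟩
      conv_rhs => rw [← g2 r, ← c r b.right_mem]
      group⟩
    have hf : Function.Bijective f := by
      constructor
      · rintro ⟨r, v, hv⟩ ⟨r', v', hv'⟩ h
        have h3 : g r * v = g r' * v' := congrArg Subtype.val h
        have c : ∀ (r : R) (v), v ∈ ((hR' r).1 r.2).2.four → g r * v * x * (g r * v)⁻¹ = r :=
          fun r v hv => by
            have b := ((hR' r).1 r.2).2
            have := b.isKleinFour
            have c : v * x * v⁻¹ = x := mul_inv_eq_iff_eq_mul.2 (congrArg Subtype.val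
              ((IsKleinFour.isMulCommutative (G := b.four)).1.1 ⟨v, hv⟩ ⟨x, b.left_mem⟩))
            conv_rhs => rw [← g1 r, ← c]
            group
        obtain rfl : r = r' := Subtype.ext (by rw [← c r v hv, h3, c r' v' hv'])
        obtain rfl := mul_left_cancel h3
        rfl
      · rintro ⟨y, a, b, c⟩
        let r : R := ⟨_, (hR' _).2 ⟨pslSub_normal.conj_mem _ hL y, b⟩⟩
        have d1 : g r * x * (g r)⁻¹ = y * x * y⁻¹ := g1 r
        have d2 : g r * r * (g r)⁻¹ = y * r * y⁻¹ := (g2 r).trans c.symm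
        refine ⟨⟨r, (g r)⁻¹ * y, mem_four_of_commute h2 _ ?_ ?_⟩, Subtype.ext (by simp [f])⟩
        · rw [← mul_inv_eq_iff_eq_mul]
          calc _ = (g r)⁻¹ * (y * x * y⁻¹) * g r := by group
            _ = x := by rw [← d1]; group
        · rw [← mul_inv_eq_iff_eq_mul]
          calc _ = (g r)⁻¹ * (y * r * y⁻¹) * g r := by group
            _ = r := by rw [← d2]; group
    have := Fintype.ofFinite R
    rw [← Nat.card_coe_set_eq, ← Nat.card_eq_of_bijective f hf, Nat.card_sigma,
      Finset.sum_congr rfl fun r _ => InvPair.card_four _, Finset.sum_const, smul_eq_mul,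
      Finset.card_univ, ← Nat.card_eq_fintype_card, Nat.card_coe_set_eq, hR, mul_comm]
  have h3 : sol x = ((C : Set PGL(2, F)) ∪ {y | y ∈ pslSub F ∧ y * y = 1} ∪
      {y | y ∈ pslSub F ∧ x * y * (x * y) = 1}) ∪ Y := by
    ext y
    constructor
    · intro hy
      rcases sol_cases_three hs ho hF hL hy with (⟨w, k1, -⟩ | ⟨w, w', k1, k2, k3⟩) |
        ⟨A, ⟨e⟩, k1, k2⟩
      · exact absurd k1 (not_fixed_of_nonsplit he hx1 hz w)
      · rcases k2 with k2 | k2
        · exact Or.inl (Or.inl (Or.inl ⟨hy.1, (hcomm y).1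
            ((hl.commute_iff_mem_pairStab k1 k2 hx1 hxx).2 k3)⟩))
        · exact (sq_or_of_swap k1 k2.1 k2.2 k3).elim (fun k => Or.inl (Or.inl (Or.inr ⟨hy.1, k⟩)))
            fun k => Or.inl (Or.inr ⟨hy.1, k⟩)
      · obtain ⟨φ, hφ, rfl⟩ := exists_hom_of_equiv e
        obtain ⟨a, rfl⟩ := k1
        obtain ⟨b, rfl⟩ := k2
        have key : ∀ a b : Perm (Fin 4), Perm.sign a = 1 → Perm.sign b = 1 → a ≠ 1 → a * a = 1 →
            b * b = 1 ∨ (a ≠ b * a * b⁻¹ ∧ a * (b * a * b⁻¹) = b * a * b⁻¹ * a ∧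
              b * (b * a * b⁻¹) * b⁻¹ = a * (b * a * b⁻¹)) := by decide +kernel
        rcases key a b a.2 b.2 (fun k => hx1 (by rw [show a = 1 from Subtype.ext k, map_one]))
          (congrArg Subtype.val (hφ ((map_mul φ a a).trans (hxx.trans (map_one φ).symm)))) with
          k | ⟨k1, k2, k3⟩
        · exact Or.inl (Or.inl (Or.inr ⟨hy.1, by
            rw [← map_mul, show b * b = 1 from Subtype.ext k, map_one]⟩))
        · refine Or.inr ⟨hy.1, ⟨hx1, by simpa using hx1, fun k => k1 ?_, hxx,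
            by simp [mul_assoc, ← mul_assoc (φ a) (φ a), hxx], ?_⟩, ?_⟩ <;>
            simp only [← map_inv, ← map_mul, hφ.eq_iff] at *
          · exact congrArg Subtype.val k
          · exact Subtype.ext k2
          · exact Subtype.ext k3
    · rintro (((k | k) | k) | ⟨a, b, c⟩)
      · exact mem_sol_of_le (isSolvable_of_le_pairStab he.1 le_rfl) hxC.2 k.2 k.1
      · exact ⟨k.1, isSolvable_closure_of_involutions' hxx k.2⟩
      · exact ⟨k.1, isSolvable_closure_of_involutions hxx k.2⟩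
      · obtain ⟨e⟩ := normalizer_kleinFour_equiv h2 b.isKleinFour
          (b.four_le hL (pslSub_normal.conj_mem _ hL y))
        refine mem_sol_of_le (isSolvable_of_equiv e isSolvable_S4)
          (Subgroup.le_normalizer b.left_mem) (Subgroup.mem_normalizer_fintype fun n hn => ?_) a
        rcases b.mem_four.1 hn with rfl | rfl | rfl | rfl
        · simp
        · exact b.right_mem
        · exact c ▸ mul_mem b.left_mem b.right_mem
        · rw [← conj_mul, c]
          exact mul_mem b.right_mem (mul_mem b.left_mem b.right_mem)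
  have h4 := card_pslSub (F := F)
  rw [h3, Set.ncard_union_eq, h1, hY]
  · rw [gcd_two_eq_two hodd, ← hI2, ← hI, hC, hT, ← mul_assoc] at h4
    have h5 := Nat.eq_of_mul_eq_mul_right (Nat.succ_pos _) h4
    obtain ⟨a, ha⟩ : ∃ a, Nat.card F = a + 1 := ⟨Nat.card F - 1, by omega⟩
    rw [ha, Nat.add_sub_cancel] at h5
    rw [ha] at hT ⊢
    nlinarith
  · rw [Set.disjoint_right]
    rintro y ⟨a, b, c⟩ ((k | k) | k)
    · exact b.ne (by rw [(hcomm y).2 k.2]; simp)
    · refine b.s1 (mul_left_cancel (a := x) ?_)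
      rw [← c, mul_one]
      calc _ = y * y * x * (y * y)⁻¹ := by group
        _ = x := by rw [k.2]; simp
    · refine b.s1 (mul_left_cancel (a := x) ?_)
      have d : x * (y * x * y⁻¹) * x⁻¹ = y * x * y⁻¹ := by rw [b.comm]; group
      rw [mul_one]
      calc _ = x * (x * (y * x * y⁻¹) * x⁻¹) := by rw [d]
        _ = x * (y * (y * x * y⁻¹) * y⁻¹) * x⁻¹ := by rw [c, d, mul_assoc x, d]
        _ = x * (y * (x * (y * x * y⁻¹) * x⁻¹) * y⁻¹) * x⁻¹ := by rw [d]
        _ = x * y * (x * y) * x * (x * y * (x * y))⁻¹ := by group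
        _ = x := by rw [k.2]; simp

theorem ncard_sol_unip_three [CharP F 3] {s : ℕ} (hs : s.Prime) (ho : Odd s)
    (hF : Nat.card F = 3 ^ s) {x : PGL(2, F)} (hx : orderOf x = 3) :
    2 * (sol x).ncard = Nat.card F * (Nat.card F + 5) := by
  have := Fact.mk Nat.prime_three
  have hl := lineAct_pgl F 3
  have h2 : (2 : F) ≠ 0 := two_ne_zero_of_charP (p := 3) (by norm_num)
  have hodd := odd_card_of_two_ne_zero h2
  obtain ⟨g, rfl⟩ : ∃ g : PGL(2, F), x = g * aff 1 1 * g⁻¹ := by
    have hx3 : x ^ 3 = 1 := hx ▸ pow_orderOf_eq_one x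
    obtain ⟨w, hw⟩ := exists_rat_fixed hx3
    obtain ⟨g, rfl⟩ := exists_frame_one w
    obtain ⟨a, b, rfl⟩ := exists_conj_aff hw
    obtain rfl := aff_eq_of_pow_expChar (p := 3) (a := a) (b := b) (by simpa using hx3)
    have hb : b ≠ 0 := by rintro rfl; simp [aff_one] at hx
    refine ⟨g * aff (Units.mk0 b hb) 0, ?_⟩
    rw [show aff 1 b = aff (Units.mk0 b hb) 0 * aff 1 1 * (aff (Units.mk0 b hb) 0)⁻¹ by
      rw [aff_inv, aff_mul, aff_mul]; simp]
    group
  rw [ncard_sol_conj]
  obtain ⟨L, hL⟩ := exists_prime_subfield F 3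
  have hLs : Nat.card L ^ s = Nat.card F := by rw [hL, hF]
  obtain ⟨eA⟩ := PSL2_three_equiv hL
  have hA := isSolvable_of_equiv ((subPSLEquiv L).trans eA) isSolvable_A4
  set B := pslSub F ⊓ stabilizer _ (inf F)
  set Z := pslSub L ⊓ stabilizer _ (inf L)
  have hB := card_psl_inf_stabilizer (inf F)
  rw [gcd_two_eq_two hodd] at hB
  have hZ : Nat.card Z = 3 := by
    have := card_psl_inf_stabilizer (inf L)
    rw [hL, show Nat.gcd 2 (3 - 1) = 2 by rfl] at this
    exact Nat.eq_of_mul_eq_mul_left two_pos this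
  obtain ⟨w, hw, hw'⟩ := psl_exists_one (inf L) (pt 0)
  have hsm : ∀ y : PGL(2, L), subEmb L y • inf F = plMap L.subtype (y • inf L) := fun y => by
    rw [plMap_smul, plMap_inf]
  have hf0 : ∀ (c : F) (v : Z), (aff 1 c * subEmb L (w * v) * (aff 1 c)⁻¹) • inf F = pt c := by
    intro c v
    rw [mul_smul, mul_smul, inv_smul_eq_iff.2 (aff_smul_inf 1 c).symm, hsm, mul_smul,
      show v.1 • inf L = inf L from v.2.2, hw', plMap_pt, aff_smul_pt]
    simp
  have hcomm : ∀ c : F, aff 1 c * aff 1 (1 : F) * (aff 1 c)⁻¹ = aff 1 1 := fun c => by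
    rw [aff_inv, aff_mul, aff_mul]; simp
  let f : F × Z → {y | y ∈ sol (aff 1 (1 : F)) ∧ y ∉ B} := fun t =>
    ⟨aff 1 t.1 * subEmb L (w * t.2) * (aff 1 t.1)⁻¹, by
      have a1 : subEmb L (w * t.2) ∈ pslOf L := ⟨_, mul_mem hw t.2.2.1, rfl⟩
      refine ⟨hcomm t.1 ▸ conj_mem_sol
        (mem_sol_of_le hA (aff_mem_pslOf L.one_mem) a1 (pslOf_le L a1)) _, fun k => ?_⟩
      exact pt_ne_inf _ ((hf0 t.1 t.2).symm.trans k.2)⟩
  have hf : Function.Bijective f := by
    constructor
    · rintro ⟨c, v⟩ ⟨c', v'⟩ h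
      have h3 : aff 1 c * subEmb L (w * v) * (aff 1 c)⁻¹ =
        aff 1 c' * subEmb L (w * v') * (aff 1 c')⁻¹ := congrArg Subtype.val h
      obtain rfl : c = c' := pt_injective (by rw [← hf0 c v, h3, hf0])
      have h4 := subEmb_injective L (mul_left_cancel (mul_right_cancel h3))
      rw [Subtype.ext (mul_left_cancel h4)]
    · rintro ⟨y, h3, h4⟩
      obtain ⟨c, hc⟩ := exists_pt_of_ne (x := y • inf F) fun k => h4 ⟨h3.1, k⟩
      have h5 := conj_mem_sol h3 (aff 1 (-c))
      rw [hcomm] at h5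
      set u := aff 1 (-c) * y * (aff 1 (-c))⁻¹ with hu
      have h6 : u • inf F = pt 0 := by
        rw [mul_smul, mul_smul, inv_smul_eq_iff.2 (aff_smul_inf 1 (-c)).symm, hc, aff_smul_pt]
        simp
      have h7 : wel F • inf F = pt 0 := by
        rw [wel, pgl_mk_smul, smul_inf_eq_pt_iff]; simp
      have h7' := hl.conj_mem_U (hl.conj_mem_U (mem_U_inf_iff.2 ⟨1, rfl⟩) u) (wel F)⁻¹
      rw [← rat_smul, h6, ← h7, ← rat_smul, inv_smul_smul] at h7'
      obtain ⟨b, hb⟩ := mem_U_inf_iff.1 h7'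
      have h8 : low b = u * aff 1 1 * u⁻¹ := by rw [low_eq, ← hb]; group
      have h9 : u ∈ pslOf L := by
        rcases dickson_std (p := 3) (left_mem_closure (aff 1 1) u) (b := b) (fun k => by
          rw [k, low_eq_one_iff.2 rfl] at h8
          simpa [aff_eq_one_iff] using h8.symm) (h8 ▸ mul_mem (mul_mem (right_mem_closure _ _)
            (left_mem_closure _ _)) (inv_mem (right_mem_closure _ _))) with
          ⟨z, z', k1, k2⟩ | ⟨k1, -, k2⟩ | ⟨L', k1, -, k2⟩
        · exact absurd (k2 (left_mem_closure _ _)) (not_le_pairStab_of_unip (p := 3) (by norm_num)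
            (by simp [aff_eq_one_iff]) (by
              rw [← orderOf_aff_one (p := 3) (one_ne_zero (α := F)), pow_orderOf_eq_one]) k1)
        · obtain ⟨e⟩ := k1.equiv_A5 k2
          exact absurd (isSolvable_of_equiv e.symm h5.2) not_isSolvable_A5
        · have a1 := k2.elim (fun h => h.symm ▸ pslOf_le_pglOf L') fun h => h.2.ge
          have a2 := k2.elim (fun h => h.le) fun h => h.2.symm ▸ pslOf_le_pglOf L'
          have a3 : Nat.card L' = 3 := by
            by_contra a3
            exact not_isSolvable_PSL2 (F := L') (by omega) (isSolvable_of_equiv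
              (subPSLEquiv L').symm (isSolvable_of_le a1 h5.2))
          have a4 : ∀ K : Subfield F, Nat.card K = 3 → K = ⊥ := fun K hK => by
            obtain ⟨n, hn1, hn⟩ := exists_card_eq_pow' (⊥ : Subfield F) 3
            exact (subfield_eq_of_le_of_card bot_le (by
              rw [hK, hn]; exact Nat.le_self_pow (by omega) 3)).symm
          rw [a4 L' a3, ← a4 L hL] at a2
          exact inf_pglOf_of_odd hLs ho ▸ ⟨h5.1, a2 (right_mem_closure _ _)⟩
      obtain ⟨v, hv, hv'⟩ := h9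
      refine ⟨⟨c, w⁻¹ * v, (pslSub L).mul_mem ((pslSub L).inv_mem hw) hv, ?_⟩, Subtype.ext ?_⟩
      · change _ • _ = _
        rw [mul_smul, inv_smul_eq_iff, hw']
        refine plMap_injective L.subtype ?_
        rw [← hsm, hv', h6, plMap_pt, map_zero]
      · simp only [f, mul_inv_cancel_left, hv', hu]
        rw [show aff 1 (-c) = (aff 1 c)⁻¹ by rw [aff_inv]; simp]
        group
  have h3 := Nat.card_eq_of_bijective f hf
  rw [Nat.card_prod, hZ, Nat.card_coe_set_eq] at h3
  have h4 := Set.ncard_sdiff_add_ncard_of_subset (s := (B : Set PGL(2, F))) (t := sol (aff 1 1))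
    fun y k => mem_sol_of_le (isSolvable_of_le_stabilizer le_rfl) (aff_smul_inf 1 1) k.2 k.1
  rw [ncard_subgroup] at h4
  erw [← h3] at h4
  obtain ⟨a, ha⟩ : ∃ a, Nat.card F = a + 1 := ⟨Nat.card F - 1, by have := Nat.card_pos (α := F); omega⟩
  rw [← h4, mul_add, hB, ha, Nat.add_sub_cancel]
  ring

end Cfsg.Agent.H10
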