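import Mathlib
import Cfsg.Agent.H10.AH

/-! Gauss decomposition with prescribed diagonal part in `SL_3`, and class squares. -/

set_option autoImplicit false

namespace Cfsg.Agent.H10

open Matrix

section general
variable {ι : Type*} [Fintype ι] [DecidableEq ι] {F : Type*} [Field F]

theorem sour_exists_conj_dot (h3 : 3 ≤ Fintype.card ι) (B : SpecialLinearGroup ι F)
    (hB : ¬ ∃ c : F, B.1 = c • (1 : Matrix ι ι F)) {v φ : ι → F} (hv : v ≠ 0) (hφ0 : φ ≠ 0)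
    (hφ1 : φ ⬝ᵥ v = 0) : ∃ g : SpecialLinearGroup ι F, φ ⬝ᵥ ((g * B * g⁻¹).1 *ᵥ v) ≠ 0 := by
  obtain ⟨u, ψ, hψ, hψB⟩ := ah_exists_dot hB
  have hu : u ≠ 0 := by rintro rfl; simp at hψB
  have hψ0 : ψ ≠ 0 := by rintro rfl; simp at hψB
  obtain ⟨g1, hg1⟩ := exists_sl_mulVec (by omega) hu hv
  have hψ1 : (ψ ᵥ* (g1⁻¹).1) ⬝ᵥ v = 0 := by
    rw [← hg1, vecMul_dot_mulVec _ _ (sl_inv_mul_val g1), hψ]
  have hψ10 : ψ ᵥ* (g1⁻¹).1 ≠ 0 := by
    intro h
    apply hψ0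
    have : ψ ᵥ* (g1⁻¹).1 ᵥ* g1.1 = ψ := by rw [vecMul_vecMul, sl_inv_mul_val, vecMul_one]
    rw [← this, h, zero_vecMul]
  obtain ⟨g2, hg2, hg2'⟩ := exists_sl_vecMul h3 hφ1 hψ1 hφ0 hψ10
  refine ⟨g2 * g1, ?_⟩
  have hinv : ((g2 * g1)⁻¹).1 *ᵥ v = u := by
    have : (g2 * g1).1 *ᵥ u = v := by rw [slv_mul, ← mulVec_mulVec, hg1, hg2]
    rw [← this, mulVec_mulVec, sl_inv_mul_val, one_mulVec]
  rw [slv_mul, slv_mul, ← mulVec_mulVec, hinv, ← mulVec_mulVec, slv_mul, ← mulVec_mulVec,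
    dotProduct_mulVec, hg2', vecMul_dot_mulVec _ _ (sl_inv_mul_val g1)]
  exact hψB

theorem sour_conj_of_mul {X h : SpecialLinearGroup ι F} (P : Matrix ι ι F) (hP : P.det = 1)
    (e : X.1 * P = P * h.1) : ∃ u : SpecialLinearGroup ι F, X = u * h * u⁻¹ := by
  let p : SpecialLinearGroup ι F := ⟨P, hP⟩
  refine ⟨p, eq_mul_inv_iff_mul_eq.2 ?_⟩
  rw [slv_ext_iff, slv_mul, slv_mul]
  exact e

end general

variable {F : Type*} [Field F]

/-- Some conjugate has leading principal minors `1`, `δ`. -/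
def SourGd (δ : F) (M : Matrix (Fin 3) (Fin 3) F) : Prop :=
  ∃ P Q : Matrix (Fin 3) (Fin 3) F, P * Q = 1 ∧ P.det = 1 ∧ (P * M * Q) 0 0 = 1 ∧
    (P * M * Q) 1 1 - (P * M * Q) 0 1 * (P * M * Q) 1 0 = δ

theorem SourGd.of_conj {δ : F} {M P Q : Matrix (Fin 3) (Fin 3) F} (h1 : P * Q = 1)
    (h2 : P.det = 1) (h : SourGd δ (P * M * Q)) : SourGd δ M := by
  obtain ⟨P', Q', a1, a2, a3, a4⟩ := h
  have e : P' * P * M * (Q * Q') = P' * (P * M * Q) * Q' := by simp only [Matrix.mul_assoc]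
  refine ⟨P' * P, Q * Q', ?_, by rw [det_mul, a2, h2, one_mul], by rw [e]; exact a3,
    by rw [e]; exact a4⟩
  rw [Matrix.mul_assoc, ← Matrix.mul_assoc P, h1, Matrix.one_mul, a1]

theorem sour_step4 (δ : F) {M : Matrix (Fin 3) (Fin 3) F} (h0 : M 0 0 = 1)
    (h : M 2 1 - M 2 0 * M 0 1 ≠ 0) : SourGd δ M := by
  obtain ⟨t, ht⟩ : ∃ t : F, t * (M 2 1 - M 2 0 * M 0 1) = δ - (M 1 1 - M 0 1 * M 1 0) :=
    ⟨_, div_mul_cancel₀ _ h⟩
  refine ⟨!![1, 0, 0; 0, 1, t; 0, 0, 1], !![1, 0, 0; 0, 1, -t; 0, 0, 1], ?_, ?_, ?_, ?_⟩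
  · ext i j; fin_cases i <;> fin_cases j <;> simp [Matrix.mul_apply, Fin.sum_univ_three]
  · simp [det_fin_three]
  · simp only [Matrix.mul_apply, Fin.sum_univ_three]; simp [h0]
  · simp only [Matrix.mul_apply, Fin.sum_univ_three]; simp
    linear_combination ht

theorem sour_step3 (δ : F) {M : Matrix (Fin 3) (Fin 3) F} (h0 : M 0 0 = 1)
    (h : M 1 2 - M 1 0 * M 0 2 ≠ 0) : SourGd δ M := by
  refine SourGd.of_conj (P := !![1, 0, 0; 0, 0, 1; 0, -1, 0]) (Q := !![1, 0, 0; 0, 0, -1; 0, 1, 0])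
    ?_ ?_ (sour_step4 δ ?_ ?_)
  · ext i j; fin_cases i <;> fin_cases j <;> simp [Matrix.mul_apply, Fin.sum_univ_three]
  · simp [det_fin_three]
  · simp only [Matrix.mul_apply, Fin.sum_univ_three]; simp [h0]
  · simp only [Matrix.mul_apply, Fin.sum_univ_three]
    simp
    intro h'
    exact h (by linear_combination -h')

theorem sour_step2 (δ : F) {M : Matrix (Fin 3) (Fin 3) F} (h0 : M 0 0 = 1) (h1 : M 1 0 ≠ 0)
    (hd : M.det ≠ 0) : SourGd δ M := by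
  by_cases a : M 2 1 - M 2 0 * M 0 1 ≠ 0
  · exact sour_step4 δ h0 a
  by_cases b : M 1 2 - M 1 0 * M 0 2 ≠ 0
  · exact sour_step3 δ h0 b
  push Not at a b
  by_cases c : M 1 1 - M 1 0 * M 0 1 = M 2 2 - M 2 0 * M 0 2
  · have hσ : M 2 2 - M 2 0 * M 0 2 ≠ 0 := by
      intro h'
      apply hd
      rw [det_fin_three, h0]
      have e1 : M 2 1 = M 2 0 * M 0 1 := by linear_combination a
      have e2 : M 1 2 = M 1 0 * M 0 2 := by linear_combination b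
      have e3 : M 2 2 = M 2 0 * M 0 2 := by linear_combination h'
      have e4 : M 1 1 = M 1 0 * M 0 1 := by linear_combination c + h'
      rw [e1, e2, e3, e4]; ring
    refine SourGd.of_conj (P := !![1, -M 2 0, M 1 0; 0, 1, 0; 0, 0, 1])
      (Q := !![1, M 2 0, -M 1 0; 0, 1, 0; 0, 0, 1]) ?_ ?_ (sour_step3 δ ?_ ?_)
    · ext i j; fin_cases i <;> fin_cases j <;> simp [Matrix.mul_apply, Fin.sum_univ_three]
    · simp [det_fin_three]
    · simp only [Matrix.mul_apply, Fin.sum_univ_three]; simp [h0]; ring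
    · simp only [Matrix.mul_apply, Fin.sum_univ_three]
      simp
      intro h'
      have : M 1 0 * M 1 0 * (M 2 2 - M 2 0 * M 0 2) = 0 := by
        rw [h0] at h'
        linear_combination -h' + b + M 1 0 * M 2 0 * b
      simp [h1, hσ] at this
  · refine SourGd.of_conj (P := !![1, 0, 0; 0, 1, 0; 0, 1, 1])
      (Q := !![1, 0, 0; 0, 1, 0; 0, -1, 1]) ?_ ?_ (sour_step4 δ ?_ ?_)
    · ext i j; fin_cases i <;> fin_cases j <;> simp [Matrix.mul_apply, Fin.sum_univ_three]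
    · simp [det_fin_three]
    · simp only [Matrix.mul_apply, Fin.sum_univ_three]; simp [h0]
    · simp only [Matrix.mul_apply, Fin.sum_univ_three]
      simp
      intro h'
      exact c (by linear_combination h' - a + b)

theorem sour_step1 (δ : F) {M : Matrix (Fin 3) (Fin 3) F} (h1 : M 1 0 ≠ 0)
    (hd : M.det ≠ 0) : SourGd δ M := by
  obtain ⟨t, ht⟩ : ∃ t : F, t * M 1 0 = 1 - M 0 0 := ⟨_, div_mul_cancel₀ _ h1⟩
  have hP : (!![1, t, 0; 0, 1, 0; 0, 0, 1] : Matrix (Fin 3) (Fin 3) F).det = 1 := by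
    simp [det_fin_three]
  have hQ : (!![1, -t, 0; 0, 1, 0; 0, 0, 1] : Matrix (Fin 3) (Fin 3) F).det = 1 := by
    simp [det_fin_three]
  refine SourGd.of_conj (P := !![1, t, 0; 0, 1, 0; 0, 0, 1])
      (Q := !![1, -t, 0; 0, 1, 0; 0, 0, 1]) ?_ hP (sour_step2 δ ?_ ?_ ?_)
  · ext i j; fin_cases i <;> fin_cases j <;> simp [Matrix.mul_apply, Fin.sum_univ_three]
  · simp only [Matrix.mul_apply, Fin.sum_univ_three]; simp
    linear_combination ht
  · simp only [Matrix.mul_apply, Fin.sum_univ_three]; simpa using h1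
  · rw [det_mul, det_mul, hP, hQ]; simpa using hd

/-- Lower and upper triangular matrices with diagonal `1, a, a⁻¹`. -/
def sourL {a : F} (ha : a ≠ 0) (x y z : F) : SpecialLinearGroup (Fin 3) F :=
  ⟨!![1, 0, 0; x, a, 0; y, z, a⁻¹], by simp [det_fin_three, ha]⟩

/-- Upper triangular matrix with diagonal `1, a, a⁻¹`. -/
def sourU {a : F} (ha : a ≠ 0) (x y z : F) : SpecialLinearGroup (Fin 3) F :=
  ⟨!![1, x, y; 0, a, z; 0, 0, a⁻¹], by simp [det_fin_three, ha]⟩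

theorem sour_LU {a : F} (ha : a ≠ 0) (A : SpecialLinearGroup (Fin 3) F)
    (hA : ¬ ∃ c : F, A.1 = c • (1 : Matrix (Fin 3) (Fin 3) F)) :
    ∃ (g : SpecialLinearGroup (Fin 3) F) (l1 l2 l3 u1 u2 u3 : F),
      g * A * g⁻¹ = sourL ha l1 l2 l3 * sourU ha u1 u2 u3 := by
  obtain ⟨g, hg⟩ := sour_exists_conj_dot (by simp) A hA (v := Pi.single 0 1) (φ := Pi.single 1 1)
    (by simp) (by simp) (by simp)
  have hg' : (g * A * g⁻¹).1 1 0 ≠ 0 := by simpa using hg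
  obtain ⟨P, Q, h1, h2, h3, h4⟩ := sour_step1 (a ^ 2) hg' (by rw [(g * A * g⁻¹).2]; simp)
  let p : SpecialLinearGroup (Fin 3) F := ⟨P, h2⟩
  have hQ : (p⁻¹).1 = Q := by
    have : (p⁻¹).1 * (P * Q) = Q := by
      rw [← Matrix.mul_assoc, show (p⁻¹).1 * P = 1 from sl_inv_mul_val p, Matrix.one_mul]
    rw [← this, h1, Matrix.mul_one]
  have e : (p * g) * A * (p * g)⁻¹ = p * (g * A * g⁻¹) * p⁻¹ := by group
  have hM : (p * (g * A * g⁻¹) * p⁻¹).1 = P * (g * A * g⁻¹).1 * Q := by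
    rw [slv_mul, slv_mul, hQ]
  have hdet := (p * (g * A * g⁻¹) * p⁻¹).2
  rw [← hM] at h3 h4
  rw [← e] at h3 h4 hdet
  refine ⟨p * g, ?_⟩
  generalize (p * g) * A * (p * g)⁻¹ = M at h3 h4 hdet
  refine ⟨M.1 1 0, M.1 2 0, (M.1 2 1 - M.1 2 0 * M.1 0 1) / a, M.1 0 1, M.1 0 2,
    (M.1 1 2 - M.1 1 0 * M.1 0 2) / a, ?_⟩
  rw [det_fin_three, h3] at hdet
  have e11 : M.1 1 1 = a ^ 2 + M.1 0 1 * M.1 1 0 := by linear_combination h4
  rw [slv_ext_iff, slv_mul]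
  ext i j
  fin_cases i <;> fin_cases j <;>
    simp [sourL, sourU, Matrix.mul_apply, Fin.sum_univ_three, h3]
  · linear_combination h4
  · field_simp; ring
  · field_simp; ring
  · field_simp
    rw [e11] at hdet
    linear_combination hdet

/-- The diagonal matrix `diag(1, a, a⁻¹)`. -/
def sourD {a : F} (ha : a ≠ 0) : SpecialLinearGroup (Fin 3) F := sourL ha 0 0 0

theorem sourL_conj {a : F} (ha : a ≠ 0) (h2 : a ^ 2 ≠ 1) (x y z : F) :
    ∃ u : SpecialLinearGroup (Fin 3) F, sourL ha x y z = u * sourD ha * u⁻¹ := by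
  have h1 : 1 - a ≠ 0 := by intro h; apply h2; rw [show a = 1 by linear_combination -h]; simp
  have h3 : a ^ 2 - 1 ≠ 0 := sub_ne_zero.2 h2
  have h4 : a - 1 ≠ 0 := by intro h; apply h1; linear_combination -h
  refine sour_conj_of_mul !![1, 0, 0; x / (1 - a), 1, 0; a * (y + z * (x / (1 - a))) / (a - 1),
    a * z / (a ^ 2 - 1), 1] (by simp [det_fin_three]) ?_
  ext i j
  fin_cases i <;> fin_cases j <;>
    simp [sourL, sourD, Matrix.mul_apply, Fin.sum_univ_three] <;> field_simp <;> ring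

theorem sourU_conj {a : F} (ha : a ≠ 0) (h2 : a ^ 2 ≠ 1) (x y z : F) :
    ∃ u : SpecialLinearGroup (Fin 3) F, sourU ha x y z = u * sourD ha * u⁻¹ := by
  have h1 : 1 - a ≠ 0 := by intro h; apply h2; rw [show a = 1 by linear_combination -h]; simp
  have h3 : 1 - a ^ 2 ≠ 0 := sub_ne_zero.2 h2.symm
  have h4 : a - 1 ≠ 0 := by intro h; apply h1; linear_combination -h
  refine sour_conj_of_mul !![1, x / (a - 1), a * (y + x * (a * z / (1 - a ^ 2))) / (1 - a); 0, 1,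
    a * z / (1 - a ^ 2); 0, 0, 1] (by simp [det_fin_three]) ?_
  ext i j
  fin_cases i <;> fin_cases j <;>
    simp [sourU, sourL, sourD, Matrix.mul_apply, Fin.sum_univ_three] <;> field_simp <;> ring

theorem sourD_pow {a : F} (ha : a ≠ 0) (k : ℕ) :
    (sourD ha ^ k).1 = !![1, 0, 0; 0, a ^ k, 0; 0, 0, (a ^ k)⁻¹] := by
  induction k with
  | zero => ext i j; fin_cases i <;> fin_cases j <;> simp
  | succ k ih =>
    rw [pow_succ, slv_mul, ih]
    ext i j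
    fin_cases i <;> fin_cases j <;>
      simp [sourL, sourD, Matrix.mul_apply, Fin.sum_univ_three, pow_succ, mul_comm]

theorem sour_sq {a : F} (ha : a ≠ 0) (h2 : a ^ 2 ≠ 1) (A : SpecialLinearGroup (Fin 3) F)
    (hA : ¬ ∃ c : F, A.1 = c • (1 : Matrix (Fin 3) (Fin 3) F)) :
    ∃ u v : SpecialLinearGroup (Fin 3) F, A = (u * sourD ha * u⁻¹) * (v * sourD ha * v⁻¹) := by
  obtain ⟨g, l1, l2, l3, u1, u2, u3, h⟩ := sour_LU ha A hA
  obtain ⟨u, hu⟩ := sourL_conj ha h2 l1 l2 l3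
  obtain ⟨v, hv⟩ := sourU_conj ha h2 u1 u2 u3
  refine ⟨g⁻¹ * u, g⁻¹ * v, ?_⟩
  rw [hu, hv] at h
  calc A = g⁻¹ * (g * A * g⁻¹) * g := by group
    _ = _ := by rw [h]; group

end Cfsg.Agent.H10
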