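import Mathlib

/-! Stabilisers of partitions in symmetric and alternating groups. -/

namespace Cfsg.Agent.H10

open Equiv MulAction
open scoped Pointwise

variable {Ω ι : Type*}

/-- The stabiliser of the partition into the fibres of `f`. -/
def PS (f : Ω → ι) : Subgroup (Perm Ω) where
  carrier := {g | ∀ x y : Ω, f x = f y ↔ f (g x) = f (g y)}
  mul_mem' ha hb x y := (hb x y).trans (ha _ _)
  one_mem' _ _ := Iff.rfl
  inv_mem' {a} ha x y := by rw [ha (a⁻¹ x) (a⁻¹ y)]; simp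

theorem mem_PS {f : Ω → ι} {g : Perm Ω} : g ∈ PS f ↔ ∀ x y : Ω, f x = f y ↔ f (g x) = f (g y) :=
  Iff.rfl

theorem closure_eq_PS (f : Ω → ι) :
    Subgroup.closure {g : Perm Ω | ∀ x y : Ω, f x = f y ↔ f (g x) = f (g y)} = PS f :=
  (PS f).closure_eq

theorem mem_PS_of_eq {f : Ω → ι} {g : Perm Ω} (σ : Perm ι) (h : ∀ x, f (g x) = σ (f x)) :
    g ∈ PS f := fun x y => by rw [h, h, σ.apply_eq_iff_eq]

theorem swap_mem_PS [DecidableEq Ω] {f : Ω → ι} {x y : Ω} (h : f x = f y) : swap x y ∈ PS f :=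
  mem_PS_of_eq 1 fun z => by
    rw [swap_apply_def]; split_ifs with h1 h2
    · rw [h1]; exact h.symm
    · rw [h2]; exact h
    · rfl

/-- A uniform partition with at least two blocks of size at least two. -/
structure UP (f : Ω → ι) (a : ℕ) : Prop where
  two : 2 ≤ a
  card : ∀ i, Nat.card {x : Ω // f x = i} = a
  nt : Nontrivial ι

namespace UP

variable {f : Ω → ι} {a : ℕ} (h : UP f a)
include h

theorem exists_equiv : ∃ e : Ω ≃ ι × Fin a, ∀ x, (e x).1 = f x := by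
  have : ∀ i, Nonempty ({x : Ω // f x = i} ≃ Fin a) := fun i => by
    have : Finite {x : Ω // f x = i} := Nat.finite_of_card_ne_zero (by have := h.two; rw [h.card]; omega)
    exact ⟨Finite.equivFinOfCardEq (h.card i)⟩
  exact ⟨(sigmaFiberEquiv f).symm.trans ((sigmaCongrRight fun i => (this i).some).trans
    (sigmaEquivProd _ _)), fun _ => rfl⟩

theorem exists_pair (i : ι) : ∃ x y, x ≠ y ∧ f x = i ∧ f y = i := by
  obtain ⟨e, he⟩ := h.exists_equiv
  have := h.two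
  exact ⟨e.symm (i, ⟨0, by omega⟩), e.symm (i, ⟨1, by omega⟩), by simp, by simp [← he],
    by simp [← he]⟩

theorem exists_pair_ne (h3 : 3 ≤ a) (p : Ω) : ∃ x y, x ≠ y ∧ x ≠ p ∧ y ≠ p ∧ f x = f p ∧ f y = f p := by
  obtain ⟨e, he⟩ := h.exists_equiv
  have : Nontrivial {j : Fin a // j ≠ (e p).2} := by
    rw [← Fintype.one_lt_card_iff_nontrivial]; simp; omega
  obtain ⟨⟨j, hj⟩, ⟨k, hk⟩, hjk⟩ := _root_.exists_pair_ne {j : Fin a // j ≠ (e p).2}
  refine ⟨e.symm (f p, j), e.symm (f p, k), by simpa using hjk, fun hc => hj ?_, fun hc => hk ?_,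
    by simp [← he], by simp [← he]⟩
  · rw [← hc]; simp
  · rw [← hc]; simp

variable [DecidableEq Ω]

/-- An element of the partition stabiliser moving `q` to `r` and fixing the other blocks. -/
theorem exists_move (q r : Ω) :
    ∃ g ∈ PS f, g q = r ∧ ∀ p, f p ≠ f q → f p ≠ f r → g p = p := by
  classical
  obtain ⟨e, he⟩ := h.exists_equiv
  let s : Perm Ω := e.trans (((swap (f q) (f r)).prodCongr (Equiv.refl _)).trans e.symm)
  have hs : ∀ x, f (s x) = swap (f q) (f r) (f x) := fun x => by simp [s, ← he]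
  have h1 : f (s q) = f r := by rw [hs, swap_apply_left]
  refine ⟨swap (s q) r * s, mul_mem (swap_mem_PS h1) (mem_PS_of_eq _ hs), by simp, fun p h2 h3 => ?_⟩
  have : s p = p := by
    apply e.injective
    simp only [s, trans_apply, apply_symm_apply]
    ext
    · simp [he, swap_apply_of_ne_of_ne h2 h3]
    · simp
  rw [Perm.mul_apply, this, swap_apply_of_ne_of_ne]
  · rintro rfl; exact h3 h1
  · rintro rfl; exact h3 rfl

theorem PS_ne_top : PS f ≠ ⊤ := fun hc => by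
  obtain ⟨i, j, hij⟩ := h.nt
  obtain ⟨x, y, hxy, hx, hy⟩ := h.exists_pair i
  obtain ⟨z, -, -, hz, -⟩ := h.exists_pair j
  have := ((hc ▸ trivial : swap y z ∈ PS f) x y).mp (hx.trans hy.symm)
  rw [swap_apply_left, swap_apply_of_ne_of_ne hxy (by rintro rfl; exact hij (hx.symm.trans hz)),
    hx, hz] at this
  exact hij this

/-- A proper overgroup of a sufficiently large part of the partition stabiliser is primitive. -/
theorem isPreprimitive [Finite Ω] {M : Subgroup (Perm Ω)}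
    (hN : ∀ g ∈ PS f, ∀ p q, ∃ n ∈ M, n ∈ PS f ∧ n p = g p ∧ n q = g q) (hM : ¬ M ≤ PS f) :
    IsPreprimitive M Ω := by
  have tr : ∀ x y, ∃ n ∈ M, n ∈ PS f ∧ n x = y := fun x y => by
    obtain ⟨g, hg, h1, -⟩ := h.exists_move x y
    obtain ⟨n, h2, h3, h4, -⟩ := hN g hg x x
    exact ⟨n, h2, h3, h4.trans h1⟩
  have : IsPretransitive M Ω := ⟨fun x y => by
    obtain ⟨n, h2, -, h4⟩ := tr x y
    exact ⟨⟨n, h2⟩, h4⟩⟩
  refine ⟨fun {B} hB => ?_⟩
  rcases B.subsingleton_or_nontrivial with h0 | ⟨p, hp, q, hq, hpq⟩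
  · exact Or.inl h0
  right
  have key : ∀ g ∈ PS f, ∀ p ∈ B, ∀ q ∈ B, g p = p → g q ∈ B := fun g hg p hp q hq hgp => by
    obtain ⟨n, h2, -, h4, h5⟩ := hN g hg p q
    have : (⟨n, h2⟩ : M) • B = B := hB.smul_eq_of_mem hp (by change n p ∈ B; rwa [h4, hgp])
    rw [← h5, ← this]
    exact ⟨q, hq, rfl⟩
  by_cases hc : ∃ p ∈ B, ∃ q ∈ B, f p ≠ f q
  · obtain ⟨p, hp, q, hq, hpq⟩ := hc
    have k2 : ∀ p ∈ B, ∀ q ∈ B, f p ≠ f q → ∀ r, f p ≠ f r → r ∈ B := fun p hp q hq hpq r hr => by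
      obtain ⟨g, hg, h1, h2⟩ := h.exists_move q r
      exact h1 ▸ key g hg p hp q hq (h2 p hpq hr)
    refine Set.eq_univ_of_forall fun r => ?_
    by_cases hr : f p = f r
    · exact k2 q hq p hp hpq.symm r (hr ▸ hpq.symm)
    · exact k2 p hp q hq hpq r hr
  push Not at hc
  have hB' : ∀ r, f r = f p → r ∈ B := fun r hr => by
    by_cases hrp : r = p
    · rwa [hrp]
    · have := key (swap q r) (swap_mem_PS ((hc q hq p hp).trans hr.symm)) p hp q hq
        (swap_apply_of_ne_of_ne hpq (Ne.symm hrp))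
      rwa [swap_apply_left] at this
  have k3 : ∀ m ∈ M, ∀ x y, f x = f y → f (m x) = f (m y) := fun m hm x y hxy => by
    obtain ⟨n, h1, h2, rfl⟩ := tr p x
    obtain ⟨y, rfl⟩ := n.surjective y
    obtain ⟨n', h3, h4, h5⟩ := tr p (m (n p))
    have hy : y ∈ B := hB' y ((h2 y p).mpr hxy.symm)
    have h6 : n'⁻¹ * m * n ∈ M := mul_mem (mul_mem (inv_mem h3) hm) h1
    have h7 : (n'⁻¹ * m * n) p = p := by simp [← h5]
    have : (⟨_, h6⟩ : M) • B = B := hB.smul_eq_of_mem hp (by change (n'⁻¹ * m * n) p ∈ B; rwa [h7])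
    have h8 : (n'⁻¹ * m * n) y ∈ B := by rw [← this]; exact ⟨y, hy, rfl⟩
    have h9 := (h4 _ _).mp (hc p hp _ h8)
    simpa [h5] using h9
  exact absurd (fun m hm x y => ⟨k3 m hm x y, fun h1 => by
    simpa using k3 _ (inv_mem hm) _ _ h1⟩) hM

theorem isCoatom_PS [Finite Ω] : IsCoatom (PS f) := by
  refine ⟨h.PS_ne_top, fun M hM => ?_⟩
  obtain ⟨i, -⟩ := h.nt
  obtain ⟨x, y, hxy, hx, hy⟩ := h.exists_pair i
  exact Perm.subgroup_eq_top_of_isPreprimitive_of_isSwap_mem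
    (h.isPreprimitive (fun g hg p q => ⟨g, hM.le hg, hg, rfl, rfl⟩) hM.not_ge) (swap x y)
    ⟨x, y, hxy, rfl⟩ (hM.le (swap_mem_PS (hx.trans hy.symm)))

theorem exists_swap_one (p : Ω) : ∃ x y, x ≠ y ∧ f x = f y ∧ f x ≠ f p := by
  have := h.nt
  obtain ⟨i, hi⟩ := exists_ne (f p)
  obtain ⟨x, y, hxy, hx, hy⟩ := h.exists_pair i
  exact ⟨x, y, hxy, hx.trans hy.symm, hx ▸ hi⟩

theorem exists_swap_two (h3 : 3 ≤ a ∨ ∀ i j : ι, ∃ k, k ≠ i ∧ k ≠ j) (p q : Ω) :
    ∃ x y, x ≠ y ∧ f x = f y ∧ swap x y p = p ∧ swap x y q = q := by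
  have k1 : ∀ {x y p : Ω}, f x = f y → f x ≠ f p → swap x y p = p := fun h1 h2 =>
    swap_apply_of_ne_of_ne (by rintro rfl; exact h2 rfl) (by rintro rfl; exact h2 h1)
  by_cases hpq : f p = f q
  · obtain ⟨x, y, hxy, h1, h2⟩ := h.exists_swap_one p
    exact ⟨x, y, hxy, h1, k1 h1 h2, k1 h1 (hpq ▸ h2)⟩
  rcases h3 with h3 | h3
  · obtain ⟨x, y, hxy, h1, h2, h4, h5⟩ := h.exists_pair_ne h3 p
    exact ⟨x, y, hxy, h4.trans h5.symm, swap_apply_of_ne_of_ne h1.symm h2.symm,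
      k1 (h4.trans h5.symm) (h4 ▸ hpq)⟩
  · obtain ⟨k, h1, h2⟩ := h3 (f p) (f q)
    obtain ⟨x, y, hxy, hx, hy⟩ := h.exists_pair k
    exact ⟨x, y, hxy, hx.trans hy.symm, k1 (hx.trans hy.symm) (hx ▸ h1),
      k1 (hx.trans hy.symm) (hx ▸ h2)⟩

variable [Fintype Ω]

omit h in
theorem exists_even {g : Perm Ω} (hg : g ∈ PS f) {x y : Ω} (hxy : x ≠ y) (h1 : f x = f y) :
    ∃ n ∈ PS f ⊓ alternatingGroup Ω, ∀ p, swap x y p = p → n p = g p := by
  rcases Int.units_eq_one_or (Perm.sign g) with hs | hs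
  · exact ⟨g, ⟨hg, hs⟩, fun _ _ => rfl⟩
  · exact ⟨g * swap x y, ⟨mul_mem hg (swap_mem_PS h1), by
      simp [Perm.mem_alternatingGroup, hs, Perm.sign_swap hxy]⟩, fun p hp => by simp [hp]⟩

theorem not_alt_le : ¬ alternatingGroup Ω ≤ PS f := fun hc => by
  obtain ⟨i, j, hij⟩ := h.nt
  obtain ⟨x, y, hxy, hx, hy⟩ := h.exists_pair i
  obtain ⟨z, w, hzw, hz, hw⟩ := h.exists_pair j
  have hne : ∀ {u v}, f u = i → f v = j → u ≠ v := fun hu hv => by
    rintro rfl; exact hij (hu.symm.trans hv)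
  have := (hc (Perm.mul_mem_alternatingGroup_of_isSwap ⟨y, z, hne hy hz, rfl⟩ ⟨z, w, hzw, rfl⟩)
    x y).mp (hx.trans hy.symm)
  rw [Perm.mul_apply, Perm.mul_apply, swap_apply_of_ne_of_ne (hne hx hz) (hne hx hw),
    swap_apply_of_ne_of_ne (hne hy hz) (hne hy hw), swap_apply_left,
    swap_apply_of_ne_of_ne hxy (hne hx hz), hx, hz] at this
  exact hij this

/-- For blocks of size two an overgroup contains a three-cycle. -/
theorem exists_threeCycle (h2 : a = 2) (h3 : ∀ i j : ι, ∃ k, k ≠ i ∧ k ≠ j)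
    (h5 : ∀ i j k l : ι, [i, j, k, l].Nodup → ∃ m, m ∉ [i, j, k, l]) {M : Subgroup (Perm Ω)}
    (hN : PS f ⊓ alternatingGroup Ω ≤ M) (hM : ¬ M ≤ PS f) : ∃ c ∈ M, c.IsThreeCycle := by
  have uq : ∀ {x y z : Ω}, f y = f x → f z = f x → y ≠ x → z ≠ x → y = z :=
    fun {x y z} hy hz hyx hzx => by
      obtain ⟨e, he⟩ := h.exists_equiv
      subst h2
      have h1 : ∀ {u v : Ω}, f u = f v → (e u).2 = (e v).2 → u = v := fun h1 h2 =>
        e.injective (Prod.ext (by rw [he, he, h1]) h2)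
      refine h1 (hy.trans hz.symm) ?_
      have h4 : (e y).2 ≠ (e x).2 := fun hc => hyx (h1 hy hc)
      have h5 : (e z).2 ≠ (e x).2 := fun hc => hzx (h1 hz hc)
      omega
  have pt : ∀ x : Ω, ∃ y, y ≠ x ∧ f y = f x := fun x => by
    obtain ⟨u, v, huv, hu, hv⟩ := h.exists_pair (f x)
    by_cases hux : u = x
    · exact ⟨v, hux ▸ huv.symm, hv⟩
    · exact ⟨u, hux, hu⟩
  have dt : ∀ {x y z w : Ω}, x ≠ y → z ≠ w → f x = f y → f z = f w → swap x y * swap z w ∈ M :=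
    fun hxy hzw h1 h2 => hN ⟨mul_mem (swap_mem_PS h1) (swap_mem_PS h2),
      Perm.mul_mem_alternatingGroup_of_isSwap ⟨_, _, hxy, rfl⟩ ⟨_, _, hzw, rfl⟩⟩
  obtain ⟨g, hg, x, x', hx, hgx⟩ : ∃ g ∈ M, ∃ x y, f x = f y ∧ f (g x) ≠ f (g y) := by
    by_contra hc
    push Not at hc
    exact hM fun m hm x y => ⟨hc m hm x y, fun h1 => by simpa using hc _ (inv_mem hm) _ _ h1⟩
  have hxx : x ≠ x' := by rintro rfl; exact hgx rfl
  obtain ⟨u', hu', hfu⟩ := pt (g x)
  obtain ⟨v', hv', hfv⟩ := pt (g x')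
  obtain ⟨k, hk1, hk2⟩ := h3 (f x) (f (g⁻¹ u'))
  obtain ⟨y, y', hyy, hy, hy'⟩ := h.exists_pair k
  have hh : swap (g x) (g x') * swap (g y) (g y') ∈ M := by
    have := mul_mem (mul_mem hg (dt hxx hyy hx (hy.trans hy'.symm))) (inv_mem hg)
    rwa [show g * (swap x x' * swap y y') * g⁻¹ = (g * swap x x' * g⁻¹) * (g * swap y y' * g⁻¹) by
      group, ← swap_apply_apply, ← swap_apply_apply] at this
  have n1 : ∀ {s : Ω}, f s = k → g s ≠ g x ∧ g s ≠ g x' ∧ g s ≠ u' := fun hs =>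
    ⟨fun hc => hk1 (by rw [← hs, g.injective hc]), fun hc => hk1 (by rw [← hs, g.injective hc, hx]),
      fun hc => hk2 (by rw [← hs, ← hc]; simp)⟩
  obtain ⟨w1, w2, w3⟩ := n1 hy
  obtain ⟨z1, z2, z3⟩ := n1 hy'
  have hwz : g y ≠ g y' := g.injective.ne hyy
  generalize g x = u, g x' = v, g y = w, g y' = z at *
  have huv : u ≠ v := by rintro rfl; exact hgx rfl
  have hvu' : v ≠ u' := by rintro rfl; exact hgx hfu.symm
  -- conjugating by `(u u')(s s')` finishes the proof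
  have fin : ∀ s s', s ≠ s' → f s = f s' → f s ≠ f u → f s ≠ f v →
      swap s s' * swap w z * swap s s' = swap w z → ∃ c ∈ M, c.IsThreeCycle := by
    intro s s' hss h1 h4 h6 h7
    have ne : ∀ {p q : Ω}, f p ≠ f q → q ≠ p := fun h => by rintro rfl; exact h rfl
    have h8 := dt hu'.symm hss hfu.symm h1
    have h9 := mul_mem hh (mul_mem (mul_mem h8 hh) (inv_mem h8))
    refine ⟨_, h9, ?_⟩
    have e1 : swap u u' * swap s s' * swap u v * (swap u u' * swap s s')⁻¹ = swap u' v := by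
      rw [← swap_apply_apply, Perm.mul_apply, Perm.mul_apply,
        swap_apply_of_ne_of_ne (ne h4) (ne (h1 ▸ h4)), swap_apply_left,
        swap_apply_of_ne_of_ne (ne h6) (ne (h1 ▸ h6)), swap_apply_of_ne_of_ne huv.symm hvu']
    have e2 : swap u u' * swap s s' * swap w z * (swap u u' * swap s s')⁻¹ = swap w z := by
      rw [mul_inv_rev, swap_inv, show swap u u' * swap s s' * swap w z * (swap s s' * (swap u u')⁻¹) =
        swap u u' * (swap s s' * swap w z * swap s s') * (swap u u')⁻¹ by group, h7,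
        ← swap_apply_apply, swap_apply_of_ne_of_ne w1 w3, swap_apply_of_ne_of_ne z1 z3]
    have e3 : swap w z * swap u' v * (swap w z)⁻¹ = swap u' v := by
      rw [← swap_apply_apply, swap_apply_of_ne_of_ne w3.symm z3.symm,
        swap_apply_of_ne_of_ne w2.symm z2.symm]
    have : swap u v * swap w z * (swap u u' * swap s s' * (swap u v * swap w z) *
        (swap u u' * swap s s')⁻¹) = swap v u * swap v u' := by
      rw [show swap u u' * swap s s' * (swap u v * swap w z) * (swap u u' * swap s s')⁻¹ =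
        (swap u u' * swap s s' * swap u v * (swap u u' * swap s s')⁻¹) *
        (swap u u' * swap s s' * swap w z * (swap u u' * swap s s')⁻¹) by group, e1, e2,
        mul_assoc, ← mul_assoc (swap w z), ← swap_inv w z, swap_inv, swap_comm v u, swap_comm v u']
      nth_rewrite 2 [← swap_inv w z]
      rw [e3]
    rw [this]
    exact Perm.isThreeCycle_swap_mul_swap_same huv.symm hvu' hu'.symm
  have fw : ∀ {w : Ω}, w ≠ u → w ≠ u' → f w ≠ f u := fun h1 h2 hc => h2 (uq hc hfu h1 hu')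
  by_cases hv1 : w = v' ∨ z = v'
  · -- multiply by the block swap `(u v)(u' v')`
    have hu'v' : u' ≠ v' := by rintro rfl; exact hgx (hfu.symm.trans hfv)
    have hk : swap u v * swap u' v' ∈ M := by
      refine hN ⟨?_, Perm.mul_mem_alternatingGroup_of_isSwap ⟨_, _, huv, rfl⟩ ⟨_, _, hu'v', rfl⟩⟩
      classical
      refine mem_PS_of_eq (swap (f u) (f v)) fun p => ?_
      have a1 : v' ≠ u := by rintro rfl; exact hgx hfv
      by_cases p1 : p = u
      · simp [p1, swap_apply_of_ne_of_ne hu'.symm a1.symm]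
      by_cases p2 : p = v
      · simp [p2, swap_apply_of_ne_of_ne hvu' hv'.symm]
      by_cases p3 : p = u'
      · simp [p3, swap_apply_of_ne_of_ne a1 hv', hfu, hfv]
      by_cases p4 : p = v'
      · simp [p4, swap_apply_of_ne_of_ne hu' hvu'.symm, hfu, hfv]
      rw [Perm.mul_apply, swap_apply_of_ne_of_ne p3 p4, swap_apply_of_ne_of_ne p1 p2,
        swap_apply_of_ne_of_ne (fw p1 p3) fun hc => p4 (uq hc hfv p2 hv')]
    have := mul_mem (inv_mem hk) hh
    rw [mul_inv_rev, swap_inv, swap_inv, mul_assoc, swap_mul_self_mul] at this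
    refine ⟨_, this, ?_⟩
    rcases hv1 with rfl | rfl
    · rw [swap_comm u']
      exact Perm.isThreeCycle_swap_mul_swap_same w3 hwz z3.symm
    · rw [swap_comm u', swap_comm w]
      exact Perm.isThreeCycle_swap_mul_swap_same z3 hwz.symm w3.symm
  push Not at hv1
  have fv : ∀ {w : Ω}, w ≠ v → w ≠ v' → f w ≠ f v := fun h1 h2 hc => h2 (uq hc hfv h1 hv')
  by_cases hb : f w = f z
  · exact fin w z hwz hb (fw w1 w3) (fv w2 hv1.1) (by simp)
  obtain ⟨m, hm⟩ := h5 (f u) (f v) (f w) (f z) (by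
    simp [hgx, hb, (fw w1 w3).symm, (fw z1 z3).symm, (fv w2 hv1.1).symm, (fv z2 hv1.2).symm])
  simp only [List.mem_cons, List.not_mem_nil, or_false, not_or] at hm
  obtain ⟨s, s', hss, hs, hs'⟩ := h.exists_pair m
  refine fin s s' hss (hs.trans hs'.symm) (hs ▸ hm.1) (hs ▸ hm.2.1) ?_
  nth_rewrite 2 [← swap_inv s s']
  rw [← swap_apply_apply, swap_apply_of_ne_of_ne, swap_apply_of_ne_of_ne] <;>
    (rintro rfl; simp_all)

end UP

end Cfsg.Agent.H10
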