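import Mathlib
import Cfsg.Agent.H10.PSL2Max2
import Cfsg.Agent.H10.FourGroups
import Cfsg.Agent.H10.Congr

/-! Subgroups of index `3p` in `PSL₂(q)` under an order formula. -/

set_option autoImplicit false

namespace Cfsg.Agent.H10.TpD

open Cfsg Subgroup MulAction
open scoped MatrixGroups

theorem ar2 {a y ε : ℤ} (hε : ε = 1 ∨ ε = -1) (ha : 1 ≤ a) (hy : 3 ≤ y)
    (h : (2 * a + ε) * (a + ε) * (9 * y ^ 2) = 2 * a * ((y + 1) * (3 * y + 2) * (3 * y + 1))) :
    False := by
  have h1 : ε * ε = 1 := by rcases hε with rfl | rfl <;> norm_num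
  have h2 : a * (9 * y ^ 2) * (2 * a + 3 * ε - 2 * y - 4) = a * (22 * y + 4) - 9 * y ^ 2 := by
    linear_combination h - 9 * y ^ 2 * h1
  have h3 : 22 * y + 4 < 9 * y ^ 2 := by nlinarith
  have h4 : 1 ≤ 2 * a + 3 * ε - 2 * y - 4 ∨ 2 * a + 3 * ε - 2 * y - 4 ≤ -1 := by omega
  have h5 : 0 < a * (9 * y ^ 2) := by positivity
  rcases h4 with h4 | h4
  · nlinarith
  · nlinarith

theorem ar1 {a y ε : ℤ} (hε : ε = 1 ∨ ε = -1) (ha : 1 ≤ a) (hy : 3 ≤ y)
    (h : (2 * a + ε) * (a + ε) * y = a * ((y + 1) * (2 * y + 1))) : ε = 1 ∧ a = y := by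
  have h1 : ε * ε = 1 := by rcases hε with rfl | rfl <;> norm_num
  have h2 : a * y * (2 * a + 3 * ε - 2 * y - 3) = a - y := by
    linear_combination h - y * h1
  have h5 : 0 < a * y := by positivity
  have h4 : 1 ≤ 2 * a + 3 * ε - 2 * y - 3 ∨ 2 * a + 3 * ε - 2 * y - 3 ≤ -1 ∨
    2 * a + 3 * ε - 2 * y - 3 = 0 := by omega
  rcases h4 with h4 | h4 | h4
  · nlinarith
  · nlinarith
  · rw [h4] at h2
    omega

variable {F : Type} [Field F] [Fintype F]

theorem cen (ho : Odd (Nat.card F)) {t : PSL(2, F)} (ht : orderOf t = 2) :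
    ∃ a, Nat.card (centralizer ({t} : Set PSL(2, F))) = 2 * a ∧
      (2 * a = Nat.card F - 1 ∨ 2 * a = Nat.card F + 1) := by
  have h2 := two_ne_zero_of_odd ho
  obtain ⟨p, hl⟩ := exists_lineAct F
  have ho' : orderOf (pslPi F t) = 2 := (orderOf_injective _ pslPi_injective t).trans ht
  have ht1 : pslPi F t ≠ 1 := fun e => by simp [e] at ho'
  have htt : pslPi F t * pslPi F t = 1 := by have := pow_orderOf_eq_one (pslPi F t); rwa [ho', sq] at this
  obtain ⟨z, z', e, he, hz⟩ := exists_isTorusPair_of_involution h2 ht1 htt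
  have h3 : (centralizer ({t} : Set PSL(2, F))).map (pslPi F) = pslSub F ⊓ pairStab _ z z' := by
    ext g
    rw [Subgroup.mem_inf, ← hl.commute_iff_mem_pairStab he.1 hz ht1 htt]
    constructor
    · rintro ⟨g, hg, rfl⟩
      exact ⟨pslPi_mem g, by rw [← map_mul, ← map_mul, mem_centralizer_singleton_iff.1 hg]⟩
    · rintro ⟨h1, h⟩
      obtain ⟨g, rfl⟩ := exists_pslPi_eq h1
      exact ⟨g, mem_centralizer_singleton_iff.2 (pslPi_injective (by rw [map_mul, map_mul, h])), rfl⟩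
  have h4 := he.card_psl_inf_torus
  rw [gcd_two_eq_two ho] at h4
  exact ⟨_, by rw [← card_map_pslPi, h3, he.card_inf_pairStab le_rfl], h4 ▸ he.e_eq⟩

theorem sub (ho : Odd (Nat.card F)) (h7 : 7 ≤ Nat.card F) (H : Subgroup PSL(2, F))
    (h : 3 * Nat.card H = Nat.card F * (Nat.card F - 1)) : Nat.card F = 9 := by
  obtain ⟨p, hp, _⟩ := exists_charP F
  have := Fact.mk hp
  rw [← card_map_pslPi] at h
  have hle := map_pslPi_le H
  generalize H.map (pslPi F) = K at h hle
  obtain ⟨n, hn⟩ : ∃ n, Nat.card F = n + 1 := ⟨Nat.card F - 1, by omega⟩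
  rcases dickson p K with ⟨x, h1⟩ | ⟨z, z', k, he, h1⟩ | h1 | h1 | ⟨L, g, h3, h1⟩
  · obtain ⟨d, hd⟩ := Subgroup.card_dvd_of_le (le_inf hle h1)
    have h2 := card_psl_inf_stabilizer x
    rw [gcd_two_eq_two ho, hd, ← h] at h2
    have h4 : 2 * d = 3 := Nat.eq_of_mul_eq_mul_left (Nat.card_pos (α := K)) (by linarith)
    omega
  · have h2 := Subgroup.card_le_of_le (le_inf hle h1)
    have h4 := he.card_psl_inf_torus
    have h5 := he.e_eq
    rw [gcd_two_eq_two ho] at h4
    rw [he.card_inf_pairStab le_rfl, h4] at h2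
    rw [hn, Nat.add_sub_cancel] at h
    have : k ≤ n + 2 := by omega
    nlinarith
  · rw [hn, Nat.add_sub_cancel] at h
    have : n ≤ 13 := by rcases h1.2.2 with h2 | h2 | h2 <;> rw [h2] at h <;> nlinarith
    have h6 : 6 ≤ n := by omega
    rcases h1.2.2 with h2 | h2 | h2 <;> rw [h2] at h <;> interval_cases n <;> omega
  · rw [hn, Nat.add_sub_cancel, h1.2.2] at h
    have : n ≤ 13 := by nlinarith
    have h6 : 6 ≤ n := by omega
    interval_cases n <;> omega
  · obtain ⟨m, hm1, hm⟩ := subfield_card_pow L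
    have h4 : Nat.card K = Nat.card PGL(2, L) ∨ Nat.card K = Nat.card PSL(2, L) := by
      have e' := mapConjEquiv K g
      rcases h1 with h1 | ⟨-, h1⟩ <;> rw [h1] at e'
      · exact Or.inl (Nat.card_congr (e'.trans (subPGLEquiv L)).toEquiv)
      · exact Or.inr (Nat.card_congr (e'.trans (subPSLEquiv L)).toEquiv)
    have hoL : Odd (Nat.card L) := by
      rw [← hm] at ho
      exact (Nat.odd_pow_iff (by omega)).1 ho
    have h5 := card_PGL2 (F := L)
    have h6 := card_PSL2 (F := L)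
    rw [gcd_two_eq_two hoL] at h6
    obtain ⟨r, hr⟩ : ∃ r, Nat.card L = r + 1 := ⟨Nat.card L - 1, by omega⟩
    rw [hr, Nat.add_sub_cancel] at h5 h6
    rw [hn, Nat.add_sub_cancel] at h
    rw [hr, hn] at hm
    rcases Nat.lt_or_ge 1 m with h8 | h8
    · have h9 : (r + 1) ^ 2 ≤ n + 1 := hm ▸ Nat.pow_le_pow_right (by omega) h8
      have h10 : Nat.card K ≤ (r + 1) * r * (r + 1 + 1) := by omega
      have h11 : r * (r + 2) ≤ n := by nlinarith
      have h12 : (r + 1) ^ 2 * (r * (r + 2)) ≤ (n + 1) * n := Nat.mul_le_mul h9 h11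
      have h13 : r ≤ 2 := by
        by_contra hc
        have : 0 < r := by omega
        have : 0 < (r + 1) * (r * (r + 2)) := by positivity
        nlinarith
      obtain rfl : r = 2 := by omega
      have : n ≤ 8 := by nlinarith
      omega
    · obtain rfl : m = 1 := by omega
      obtain rfl : r = n := by simpa using hm
      have : 0 < r := by omega
      have : 0 < (r + 1) * r := by positivity
      rcases h4 with h4 | h4 <;> nlinarith

theorem tpD {G : Type*} [Group G] {F : Type} [Field F] [Fintype F] (e : G ≃* PSL(2, F))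
    (ho : Odd (Fintype.card F)) (h3 : 3 < Fintype.card F) {p : ℕ} (hp : p.Prime) (hp3 : 3 < p)
    (H : Subgroup G) (hH : H.index = 3 * p) (u : G) (hu : orderOf u = 2) {c : ℕ}
    (hc : Nat.card (centralizer ({u} : Set G)) = c)
    (h : Nat.card G * (2 * p - 2) = p * c ^ 2 * (2 * p - 1) ∨
      Nat.card G * (3 * p - 3) ^ 2 = p * c ^ 2 * ((3 * p - 1) * (3 * p - 2))) :
    p = 5 ∧ Fintype.card F = 9 := by
  rw [← Nat.card_eq_fintype_card] at ho h3 ⊢
  obtain ⟨a, ha, hq⟩ := cen ho (t := e u) (by rw [MulEquiv.orderOf_eq, hu])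
  have hc' : c = 2 * a := by
    rw [← hc, ← ha]
    refine Nat.card_congr (e.toEquiv.subtypeEquiv fun x => ?_)
    rw [mem_centralizer_singleton_iff, mem_centralizer_singleton_iff]
    change _ ↔ e x * e u = e u * e x
    rw [← map_mul, ← map_mul, e.apply_eq_iff_eq]
  have hG := card_PSL2 (F := F)
  rw [gcd_two_eq_two ho, ← Nat.card_congr e.toEquiv] at hG
  obtain ⟨n, hn⟩ : ∃ n, Nat.card F = n + 1 := ⟨Nat.card F - 1, by omega⟩
  obtain ⟨y, rfl⟩ : ∃ y, p = y + 1 := ⟨p - 1, by omega⟩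
  obtain ⟨ε, hε, hq'⟩ : ∃ ε : ℤ, (ε = 1 ∨ ε = -1) ∧ (n : ℤ) + 1 = 2 * a + ε := by
    rcases hq with hq | hq
    · exact ⟨1, Or.inl rfl, by omega⟩
    · exact ⟨-1, Or.inr rfl, by omega⟩
  have hε2 : ε * ε = 1 := by rcases hε with rfl | rfl <;> norm_num
  have ha1 : (1 : ℤ) ≤ a := by omega
  have hy : (3 : ℤ) ≤ y := by omega
  rw [hn, Nat.add_sub_cancel] at hG
  have hG' : (Nat.card G : ℤ) = 2 * a * ((2 * a + ε) * (a + ε)) := by
    have h1 : (2 : ℤ) * Nat.card G = (n + 1) * n * (n + 1 + 1) := by exact_mod_cast hG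
    have h2 : (n : ℤ) = 2 * a + ε - 1 := by omega
    rw [h2] at h1
    have h4 : (2 : ℤ) * Nat.card G = 2 * (2 * a * ((2 * a + ε) * (a + ε))) := by
      linear_combination h1 + (2 * a + ε) * hε2
    omega
  subst hc'
  rcases h with h | h
  · rw [show 2 * (y + 1) - 2 = 2 * y by omega, show 2 * (y + 1) - 1 = 2 * y + 1 by omega] at h
    have h1 : (Nat.card G : ℤ) * (2 * y) = (y + 1) * (2 * a) ^ 2 * (2 * y + 1) := by exact_mod_cast h
    rw [hG'] at h1
    obtain ⟨rfl, h2⟩ := ar1 hε ha1 hy (mul_left_cancel₀ (show (4 * a : ℤ) ≠ 0 by omega)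
      (by linear_combination h1))
    obtain rfl : a = y := by exact_mod_cast h2
    obtain rfl : n = 2 * a := by omega
    have h4 := H.card_mul_index
    rw [hH] at h4
    have h5 : Nat.card F = 9 := by
      refine sub ho (by omega) (H.map e.toMonoidHom) ?_
      rw [Subgroup.card_map_of_injective e.injective, hn, Nat.add_sub_cancel]
      refine Nat.eq_of_mul_eq_mul_left (show 0 < 2 * (a + 1) by omega) ?_
      rw [← h4] at hG
      linarith
    exact ⟨by omega, h5⟩
  · rw [show 3 * (y + 1) - 3 = 3 * y by omega, show 3 * (y + 1) - 1 = 3 * y + 2 by omega,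
      show 3 * (y + 1) - 2 = 3 * y + 1 by omega] at h
    have h1 : (Nat.card G : ℤ) * (3 * y) ^ 2 =
      (y + 1) * (2 * a) ^ 2 * ((3 * y + 2) * (3 * y + 1)) := by exact_mod_cast h
    rw [hG'] at h1
    exact (ar2 hε ha1 hy (mul_left_cancel₀ (show (2 * a : ℤ) ≠ 0 by omega)
      (by linear_combination h1))).elim

end Cfsg.Agent.H10.TpD
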