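import Mathlib
import Cfsg.Agent.BS.BInd
import Cfsg.Agent.S0157

/-! The Steinberg-like character of a simple group with a strongly embedded subgroup. -/

set_option autoImplicit false

namespace Cfsg.Agent.H10.TpH

open Cfsg Subgroup MulAction

theorem tpH {G : Type*} [Group G] [Finite G] [IsSimpleGroup G] (hG : ¬ IsMulCommutative G) {p : ℕ}
    (hp : p.Prime) (M : Subgroup G) (hM : IsStronglyEmbedded M) (hd : ¬ p ∣ Nat.card M) :
    ∃ χ : G → ℂ, IsIrrCharacter G χ ∧ charDegree χ + 1 = M.index ∧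
      (∀ g, p ∣ orderOf g → χ g = -1) ∧ ∀ i, orderOf i = 2 → χ i = 0 := by
  obtain ⟨S, -, -⟩ := BS.bender_simple hG hM
  have h2 : 2 ≤ M.index := by
    have h1 : M.index ≠ 1 := fun h => hM.1 (index_eq_one.1 h)
    have h0 : M.index ≠ 0 := index_ne_zero_of_finite
    omega
  refine ⟨_, (S0157.result (G := G) (G ⧸ M) h2).2 (is_two_pretransitive_iff.2 fun h h' =>
    S.toR1.two_trans h h'), ?_, fun g hg => ?_, fun i hi => ?_⟩
  · have h1 : Nat.card (fixedBy (G ⧸ M) (1 : G)) = M.index := by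
      rw [fixedBy_one_eq_univ, Nat.card_univ]; rfl
    obtain ⟨k, hk⟩ : ∃ k, M.index = k + 1 := ⟨M.index - 1, by omega⟩
    rw [charDegree, h1, hk]
    simp
  · have h1 : fixedBy (G ⧸ M) g = ∅ := by
      refine Set.eq_empty_of_forall_notMem fun c hc => hd (hg.trans ?_)
      induction c using QuotientGroup.induction_on with | H a => ?_
      have h3 : a⁻¹ * g * a ∈ M := by
        simpa [mul_assoc] using QuotientGroup.eq.1 (mem_fixedBy.1 hc).symm
      have h4 := M.orderOf_dvd_natCard h3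
      rwa [show a⁻¹ * g * a = MulAut.conj a⁻¹ g by simp, MulEquiv.orderOf_eq] at h4
    simp [h1]
  · have i2 : i * i = 1 := by rw [← pow_two, ← hi, pow_orderOf_eq_one]
    have i1 : i ≠ 1 := by rintro rfl; simp at hi
    obtain ⟨c, hc⟩ := S.toR1.exists_fix_of_sq i2
    have h1 : fixedBy (G ⧸ M) i = {c} :=
      Set.eq_singleton_iff_unique_mem.2 ⟨hc, fun d hd => S.toR1.eq_of_invol_fix i1 i2 hd hc⟩
    simp [h1]

end Cfsg.Agent.H10.TpH
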